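import Cfsg.Agent.Lib.AutPSU.BalanceGraph
import Cfsg.Agent.Lib.AutPSU.Sylow
import Cfsg.Agent.Lib.Balance.SUScalar
import Cfsg.Agent.Lib.Balance.FixPow
import Cfsg.Agent.Lib.Classical.UnitaryThreeTwo
import Cfsg.Agent.Lib.Classical.UnitarySimple

/-!
Local balance at field automorphisms of `PSU_n`.
-/

set_option autoImplicit false

namespace Cfsg.Agent.Lib.AutPSU

open Matrix Cfsg.Agent.Lib.Forms Cfsg.Agent.Lib.Classical
open Cfsg.Agent.Lib.UnitaryConj (qHom tstar)

universe u v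

variable {n : ℕ}

/-- A normal subgroup of `PSU(3,2)` of order prime to `3` is trivial. -/
theorem bot_three_two {K : Type v} [Field K] [Fintype K] (hK : Fintype.card K = 4)
    {R : Subgroup (P 3 K 2)} (hR : R.Normal) (hc : (Nat.card R).Coprime 3) : R = ⊥ := by
  classical
  have hK' : Fintype.card K = 2 ^ 2 := by rw [hK]; norm_num
  obtain ⟨N, hN, h9, -, -⟩ := UnitaryThreeTwo.structure_thm hK
  obtain ⟨w, D₀, P₀, V, W, hw1, hw3, hD, hP, -, -, -, -, -, -, rD3, rP3, -⟩ := UnitaryThreeTwo.exists_gens hK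
  have h72 : Nat.card (P 3 K 2) = 72 := (Cfsg.Agent.S0282.result hK).1
  have hidx : Nat.card (P 3 K 2 ⧸ N) = 8 := by
    have h := N.card_eq_card_quotient_mul_card_subgroup
    have h' : 72 = Nat.card (P 3 K 2 ⧸ N) * 9 := by rw [← h72, ← h9]; exact h
    omega
  have h3N : ∀ x : P 3 K 2, x ^ 3 = 1 → x ∈ N := fun x hx => by
    have h1 : orderOf (QuotientGroup.mk x : P 3 K 2 ⧸ N) ∣ 3 :=
      orderOf_dvd_of_pow_eq_one (by rw [← QuotientGroup.mk_pow, hx, QuotientGroup.mk_one])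
    have h2 := orderOf_dvd_natCard (QuotientGroup.mk x : P 3 K 2 ⧸ N)
    rw [hidx] at h2
    exact (QuotientGroup.eq_one_iff x).1
      (orderOf_eq_one_iff.1 (Nat.eq_one_of_dvd_coprimes (by norm_num : Nat.Coprime 3 8) h1 h2))
  have hint : R ⊓ N = ⊥ := by
    refine Subgroup.eq_bot_of_card_eq _ (Nat.eq_one_of_dvd_coprimes (hc.pow_right 2)
      (Subgroup.card_dvd_of_le inf_le_left) ?_)
    rw [show 3 ^ 2 = Nat.card N by rw [h9]; norm_num]
    exact Subgroup.card_dvd_of_le inf_le_right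
  have hcomm : ∀ z ∈ R, ∀ x ∈ N, z * x = x * z := fun z hz x hx => by
    have hmem : z * x * z⁻¹ * x⁻¹ ∈ R ⊓ N := by
      refine Subgroup.mem_inf.2 ⟨?_, mul_mem (hN.conj_mem x hx z) (inv_mem hx)⟩
      rw [show z * x * z⁻¹ * x⁻¹ = z * (x * z⁻¹ * x⁻¹) by group]
      exact mul_mem hz (hR.conj_mem _ (inv_mem hz) x)
    rwa [hint, Subgroup.mem_bot, mul_inv_eq_one, mul_inv_eq_iff_eq_mul] at hmem
  refine (Subgroup.eq_bot_iff_forall _).2 fun z hz => ?_
  have hz8 : z ^ 2 ^ 3 = 1 := by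
    refine orderOf_dvd_iff_pow_eq_one.1 ?_
    have h1 : orderOf z ∣ Nat.card R := by
      rw [show orderOf z = orderOf (⟨z, hz⟩ : R) from Subgroup.orderOf_coe (⟨z, hz⟩ : R)]
      exact orderOf_dvd_natCard _
    have h2 : orderOf z ∣ 2 ^ 3 * 3 ^ 2 := by
      have := orderOf_dvd_natCard z
      rw [h72] at this
      exact this
    exact Nat.Coprime.dvd_of_dvd_mul_right ((hc.pow_right 2).of_dvd_left h1) h2
  haveI : Fact (Nat.Prime 2) := ⟨Nat.prime_two⟩
  haveI : CharP K 2 := charP_of_card_eq_prime_pow (R := K) (f := 2) hK'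
  obtain ⟨s, rfl, hs⟩ := exists_unip_lift (p := 2) hK' (by norm_num : 1 ≤ 3) hz8
  have h2K : (2 : K) = 0 := by exact_mod_cast CharP.cast_eq_zero K 2
  have htr : (mat s).trace = 1 := by
    have h := (Matrix.isNilpotent_trace_of_isNilpotent hs).eq_zero
    rw [Matrix.trace_sub, Matrix.trace_one, Fintype.card_fin, sub_eq_zero] at h
    rw [h]; push_cast
    linear_combination h2K
  have hex : ∀ x : S 3 K 2, pr x ∈ N → mat s * mat x = mat x * mat s := fun x hx => by
    have h := hcomm _ hz _ hx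
    rw [← map_mul, ← map_mul] at h
    obtain ⟨l, hl⟩ := Herm.scalar_of_mem_center_SU hK' (by norm_num : 1 ≤ 3) (QuotientGroup.eq.1 h.symm)
    have e : mat (s * x) = l • mat (x * s) := by
      have e1 : mat (s * x) = mat (x * s) * mat ((x * s)⁻¹ * (s * x)) := by
        rw [← mat_mul, mul_inv_cancel_left]
      rw [e1, show mat ((x * s)⁻¹ * (s * x)) = l • 1 from hl, Matrix.mul_smul, mul_one]
    rw [mat_mul, mat_mul] at e
    have hxi : mat x * mat x⁻¹ = 1 := by rw [← mat_mul, mul_inv_cancel, mat_one]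
    have hxi' : mat x⁻¹ * mat x = 1 := by rw [← mat_mul, inv_mul_cancel, mat_one]
    have e2 := congrArg (fun X => (X * mat x⁻¹).trace) e
    simp only [Matrix.smul_mul, Matrix.trace_smul, mul_assoc, hxi, mul_one] at e2
    rw [Matrix.trace_mul_comm (mat x) (mat s * mat x⁻¹), mul_assoc, hxi', mul_one, htr, smul_eq_mul,
      mul_one] at e2
    rw [e, ← e2, one_smul]
  have eD := hex D₀ (h3N _ rD3)
  have eP := hex P₀ (h3N _ rP3)
  rw [hD] at eD
  rw [hP] at eP
  have hw0 : w ≠ 0 := fun h => by rw [h] at hw3; simp at hw3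
  have hw2 : w ^ 2 ≠ 1 := fun h => hw1 (by rw [pow_succ, h, one_mul] at hw3; exact hw3)
  have hsc : mat s = mat s 0 0 • 1 := by
    have d01 := congrFun (congrFun eD 0) 1
    have d02 := congrFun (congrFun eD 0) 2
    have d10 := congrFun (congrFun eD 1) 0
    have d12 := congrFun (congrFun eD 1) 2
    have d20 := congrFun (congrFun eD 2) 0
    have d21 := congrFun (congrFun eD 2) 1
    have p01 := congrFun (congrFun eP 0) 1
    have p12 := congrFun (congrFun eP 1) 2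
    simp [Matrix.mul_apply, Fin.sum_univ_three] at d01 d02 d10 d12 d20 d21 p01 p12
    ext i j
    fin_cases i <;> fin_cases j <;> simp [Matrix.one_apply] <;> grind
  refine (QuotientGroup.eq_one_iff s).2 (Subgroup.mem_center_iff.2 fun t => mat_ext ?_)
  rw [mat_mul, mat_mul, hsc, Matrix.smul_mul, Matrix.mul_smul, one_mul, mul_one]

variable {F : Type u} [Field F] [Fintype F] {q : ℕ} (hF : Fintype.card F = q ^ 2)
variable {F₀ : Type v} [Field F₀] [Fintype F₀] {q0 : ℕ} (ι : F₀ →+* F) (hF₀ : Fintype.card F₀ = q0 ^ 2)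
  (hq0 : ∀ x, ι (x ^ q0) = ι x ^ q)

omit [Fintype F₀] in
include hq0 in
theorem tstar_ι [Fintype F₀] (hF₀ : Fintype.card F₀ = q0 ^ 2) (X : Matrix (Fin n) (Fin n) F₀) :
    tstar hF (X.map ι) = (tstar hF₀ X).map ι := by
  ext i j
  exact (hq0 _).symm

include hF hF₀ hq0 in
theorem lift_mem {g : GL (Fin n) F₀} :
    GeneralLinearGroup.map ι g ∈ Cfsg.GU n F q ↔ g ∈ Cfsg.GU n F₀ q0 := by
  rw [UnitaryConj.mem_GU_iff hF, UnitaryConj.mem_GU_iff hF₀,
    show ((GeneralLinearGroup.map ι g : GL (Fin n) F) : Matrix (Fin n) (Fin n) F) =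
      (g : Matrix (Fin n) (Fin n) F₀).map ι from rfl,
    tstar_ι hF ι hq0 hF₀, ← Matrix.map_mul]
  constructor
  · intro h
    refine Matrix.map_injective ι.injective ?_
    show _ = (1 : Matrix (Fin n) (Fin n) F₀).map ι
    rw [Matrix.map_one _ (map_zero ι) (map_one ι)]
    exact h
  · intro h
    rw [h, Matrix.map_one _ (map_zero ι) (map_one ι)]

/-- The embedding of the subfield group. -/
noncomputable def liftSU : S n F₀ q0 →* S n F q :=
  ((Matrix.SpecialLinearGroup.map ι).comp (Cfsg.SU n F₀ q0).subtype).codRestrict (Cfsg.SU n F q) fun s =>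
    (lift_mem hF ι hF₀ hq0 (g := Matrix.SpecialLinearGroup.toGL s.1)).2 s.2

/-- The subfield group acting by conjugation. -/
noncomputable def subHom : S n F₀ q0 →* MulAut (P n F q) :=
  MulAut.conj.comp (pr.comp (liftSU hF ι hF₀ hq0))

theorem subHom_apply (s : S n F₀ q0) :
    subHom hF ι hF₀ hq0 s = guHom n F q (suGU (liftSU hF ι hF₀ hq0 s)) := inn_eq' _

theorem mat_liftSU (s : S n F₀ q0) : mat (liftSU hF ι hF₀ hq0 s) = (mat s).map ι := rfl

theorem center_le_ker (hn : 3 ≤ n) : Subgroup.center (S n F₀ q0) ≤ (subHom hF ι hF₀ hq0 (n := n)).ker := by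
  intro s hs
  obtain ⟨a, ha⟩ := Herm.scalar_of_mem_center_SU hF₀ (by omega) hs
  rw [MonoidHom.mem_ker, subHom_apply]
  refine guHom_scalar (l := ι a) fun z => ?_
  show mat (liftSU hF ι hF₀ hq0 s) *ᵥ z = _
  rw [mat_liftSU, show mat s = a • 1 from ha, map_smul_ι, Matrix.map_one _ (map_zero ι) (map_one ι),
    smul_mulVec, one_mulVec]

theorem subHom_eq_one (hn : 3 ≤ n) {s : S n F₀ q0} (h : subHom hF ι hF₀ hq0 s = 1) :
    ∃ r : F₀, mat s = r • 1 := by
  rw [subHom_apply, guHom_eq_one_iff hF hn] at h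
  obtain ⟨l, hl⟩ := h
  have e : (mat s).map ι = l • (1 : Matrix (Fin n) (Fin n) F) :=
    Matrix.ext_iff_mulVec.2 fun z => by rw [smul_mulVec, one_mulVec]; exact hl z
  let i0 : Fin n := ⟨0, by omega⟩
  refine ⟨mat s i0 i0, Matrix.map_injective ι.injective ?_⟩
  have h00 := congrFun (congrFun e i0) i0
  rw [Matrix.map_apply, Matrix.smul_apply, Matrix.one_apply_eq, smul_eq_mul, mul_one] at h00
  dsimp only
  rw [map_smul_ι, e, h00, Matrix.map_one _ (map_zero ι) (map_one ι)]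

include hF hF₀ hq0 in
/-- Only Galois elements centralise the subfield group. -/
theorem cent_subHom (hn : 3 ≤ n) (h32 : ¬ (n = 3 ∧ q = 2)) {c : MulAut (P n F q)}
    (h : ∀ t ∈ (subHom hF ι hF₀ hq0 (n := n)).range, c * t = t * c) :
    ∃ τ : F ≃+* F, c = D (fieldSU τ) ∧ ∀ a, τ (ι a) = ι a := by
  obtain ⟨x, τ, rfl⟩ := exists_std hF hn h32 c
  obtain ⟨hτ, z, hz⟩ := Balance.su_scalar hn hF₀ ι τ (x : GL (Fin n) F) fun v k hv hk => by
    set s := suGU (liftSU hF ι hF₀ hq0 (T hF₀ v k)) with hs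
    have e1 : guHom n F q (x * mapGU τ s) = guHom n F q (s * x) := by
      refine mul_right_cancel (b := D (fieldSU τ)) ?_
      rw [map_mul, map_mul, mul_assoc, mul_assoc, ← twist_GU τ s, ← mul_assoc]
      have := h _ ⟨T hF₀ v k, rfl⟩
      rw [subHom_apply, ← hs] at this
      exact this
    obtain ⟨l, hl⟩ := (guHom_eq_iff hF hn).1 e1
    exact ⟨l, scal_rel (A := mapGL τ (s : GL (Fin n) F)) (B := (s : GL (Fin n) F)) hl⟩
  refine ⟨τ, ?_, hτ⟩
  rw [guHom_scalar (l := z) (g := x) fun w => by rw [hz, smul_mulVec, one_mulVec], one_mul]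

/-- The injective form on the simple group. -/
noncomputable def subHomP (hn : 3 ≤ n) : P n F₀ q0 →* MulAut (P n F q) :=
  QuotientGroup.lift (Subgroup.center (S n F₀ q0)) (subHom hF ι hF₀ hq0) (center_le_ker hF ι hF₀ hq0 hn)

/-- Normal subgroups of coprime order in the image of the subfield group. -/
theorem bot_of_subHom (hn : 3 ≤ n) [Finite (MulAut (P n F q))] {p r : ℕ} [Fact p.Prime] [CharP F₀ r]
    (hr : r.Prime) (hpr : p ≠ r) (hdvd : p ∣ Nat.card (subHom hF ι hF₀ hq0 (n := n)).range)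
    {R : Subgroup (MulAut (P n F q))} (hR : R ≤ (subHom hF ι hF₀ hq0 (n := n)).range)
    (hRn : ∀ t ∈ (subHom hF ι hF₀ hq0 (n := n)).range, ∀ r ∈ R, t * r * t⁻¹ ∈ R)
    (hc : (Nat.card R).Coprime p) : R = ⊥ := by
  classical
  have hp : p.Prime := Fact.out
  set θ := subHomP hF ι hF₀ hq0 hn with hθ
  have hinj : Function.Injective θ := by
    rw [injective_iff_map_eq_one]
    intro z hz
    obtain ⟨s, rfl⟩ := pr_surjective z
    obtain ⟨a, ha⟩ := subHom_eq_one hF ι hF₀ hq0 hn hz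
    refine (QuotientGroup.eq_one_iff s).2 (Subgroup.mem_center_iff.2 fun t => mat_ext ?_)
    rw [mat_mul, mat_mul, ha, Matrix.smul_mul, Matrix.mul_smul, one_mul, mul_one]
  have hrange : θ.range = (subHom hF ι hF₀ hq0 (n := n)).range := by
    apply le_antisymm
    · rintro _ ⟨z, rfl⟩; obtain ⟨s, rfl⟩ := pr_surjective z; exact ⟨s, rfl⟩
    · rintro _ ⟨s, rfl⟩; exact ⟨pr s, rfl⟩
  rw [← hrange] at hR hRn hdvd
  by_cases hsmall : n = 3 ∧ q0 = 2
  swap
  · haveI : IsSimpleGroup (P n F₀ q0) := UnitarySimple.isSimpleGroup_PSU hF₀ hn hsmall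
    rcases Balance.bot_or_range θ (fun K hK => hK.eq_bot_or_eq_top.imp (fun h => by rw [h]; exact bot_le)
      fun h => by rw [h, top_sup_eq]) hR hRn with h | h
    · exact h
    · exfalso
      rw [h] at hc
      exact hp.one_lt.ne' (Nat.eq_one_of_dvd_coprimes hc hdvd dvd_rfl)
  obtain ⟨rfl, rfl⟩ := hsmall
  set R' := R.comap θ with hR'
  have hR'n : R'.Normal := ⟨fun z hz g => by
    show θ (g * z * g⁻¹) ∈ R
    rw [map_mul, map_mul, map_inv]
    exact hRn _ ⟨g, rfl⟩ _ hz⟩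
  have hmap : R'.map θ = R := Subgroup.map_comap_eq_self hR
  have hcard : Nat.card R' = Nat.card R := by rw [← hmap, Subgroup.card_map_of_injective hinj]
  have hr2 : r = 2 := by
    obtain ⟨k, -, hk⟩ := FiniteField.card F₀ r
    exact (Nat.prime_dvd_prime_iff_eq hr Nat.prime_two).1
      (hr.dvd_of_dvd_pow (show r ∣ 2 ^ 2 by rw [← hF₀, hk]; exact dvd_pow_self _ k.ne_zero))
  have hp3 : p = 3 := by
    have h72 : Nat.card θ.range = 72 := by
      rw [← Nat.card_congr (MonoidHom.ofInjective hinj).toEquiv]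
      exact (Cfsg.Agent.S0282.result (F := F₀) (by rw [hF₀]; norm_num)).1
    rw [h72, show 72 = 2 ^ 3 * 3 ^ 2 by norm_num] at hdvd
    rcases (Nat.Prime.dvd_mul hp).1 hdvd with h | h
    · exact absurd ((Nat.prime_dvd_prime_iff_eq hp Nat.prime_two).1 (hp.dvd_of_dvd_pow h)) (hr2 ▸ hpr)
    · exact (Nat.prime_dvd_prime_iff_eq hp Nat.prime_three).1 (hp.dvd_of_dvd_pow h)
  have h := bot_three_two (by rw [hF₀]; norm_num) hR'n (by rw [hcard]; exact hp3 ▸ hc)
  rw [← hmap, h, Subgroup.map_bot]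

include hF in
/-- Local balance at a standard field automorphism. -/
theorem field_core (hn : 3 ≤ n) (h32 : ¬ (n = 3 ∧ q = 2)) {p r : ℕ} [Fact p.Prime] [Fact r.Prime] [CharP F r]
    (hpr : p ≠ r) (hodd : Odd p) {σ : F ≃+* F} (hσ : orderOf σ = p)
    (hι : ∀ c : F, σ c = c ↔ c ∈ Set.range ι)
    (𝒢 : Subgroup (MulAut (P n F q))) (hinn : Cfsg.Inn (P n F q) ≤ 𝒢) (hF₀ : Fintype.card F₀ = q0 ^ 2)
    (hq0 : ∀ x, ι (x ^ q0) = ι x ^ q) :
    Cfsg.pPrimeCore p ↥(𝒢 ⊓ Subgroup.centralizer {(D (fieldSU σ) : MulAut (P n F q))}) ≠ ⊥ ↔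
      Nat.Coprime p (Nat.card ↥(Cfsg.Inn (P n F q) ⊓
        Subgroup.centralizer {(D (fieldSU σ) : MulAut (P n F q))})) := by
  classical
  haveI : Finite (MulAut (P n F q)) := Finite.of_injective _ DFunLike.coe_injective
  haveI : Nonempty (Fin n) := ⟨⟨0, by omega⟩⟩
  have hp : p.Prime := Fact.out
  haveI : CharP F₀ r := (RingHom.charP_iff ι ι.injective r).2 ‹_›
  set S₀ : MulAut (P n F q) := D (fieldSU σ) with hS₀
  set M := Cfsg.Inn (P n F q) ⊓ Subgroup.centralizer {S₀} with hM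
  set T₀ := (subHom hF ι hF₀ hq0 (n := n)).range with hT
  have hfix : ∀ s : S n F₀ q0, fieldSU σ (liftSU hF ι hF₀ hq0 s) = liftSU hF ι hF₀ hq0 s := fun s =>
    mat_ext (Matrix.ext fun i j => (hι _).2 ⟨mat s i j, rfl⟩)
  have hTM : T₀ ≤ M := by
    rintro _ ⟨s, rfl⟩
    refine Subgroup.mem_inf.2 ⟨⟨_, rfl⟩, ?_⟩
    rw [Subgroup.mem_centralizer_singleton_iff]
    refine MulEquiv.ext fun z => ?_
    simp only [subHom, MonoidHom.comp_apply, MulAut.mul_apply, MulAut.conj_apply, map_mul, map_inv, hS₀, D_pr, hfix]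
  have hMelt : ∀ m ∈ M, ∃ k : GL (Fin n) F₀, k ∈ Cfsg.GU n F₀ q0 ∧ ∃ hk : GeneralLinearGroup.map ι k ∈ Cfsg.GU n F q,
      m = guHom n F q ⟨GeneralLinearGroup.map ι k, hk⟩ := by
    rintro m ⟨⟨z, rfl⟩, hm⟩
    obtain ⟨s, rfl⟩ := pr_surjective z
    rw [inn_eq'] at hm ⊢
    obtain ⟨c, h, hh, e⟩ := (centralizer_iff hF hn hσ hp.pos ι hι hF₀ hq0).1 hm
    have hent : ∀ i j, ∃ a : F₀, ι a = (h : GL (Fin n) F) i j := fun i j => (hι _).1
      (congrArg (fun M : ↥(Cfsg.GU n F q) => (M : GL (Fin n) F) i j) hh)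
    choose a ha using hent
    have hmap : (Matrix.of a).map ι = ((h : GL (Fin n) F) : Matrix (Fin n) (Fin n) F) := Matrix.ext ha
    have hdet : (Matrix.of a).det ≠ 0 := fun h0 => by
      have := congrArg ι h0
      rw [RingHom.map_det, map_zero] at this
      exact (GeneralLinearGroup.det (h : GL (Fin n) F)).ne_zero
        (by rw [GeneralLinearGroup.val_det_apply, ← hmap]; exact this)
    have hkh : GeneralLinearGroup.map ι (GeneralLinearGroup.mkOfDetNeZero _ hdet) = (h : GL (Fin n) F) :=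
      Units.ext hmap
    refine ⟨GeneralLinearGroup.mkOfDetNeZero _ hdet, (lift_mem hF ι hF₀ hq0).1 (hkh ▸ h.2), hkh ▸ h.2, ?_⟩
    rw [e, map_mul, guHom_scalGU, one_mul]
    exact congrArg (guHom n F q) (Subtype.ext hkh.symm)
  have hTn : ∀ m ∈ M, ∀ t ∈ T₀, m * t * m⁻¹ ∈ T₀ := by
    rintro m hm _ ⟨s, rfl⟩
    obtain ⟨k, hk, hk', rfl⟩ := hMelt m hm
    refine ⟨conjElt ⟨k, GU_le_Sim hk⟩ s, ?_⟩
    rw [subHom_apply, subHom_apply, ← map_inv, ← map_mul, ← map_mul]
    refine congrArg (guHom n F q) (Subtype.ext (Units.ext ?_))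
    show (mat (conjElt ⟨k, GU_le_Sim hk⟩ s)).map ι = _
    rw [conjElt_coe, Matrix.map_mul, Matrix.map_mul]
    rfl
  have hpow : ∀ m ∈ M, m ^ (q0 + 1) ∈ T₀ := by
    intro m hm
    obtain ⟨k, hk, hk', rfl⟩ := hMelt m hm
    have hd : ((k ^ (q0 + 1) : GL (Fin n) F₀) : Matrix (Fin n) (Fin n) F₀).det = 1 := by
      have h := congrArg Matrix.det ((UnitaryConj.mem_GU_iff hF₀ k).1 hk)
      rw [det_mul, det_one, show tstar hF₀ (k : Matrix (Fin n) (Fin n) F₀) =
        ((k : Matrix (Fin n) (Fin n) F₀).map (qHom hF₀))ᵀ from rfl, det_transpose, ← RingHom.mapMatrix_apply,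
        ← RingHom.map_det] at h
      rw [Units.val_pow_eq_pow_val, det_pow, pow_succ]
      exact h
    refine ⟨⟨⟨_, hd⟩, pow_mem hk (q0 + 1)⟩, ?_⟩
    rw [subHom_apply, ← map_pow]
    refine congrArg (guHom n F q) (Subtype.ext (Units.ext ?_))
    rw [SubmonoidClass.coe_pow, ← map_pow]
    rfl
  obtain ⟨e₀, f₀, HP⟩ := exists_pair hF₀ (n := n) (by omega)
  obtain ⟨κ, hκ0, hκ⟩ := exists_skew_ne_zero (F := F₀) hF₀
  have hroot : subHom hF ι hF₀ hq0 (T hF₀ e₀ κ) ≠ 1 := fun h => by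
    obtain ⟨a, ha⟩ := subHom_eq_one hF ι hF₀ hq0 hn h
    refine tr_ne_one hF₀ (by omega) HP.valid_e hκ hκ0 ((QuotientGroup.eq_one_iff _).2 ?_)
    refine Subgroup.mem_center_iff.2 fun t => mat_ext ?_
    rw [mat_mul, mat_mul, ha, Matrix.smul_mul, Matrix.mul_smul, one_mul, mul_one]
  have hne : M ≠ ⊥ := fun h => hroot (by
    have := hTM ⟨T hF₀ e₀ κ, rfl⟩
    rwa [h, Subgroup.mem_bot] at this)
  have hMn : ∀ c ∈ 𝒢 ⊓ Subgroup.centralizer {S₀}, ∀ z ∈ M, c * z * c⁻¹ ∈ M := by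
    rintro c ⟨-, hc⟩ z ⟨⟨a, rfl⟩, hz⟩
    exact Subgroup.mem_inf.2 ⟨⟨c a, MulEquiv.ext fun w => by simp⟩, mul_mem (mul_mem hc hz) (inv_mem hc)⟩
  have hcent : ∀ c, (orderOf c).Coprime p → (∀ t ∈ T₀, c * t = t * c) → c = 1 := by
    intro c hc ht
    obtain ⟨τ, rfl, hτ⟩ := cent_subHom hF ι hF₀ hq0 hn h32 ht
    obtain ⟨j, hj⟩ := Balance.exists_pow_of_fix σ τ fun x hx => by
      obtain ⟨a, rfl⟩ := (hι x).1 hx
      exact hτ a
    refine Balance.eq_one_of_pow hp (σ := (D (fieldSU σ) : MulAut (P n F q))) (j := j) ?_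
      (by rw [hj, map_pow, map_pow]) hc
    rw [orderOf_fieldSU hF hn, hσ]
  refine Balance.core_ne_bot_iff' (p := p) (le_inf (inf_le_left.trans hinn) inf_le_right) hMn hTM hne
    (fun hpM R hR hRn hc => ?_) fun c _ hc ht => hcent c hc ht
  have hpT : p ∣ Nat.card T₀ := by
    by_contra hnT
    obtain ⟨m, hm⟩ := exists_prime_orderOf_dvd_card' (G := M) p hpM
    have hq : p ∣ q0 + 1 := by
      by_contra hnq
      refine hnT ?_
      have hord : orderOf (m.1 ^ (q0 + 1)) = p := by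
        rw [Nat.Coprime.orderOf_pow]
        · rw [Subgroup.orderOf_coe, hm]
        · rw [Subgroup.orderOf_coe, hm]; exact hp.coprime_iff_not_dvd.2 hnq
      have h := orderOf_dvd_natCard (⟨_, hpow m.1 m.2⟩ : T₀)
      rwa [Subgroup.orderOf_mk, hord] at h
    obtain ⟨a, ha⟩ := exists_prime_orderOf_dvd_card' (G := F₀ˣ) p (by
      rw [Nat.card_units, Nat.card_eq_fintype_card, hF₀,
        show q0 ^ 2 - 1 = (q0 + 1) * (q0 - 1) by simpa using Nat.sq_sub_sq q0 1]
      exact dvd_mul_of_dvd_left hq _)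
    have haq : (a : F₀) * (a : F₀) ^ q0 = 1 := by
      obtain ⟨k, hk⟩ := hq
      rw [← pow_succ', hk, pow_mul, ← Units.val_pow_eq_pow_val, ← ha, pow_orderOf_eq_one, Units.val_one, one_pow]
    have haval : (a : F₀) ≠ 1 := fun h => by
      rw [Units.val_eq_one] at h
      rw [h, orderOf_one] at ha
      exact hp.one_lt.ne ha
    let i : Fin n := ⟨0, by omega⟩
    let j : Fin n := ⟨1, by omega⟩
    let k : Fin n := ⟨2, by omega⟩
    have hij : i ≠ j := by simp [i, j, Fin.ext_iff]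
    let d : Fin n → F₀ := fun x => if x = i then (a : F₀) else if x = j then (a : F₀)⁻¹ else 1
    have hd1 : (diagonal d).det = 1 := (Matrix.SpecialLinearGroup.diag2n hij (a : F₀) a.ne_zero).2
    have hdn : ∀ x, d x * d x ^ q0 = 1 := fun x => by
      simp only [d]
      split_ifs
      · exact haq
      · rw [inv_pow, ← mul_inv, haq, inv_one]
      · rw [one_pow, one_mul]
    let w : S n F₀ q0 := ⟨⟨diagonal d, hd1⟩, fun u v => by
      show ∑ x, (diagonal d *ᵥ u) x * ((diagonal d *ᵥ v) x) ^ q0 = ∑ x, u x * v x ^ q0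
      simp only [mulVec_diagonal]
      refine Finset.sum_congr rfl fun x _ => ?_
      rw [mul_pow]
      linear_combination (u x * v x ^ q0) * hdn x⟩
    have hw1 : subHom hF ι hF₀ hq0 w ≠ 1 := fun h => by
      obtain ⟨c, hc'⟩ := subHom_eq_one hF ι hF₀ hq0 hn h
      have hd : ∀ x, d x = c := fun x => by
        have := congrFun (congrFun hc' x) x
        rw [Matrix.smul_apply, Matrix.one_apply_eq, smul_eq_mul, mul_one] at this
        exact (diagonal_apply_eq d x).symm.trans this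
      have e : d i = d k := (hd i).trans (hd k).symm
      simp [d, i, j, k, Fin.ext_iff] at e
      exact haval (by exact_mod_cast congrArg (fun z : F₀ => z) (show (a : F₀) = 1 by simpa using e))
    have hw2 : subHom hF ι hF₀ hq0 w ^ p = 1 := by
      rw [← map_pow]
      have e : w ^ p = 1 := by
        refine mat_ext ?_
        show ((w ^ p : S n F₀ q0).1 : Matrix (Fin n) (Fin n) F₀) = 1
        rw [SubmonoidClass.coe_pow, Matrix.SpecialLinearGroup.coe_pow]
        show diagonal d ^ p = 1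
        rw [Matrix.diagonal_pow, ← Matrix.diagonal_one]
        congr 1
        funext x
        have hap : (a : F₀) ^ p = 1 := by
          rw [← Units.val_pow_eq_pow_val, ← ha, pow_orderOf_eq_one, Units.val_one]
        simp only [Pi.pow_apply, d]
        split_ifs
        · exact hap
        · rw [inv_pow, hap, inv_one]
        · exact one_pow p
      rw [e, map_one]
    refine hnT ?_
    let z : T₀ := ⟨subHom hF ι hF₀ hq0 w, ⟨w, rfl⟩⟩
    have h : orderOf (subHom hF ι hF₀ hq0 w) ∣ Nat.card T₀ := (Subgroup.orderOf_coe z).symm ▸ orderOf_dvd_natCard z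
    rwa [orderOf_eq_prime hw2 hw1] at h
  exact Balance.bot_of_normal hTM hTn
    (fun R hR hRn hc => bot_of_subHom hF ι hF₀ hq0 hn (r := r) Fact.out hpr hpT hR hRn hc)
    (fun c _ hc ht => hcent c hc ht) hR hRn hc

end Cfsg.Agent.Lib.AutPSU
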