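import Cfsg.Agent.Lib.AutPSU.BalanceGraph
import Cfsg.Agent.Lib.AutPSU.BalanceField
import Cfsg.Agent.Lib.AutPSL.GraphField

/-!
Local balance at outer automorphisms of prime order of `PSU_n(q)`.
-/

set_option autoImplicit false

namespace Cfsg.Agent.Lib.AutPSU

open Matrix Cfsg.Agent.Lib.Forms Cfsg.Agent.Lib.Classical
open Cfsg.Agent.Lib.UnitaryConj (qHom tstar)

universe u

variable {n : ℕ} {F : Type u} [Field F] [Fintype F] {q : ℕ} (hF : Fintype.card F = q ^ 2)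

include hF in
/-- Conjugation does not affect the criterion. -/
theorem exists_transfer [Finite (MulAut (P n F q))] (hn : 3 ≤ n) (𝒢 : Subgroup (MulAut (P n F q)))
    (hinn : Cfsg.Inn (P n F q) ≤ 𝒢) (a x S₀ : MulAut (P n F q)) (h : a * x * a⁻¹ = S₀) (p : ℕ) :
    ∃ 𝒢' : Subgroup (MulAut (P n F q)), Cfsg.Inn (P n F q) ≤ 𝒢' ∧
      (Cfsg.pPrimeCore p ↥(𝒢 ⊓ Subgroup.centralizer {x}) ≠ ⊥ ↔
        Cfsg.pPrimeCore p ↥(𝒢' ⊓ Subgroup.centralizer {S₀}) ≠ ⊥) ∧
      Nat.card ↥(MonoidHom.eqLocus x.toMonoidHom (MonoidHom.id (P n F q))) =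
        Nat.card ↥(Cfsg.Inn (P n F q) ⊓ Subgroup.centralizer {S₀}) := by
  subst h
  obtain ⟨E⟩ := Balance.centralizer_conj_equiv 𝒢 a x
  refine ⟨𝒢.map (MulAut.conj a).toMonoidHom, ?_, Balance.core_ne_bot_congr E, ?_⟩
  · rintro _ ⟨k, rfl⟩
    exact ⟨MulAut.conj (a.symm k), hinn ⟨_, rfl⟩, MulEquiv.ext fun w => by simp⟩
  · obtain ⟨E'⟩ := Balance.centralizer_conj_equiv (Cfsg.Inn (P n F q)) a x
    have hmap : (Cfsg.Inn (P n F q)).map (MulAut.conj a).toMonoidHom = Cfsg.Inn (P n F q) := by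
      apply le_antisymm
      · rintro _ ⟨_, ⟨k, rfl⟩, rfl⟩
        exact ⟨a k, MulEquiv.ext fun w => by simp⟩
      · rintro _ ⟨k, rfl⟩
        exact ⟨MulAut.conj (a.symm k), ⟨_, rfl⟩, MulEquiv.ext fun w => by simp⟩
    rw [← Balance.card_inn_inf (center_P hF hn), Nat.card_congr E'.toEquiv, hmap]

include hF in
/-- The simple case excludes `PSU(3,2)`. -/
theorem not_three_two (hK : IsSimpleGroup (P n F q)) : ¬ (n = 3 ∧ q = 2) := by
  rintro ⟨rfl, rfl⟩
  obtain ⟨N, hN, h9, -⟩ := UnitaryThreeTwo.structure_thm (F := F) (by rw [hF]; norm_num)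
  have h72 : Nat.card (P 3 F 2) = 72 := (Cfsg.Agent.S0282.result (F := F) (by rw [hF]; norm_num)).1
  rcases hK.eq_bot_or_eq_top_of_normal N hN with h | h <;> rw [h] at h9
  · simp at h9
  · rw [Subgroup.card_top, show Nat.card (Cfsg.PSU 3 F 2) = 72 from h72] at h9
    omega

include hF in
/-- Local balance. -/
theorem balance {r : ℕ} [Fact r.Prime] [CharP F r] (hn : 3 ≤ n) (hK : IsSimpleGroup (P n F q))
    (𝒢 : Subgroup (MulAut (P n F q))) (hinn : ∀ k : P n F q, MulAut.conj k ∈ 𝒢) {p : ℕ} [Fact p.Prime]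
    (hpr : p ≠ r) {β : MulAut (P n F q)} (hord : orderOf β = p) (hnot : ¬ Cfsg.IsInnerDiagonalAutPSU β) :
    Cfsg.pPrimeCore p ↥(𝒢 ⊓ Subgroup.centralizer {β}) ≠ ⊥ ↔
      ((∃ γ φ : MulAut (P n F q), Cfsg.IsInnerDiagonalAutPSU γ ∧ (∃ σ : F ≃+* F, Cfsg.IsFieldAutPSUOf σ φ) ∧
        β = φ.trans γ) ∧
        Nat.Coprime p (Nat.card ↥(MonoidHom.eqLocus β.toMonoidHom (MonoidHom.id (P n F q))))) := by
  classical
  haveI : Finite (MulAut (P n F q)) := Finite.of_injective _ DFunLike.coe_injective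
  have hp : p.Prime := Fact.out
  have h32 := not_three_two hF hK
  have hinn' : Cfsg.Inn (P n F q) ≤ 𝒢 := fun z hz => by obtain ⟨k, rfl⟩ := hz; exact hinn k
  obtain ⟨g, σ, rfl⟩ := exists_std hF hn h32 β
  have hid : Cfsg.IsInnerDiagonalAutPSU (guHom n F q g) := innerDiag_iff.2 ⟨⟨g, GU_le_Sim g.2⟩, g.2, rfl⟩
  have hσ1 : σ ≠ 1 := fun h => hnot (by rw [h, map_one, map_one, mul_one]; exact hid)
  have hpow : (guHom n F q g * D (fieldSU σ)) ^ p = 1 := by rw [← hord]; exact pow_orderOf_eq_one _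
  have hσp : orderOf σ = p := orderOf_eq_prime (by
    have e := hpow
    rw [AutPSL.tw_pow (mapGU σ) (guHom n F q) _ (twist_GU σ) g p, ← map_pow, ← map_pow] at e
    exact (std_unique hF hn e).1) hσ1
  have hft : ∃ γ φ : MulAut (P n F q), Cfsg.IsInnerDiagonalAutPSU γ ∧
      (∃ τ : F ≃+* F, Cfsg.IsFieldAutPSUOf τ φ) ∧ guHom n F q g * D (fieldSU σ) = φ.trans γ :=
    ⟨guHom n F q g, D (fieldSU σ), hid, ⟨σ, fieldAut_iff.2 rfl⟩, rfl⟩
  rw [and_iff_right hft]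
  obtain ⟨r', k, hr', hchar, hk, hqk⟩ := UnitaryConj.q_eq_pow hF
  obtain rfl : r' = r := CharP.eq F hchar ‹CharP F r›
  rcases hp.eq_two_or_odd' with rfl | hodd
  · -- graph type
    obtain rfl : σ = qAut hF := eq_qAut hF hσp
    have hoddq : Odd q := by rw [hqk]; exact (hr'.odd_of_ne_two (Ne.symm hpr)).pow
    let K : Subfield F := RingHom.eqLocusField (qAut hF).toRingHom (RingHom.id F)
    haveI : Fintype K := Fintype.ofFinite _
    have hι : ∀ c : F, qAut hF c = c ↔ c ∈ Set.range K.subtype :=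
      fun c => ⟨fun h => ⟨⟨c, h⟩, rfl⟩, by rintro ⟨⟨d, hd⟩, rfl⟩; exact hd⟩
    obtain ⟨hcore, hdvd⟩ := graph_core hF K.subtype hι hn hoddq (g := g) hord 𝒢 hinn'
    refine iff_of_false (not_not.2 hcore) fun hc => ?_
    rw [← Balance.card_inn_inf (center_P hF hn)] at hc
    exact absurd (Nat.eq_one_of_dvd_coprimes hc dvd_rfl hdvd) (by norm_num)
  · -- field type
    have hpk : p ∣ k := by
      obtain ⟨e⟩ := AutPSL.ringAut_equiv (F := F) (p := r') (f := k * 2) (by omega) (by rw [hF, hqk, pow_mul])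
      have h := orderOf_dvd_natCard (e σ)
      rw [MulEquiv.orderOf_eq, hσp, Nat.card_congr Multiplicative.toAdd, Nat.card_zmod] at h
      exact (Nat.Coprime.dvd_mul_right (hodd.coprime_two_right)).1 h
    obtain ⟨d, rfl⟩ := hpk
    have hd : 0 < d := Nat.pos_of_ne_zero fun h => by subst h; simp at hk
    letI : Fintype (GaloisField r' (2 * d)) := Fintype.ofFinite _
    have hF₀ : Fintype.card (GaloisField r' (2 * d)) = (r' ^ d) ^ 2 := by
      rw [← Nat.card_eq_fintype_card, GaloisField.card r' (2 * d) (by omega), ← pow_mul, mul_comm]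
    obtain ⟨ι, hι⟩ := AutPSL.exists_embedding (p := r') (f := p * (2 * d))
      (by rw [hF, hqk, ← pow_mul]; congr 1; ring) hσp (dvd_mul_right _ _) (GaloisField r' (2 * d))
      (by rw [hF₀, Nat.mul_div_cancel_left _ hp.pos, ← pow_mul, mul_comm])
    have hq0 : ∀ x, ι (x ^ (r' ^ d)) = ι x ^ q := embedding_pow (p := r') (k := d) ι hodd rfl hqk hF₀
    obtain ⟨a, ha⟩ := exists_conj_of_field hF hn hσp hodd ι hι hF₀ hq0 g hpow
    obtain ⟨𝒢', hin', hcore, hcard⟩ := exists_transfer hF hn 𝒢 hinn' (guHom n F q a)⁻¹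
      (guHom n F q g * D (fieldSU σ)) (D (fieldSU σ)) (by rw [ha]; group) p
    rw [hcore, hcard]
    exact field_core hF ι hn h32 (r := r') hpr hodd hσp hι 𝒢' hin' hF₀ hq0

end Cfsg.Agent.Lib.AutPSU
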