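import Cfsg.Agent.Lib.AutPSU.GraphThms
import Cfsg.Agent.Lib.AutPSL.BalanceGraph
import Cfsg.Agent.Lib.Balance.Core2
import Cfsg.Agent.Lib.Balance.Semilinear

/-!
Local balance at graph automorphisms of `PSU_n`.
-/

set_option autoImplicit false

namespace Cfsg.Agent.Lib.AutPSU

open Matrix Cfsg.Agent.Lib.Forms Cfsg.Agent.Lib.Classical
open Cfsg.Agent.Lib.UnitaryConj (qHom tstar)

universe u v

variable {n : ℕ} {F : Type u} [Field F] [Fintype F] {q : ℕ} (hF : Fintype.card F = q ^ 2)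

include hF in
theorem center_P (hn : 3 ≤ n) : Subgroup.center (P n F q) = ⊥ := by
  refine (Subgroup.eq_bot_iff_forall _).2 fun z hz => conj_injective hF hn ?_
  rw [map_one]
  refine MulEquiv.ext fun w => ?_
  rw [MulAut.conj_apply, ← Subgroup.mem_center_iff.1 hz w, mul_inv_cancel_right, MulAut.one_apply]

omit [Fintype F] in
/-- The product of two semilinear maps. -/
theorem semi_mul (x y : ↥(Cfsg.GU n F q)) (σ τ : F ≃+* F) :
    (guHom n F q x * D (fieldSU σ)) * (guHom n F q y * D (fieldSU τ)) =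
      guHom n F q (x * mapGU σ y) * D (fieldSU (σ * τ)) := by
  rw [map_mul fieldSU, map_mul D, map_mul (guHom n F q)]
  calc _ = guHom n F q x * (D (fieldSU σ) * guHom n F q y) * D (fieldSU τ) := by simp only [mul_assoc]
    _ = guHom n F q x * (guHom n F q (mapGU σ y) * D (fieldSU σ)) * D (fieldSU τ) := by rw [twist_GU σ y]
    _ = _ := by simp only [mul_assoc]

variable {F₀ : Type v} [Field F₀] [Fintype F₀] (ι : F₀ →+* F) (hι : ∀ c : F, qAut hF c = c ↔ c ∈ Set.range ι)

omit [Fintype F] [Fintype F₀] in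
theorem SC_mul (x y : Fˣ) : SC n (x * y) = SC n x * SC n y := map_mul _ x y

omit [Fintype F] [Fintype F₀] in
theorem SC_one : SC n (1 : Fˣ) = 1 := map_one _

omit [Fintype F] [Fintype F₀] in
/-- Transport of a semilinear relation. -/
theorem scal_rel {y A B : GL (Fin n) F} {l : Fˣ} (h : y * A = SC n l * (B * y)) :
    (y : Matrix (Fin n) (Fin n) F) * (A : Matrix (Fin n) (Fin n) F) =
      (l : F) • ((B : Matrix (Fin n) (Fin n) F) * (y : Matrix (Fin n) (Fin n) F)) := by
  rw [← Units.val_mul, h, SC_mul_val, Units.val_mul]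

include hι in
/-- The framework for an attached matrix. -/
theorem core_attach (hn : 3 ≤ n) (h32 : ¬ (n = 3 ∧ q = 2)) {g : ↥(Cfsg.GU n F q)} {a : GL (Fin n) F}
    {s t : Fˣ} {M : Matrix (Fin n) (Fin n) F₀} (hd : M.det ≠ 0)
    (h1 : (g : GL (Fin n) F) * sG hF a = SC n s * a)
    (h2 : tstar hF (a : Matrix (Fin n) (Fin n) F) * a = (t : F) • M.map ι)
    (𝒢 : Subgroup (MulAut (P n F q))) (hinn : Cfsg.Inn (P n F q) ≤ 𝒢)
    {H : Type*} [Group H] (θ₀ : H →* GL (Fin n) F₀)
    (hpres : ∀ h, ((θ₀ h : GL (Fin n) F₀) : Matrix (Fin n) (Fin n) F₀)ᵀ * M * (θ₀ h : GL (Fin n) F₀) = M ∧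
      ((θ₀ h : GL (Fin n) F₀) : Matrix (Fin n) (Fin n) F₀).det = 1)
    (hsurj : ∀ R : GL (Fin n) F₀, (R : Matrix (Fin n) (Fin n) F₀)ᵀ * M * R = M →
      (R : Matrix (Fin n) (Fin n) F₀).det = 1 → ∃ h, θ₀ h = R)
    (hbot : ∀ Θ : H →* MulAut (P n F q),
      (∀ h, Θ h = 1 ↔ ∃ r : F₀, ((θ₀ h : GL (Fin n) F₀) : Matrix (Fin n) (Fin n) F₀) = r • 1) →
      ∀ R : Subgroup (MulAut (P n F q)), R ≤ Θ.range →
      (∀ t ∈ Θ.range, ∀ r ∈ R, t * r * t⁻¹ ∈ R) → Odd (Nat.card R) → R = ⊥)
    (hinv : ∃ h, (¬ ∃ r : F₀, ((θ₀ h : GL (Fin n) F₀) : Matrix (Fin n) (Fin n) F₀) = r • 1) ∧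
      ∃ r : F₀, ((θ₀ (h * h) : GL (Fin n) F₀) : Matrix (Fin n) (Fin n) F₀) = r • 1)
    (hscal : ∀ (τ : F ≃+* F) (R : GL (Fin n) F),
      (∀ h, ∃ l : F, (R : Matrix (Fin n) (Fin n) F) *
          (((θ₀ h : GL (Fin n) F₀) : Matrix (Fin n) (Fin n) F₀).map ι).map τ =
        l • (((θ₀ h : GL (Fin n) F₀) : Matrix (Fin n) (Fin n) F₀).map ι * (R : Matrix (Fin n) (Fin n) F))) →
      (∀ x, τ (τ (ι x)) = ι x) ∧
        ∃ z : F, (R : Matrix (Fin n) (Fin n) F) * (R : Matrix (Fin n) (Fin n) F).map τ = z • 1) :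
    Cfsg.pPrimeCore 2 ↥(𝒢 ⊓ Subgroup.centralizer {gr hF g}) = ⊥ ∧
      2 ∣ Nat.card ↥(Cfsg.Inn (P n F q) ⊓ Subgroup.centralizer {gr hF g}) := by
  classical
  haveI : Nonempty (Fin n) := ⟨⟨0, by omega⟩⟩
  haveI : Finite (MulAut (P n F q)) := Finite.of_injective _ DFunLike.coe_injective
  -- the model
  set x : H → GL (Fin n) F := fun h => a * GeneralLinearGroup.map ι (θ₀ h) * a⁻¹ with hx
  have hxmem : ∀ h, x h ∈ Cfsg.GU n F q := fun h => mem_GU_of hF (a := a) (by
    rw [hx]
    simp only [inv_mul_cancel_right]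
    rw [Units.val_mul, UnitaryConj.tstar_mul, mul_assoc,
      ← mul_assoc (tstar hF (a : Matrix (Fin n) (Fin n) F)), h2,
      show ((GeneralLinearGroup.map ι (θ₀ h) : GL (Fin n) F) : Matrix (Fin n) (Fin n) F) =
        ((θ₀ h : GL (Fin n) F₀) : Matrix (Fin n) (Fin n) F₀).map ι from rfl,
      tstar_map hF ι hι, Matrix.smul_mul, Matrix.mul_smul, ← Matrix.map_mul, ← Matrix.map_mul, ← mul_assoc,
      (hpres h).1])
  have hxdet : ∀ h, (x h : Matrix (Fin n) (Fin n) F).det = 1 := fun h => by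
    have e : GeneralLinearGroup.det (x h) = GeneralLinearGroup.det (GeneralLinearGroup.map ι (θ₀ h)) := by
      simp only [hx, map_mul, map_inv, mul_inv_cancel_comm]
    rw [← GeneralLinearGroup.val_det_apply, e, GeneralLinearGroup.val_det_apply]
    show (((θ₀ h : GL (Fin n) F₀) : Matrix (Fin n) (Fin n) F₀).map ι).det = 1
    rw [← RingHom.mapMatrix_apply, ← RingHom.map_det, (hpres h).2, map_one]
  let xU : H →* ↥(Cfsg.GU n F q) := MonoidHom.mk' (fun h => ⟨x h, hxmem h⟩) fun h h' => Subtype.ext (by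
    show x (h * h') = x h * x h'
    simp only [hx, map_mul, mul_assoc, inv_mul_cancel_left])
  let Θ : H →* MulAut (P n F q) := (guHom n F q).comp xU
  have hΘ1 : ∀ h, Θ h = 1 ↔ ∃ r : F₀, ((θ₀ h : GL (Fin n) F₀) : Matrix (Fin n) (Fin n) F₀) = r • 1 := by
    intro h
    constructor
    · intro h0
      obtain ⟨l, hl⟩ := (guHom_eq_iff hF hn (g' := 1)).1 (h0.trans (map_one _).symm)
      rw [OneMemClass.coe_one, mul_one] at hl
      change x h = SC n l at hl
      have e : GeneralLinearGroup.map ι (θ₀ h) = SC n l := by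
        have : GeneralLinearGroup.map ι (θ₀ h) = a⁻¹ * x h * a := by simp only [hx]; group
        rw [this, hl, mul_assoc, ← (AutPSL.scalar_commute l a).symm.eq, inv_mul_cancel_left]
      let i0 : Fin n := ⟨0, by omega⟩
      refine ⟨((θ₀ h : GL (Fin n) F₀) : Matrix (Fin n) (Fin n) F₀) i0 i0, Matrix.map_injective ι.injective ?_⟩
      have e' : ((θ₀ h : GL (Fin n) F₀) : Matrix (Fin n) (Fin n) F₀).map ι = (l : F) • 1 :=
        (congrArg Units.val e).trans (SC_val l)
      have h00 := congrFun (congrFun e' i0) i0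
      rw [Matrix.map_apply, Matrix.smul_apply, Matrix.one_apply_eq, smul_eq_mul, mul_one] at h00
      dsimp only
      rw [map_smul_ι, e', h00, Matrix.map_one _ (map_zero ι) (map_one ι)]
    · rintro ⟨r, hr⟩
      refine guHom_scalar (l := ι r) fun z => ?_
      show (x h : Matrix (Fin n) (Fin n) F) *ᵥ z = ι r • z
      have e : (x h : Matrix (Fin n) (Fin n) F) = ι r • 1 := by
        simp only [hx, Units.val_mul]
        rw [show ((GeneralLinearGroup.map ι (θ₀ h) : GL (Fin n) F) : Matrix (Fin n) (Fin n) F) =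
          ((θ₀ h : GL (Fin n) F₀) : Matrix (Fin n) (Fin n) F₀).map ι from rfl, hr, map_smul_ι,
          Matrix.map_one _ (map_zero ι) (map_one ι), Matrix.mul_smul, mul_one, Matrix.smul_mul, ← Units.val_mul,
          mul_inv_cancel, Units.val_one]
      rw [e, smul_mulVec, one_mulVec]
  set T := Θ.range with hT
  set Mi := Cfsg.Inn (P n F q) ⊓ Subgroup.centralizer {gr hF g} with hMi
  have hTM : T ≤ Mi := by
    rintro _ ⟨h, rfl⟩
    refine Subgroup.mem_inf.2 ⟨?_, ?_⟩
    · let z : S n F q := ⟨⟨(x h : Matrix (Fin n) (Fin n) F), hxdet h⟩, hxmem h⟩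
      refine ⟨pr z, (inn_eq' z).trans ?_⟩
      exact congrArg (guHom n F q) (Subtype.ext (Units.ext rfl))
    · refine (mem_centralizer_structure hF ι hι hn hd h1 h2 (xU h)).2 ⟨1, θ₀ h, 1, ?_, ?_, ?_⟩
      · rw [one_smul]; exact (hpres h).1
      · rw [Units.val_one, one_pow, one_mul, map_one, one_mul]
      · rw [SC_one, one_mul]; rfl
  have hsq : ∀ m ∈ Mi, m * m ∈ T := by
    rintro m ⟨⟨z, rfl⟩, hm⟩
    obtain ⟨w, rfl⟩ := pr_surjective z
    rw [inn_eq'] at hm
    obtain ⟨z, R, c, hR, hz, he⟩ := (mem_centralizer_structure hF ι hι hn hd h1 h2 (suGU w)).1 hm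
    have hc : c ≠ 0 := fun h0 => by
      rw [h0, map_zero, mul_zero] at hz; exact zero_ne_one hz
    set R' : GL (Fin n) F₀ := GeneralLinearGroup.scalar (Fin n) (Units.mk0 c hc)⁻¹ * (R * R) with hR'
    have hR'v : (R' : Matrix (Fin n) (Fin n) F₀) = c⁻¹ • ((R : Matrix (Fin n) (Fin n) F₀) * R) := by
      rw [hR', Units.val_mul, AutPSL.scalar_val, Matrix.smul_mul, one_mul, Units.val_mul, Units.val_inv_eq_inv_val,
        Units.val_mk0]
    have hpr : (R' : Matrix (Fin n) (Fin n) F₀)ᵀ * M * R' = M := by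
      rw [hR'v, transpose_smul, transpose_mul, Matrix.smul_mul, Matrix.smul_mul, Matrix.mul_smul, smul_smul,
        show (R : Matrix (Fin n) (Fin n) F₀)ᵀ * (R : Matrix (Fin n) (Fin n) F₀)ᵀ * M * ((R : Matrix (Fin n) (Fin n) F₀) * R) =
          (R : Matrix (Fin n) (Fin n) F₀)ᵀ * ((R : Matrix (Fin n) (Fin n) F₀)ᵀ * M * R) * R by simp only [mul_assoc],
        hR, Matrix.mul_smul, Matrix.smul_mul, hR, smul_smul, smul_smul]
      rw [show c⁻¹ * c⁻¹ * c * c = 1 by field_simp, one_smul]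
    have hdR : (R' : Matrix (Fin n) (Fin n) F₀).det = 1 := by
      have hdet := congrArg GeneralLinearGroup.det he
      rw [map_mul, map_mul, map_mul, map_inv, mul_inv_cancel_comm, AutPSL.det_scalar,
        GeneralLinearGroup.map_det] at hdet
      have e1 : (z : F) ^ n * ι (R : Matrix (Fin n) (Fin n) F₀).det = 1 := by
        have h' := congrArg Units.val hdet
        rw [Units.val_mul, Units.val_pow_eq_pow_val, GeneralLinearGroup.val_det_apply] at h'
        exact h'.symm.trans w.1.2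
      have hzn : ((z : F) ^ q) ^ n = (z : F) ^ n := by
        have e2 := congrArg (qHom hF) e1
        rw [map_mul, map_one, qHom_ι hF ι hι] at e2
        have h3 : qHom hF ((z : F) ^ n) = (z : F) ^ n := mul_right_cancel₀
          (fun h0 => by rw [h0, mul_zero] at e1; exact zero_ne_one e1) (e2.trans e1.symm)
        rw [← pow_mul, mul_comm, pow_mul]
        exact h3
      rw [hR'v, det_smul, Fintype.card_fin, det_mul]
      refine ι.injective ?_
      have hcι : ι c ^ n * ((z : F) ^ n * (z : F) ^ n) = 1 := by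
        have h' := congrArg (· ^ n) hz
        simp only [mul_pow, one_pow, hzn] at h'
        linear_combination h'
      rw [map_mul, map_pow, map_inv₀, map_mul, map_one, inv_pow]
      have hcn : ι c ^ n ≠ 0 := pow_ne_zero _ ((map_ne_zero ι).2 hc)
      rw [inv_mul_eq_iff_eq_mul₀ hcn, mul_one]
      have hzz : (z : F) ^ n * (z : F) ^ n ≠ 0 := mul_ne_zero (pow_ne_zero _ z.ne_zero) (pow_ne_zero _ z.ne_zero)
      refine mul_right_cancel₀ hzz ?_
      linear_combination (ι (R : Matrix (Fin n) (Fin n) F₀).det * (z : F) ^ n + 1) * e1 - hcι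
    obtain ⟨h, hh⟩ := hsurj R' hpr hdR
    refine ⟨h, ?_⟩
    show guHom n F q (xU h) = _
    rw [inn_eq', ← map_mul, guHom_eq_iff hF hn]
    let c' : Fˣ := Units.map ι.toMonoidHom (Units.mk0 c hc)
    refine ⟨c'⁻¹ * (z * z)⁻¹, ?_⟩
    show x h = _
    rw [Subgroup.coe_mul, he]
    simp only [hx]
    rw [hh, hR', map_mul, map_mul,
      show GeneralLinearGroup.map ι (GeneralLinearGroup.scalar (Fin n) (Units.mk0 c hc)⁻¹) = SC n c'⁻¹ from
        Units.ext (by
          show ((GeneralLinearGroup.scalar (Fin n) (Units.mk0 c hc)⁻¹ : GL (Fin n) F₀) : Matrix (Fin n) (Fin n) F₀).map ι = _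
          rw [AutPSL.scalar_val, SC_val, map_smul_ι, Matrix.map_one _ (map_zero ι) (map_one ι)]
          simp [c']),
      SC_comm, show SC n z * (a * GeneralLinearGroup.map ι R * a⁻¹) * (SC n z * (a * GeneralLinearGroup.map ι R * a⁻¹)) =
        SC n (z * z) * (a * (GeneralLinearGroup.map ι R * GeneralLinearGroup.map ι R) * a⁻¹) by
          rw [SC_mul, mul_assoc, SC_comm, ← mul_assoc (SC n z)]
          simp only [mul_assoc, inv_mul_cancel_left],
      mul_assoc (SC n c'⁻¹), ← map_mul (GeneralLinearGroup.map ι) R R, ← mul_assoc (SC n (c'⁻¹ * (z * z)⁻¹)),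
      SC_mul c'⁻¹, mul_assoc (SC n c'⁻¹) (SC n (z * z)⁻¹), ← SC_mul, inv_mul_cancel, SC_one, mul_one]
  have hMn : ∀ c ∈ 𝒢 ⊓ Subgroup.centralizer {gr hF g}, ∀ z ∈ Mi, c * z * c⁻¹ ∈ Mi := by
    rintro c ⟨-, hc⟩ z ⟨⟨b, rfl⟩, hz⟩
    exact Subgroup.mem_inf.2 ⟨⟨c b, MulEquiv.ext fun w => by simp⟩, mul_mem (mul_mem hc hz) (inv_mem hc)⟩
  refine ⟨Balance.core_eq_bot (le_inf (inf_le_left.trans hinn) inf_le_right) hMn hTM
    (fun R hR hRn hc => Balance.bot_of_sq hTM hsq (hbot Θ hΘ1) hR hRn hc) fun c _ hc ht => ?_, ?_⟩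
  · obtain ⟨y, τ, rfl⟩ := exists_std hF hn h32 c
    set R₁ : GL (Fin n) F := a⁻¹ * (y : GL (Fin n) F) * mapGL τ a with hR₁
    have hrel : ∀ h, ∃ l : F, (R₁ : Matrix (Fin n) (Fin n) F) *
          (((θ₀ h : GL (Fin n) F₀) : Matrix (Fin n) (Fin n) F₀).map ι).map τ =
        l • (((θ₀ h : GL (Fin n) F₀) : Matrix (Fin n) (Fin n) F₀).map ι * (R₁ : Matrix (Fin n) (Fin n) F)) := by
      intro h
      have e1 : guHom n F q (y * mapGU τ (xU h)) = guHom n F q (xU h * y) := by
        refine mul_right_cancel (b := D (fieldSU τ)) ?_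
        rw [map_mul, map_mul, mul_assoc, mul_assoc, ← twist_GU τ (xU h), ← mul_assoc]
        exact (ht _ ⟨h, rfl⟩).trans (mul_assoc _ _ _).symm |>.trans (mul_assoc _ _ _)
      obtain ⟨l, hl⟩ := (guHom_eq_iff hF hn).1 e1
      change (y : GL (Fin n) F) * mapGL τ (x h) = SC n l * (x h * (y : GL (Fin n) F)) at hl
      refine ⟨l, scal_rel (A := mapGL τ (GeneralLinearGroup.map ι (θ₀ h))) (B := GeneralLinearGroup.map ι (θ₀ h)) ?_⟩
      have h3 := congrArg (fun X => a⁻¹ * X * mapGL τ a) hl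
      simp only [hx, map_mul, map_inv] at h3
      calc R₁ * mapGL τ (GeneralLinearGroup.map ι (θ₀ h))
          = a⁻¹ * ((y : GL (Fin n) F) * (mapGL τ a * mapGL τ (GeneralLinearGroup.map ι (θ₀ h)) * (mapGL τ a)⁻¹)) *
            mapGL τ a := by rw [hR₁]; group
        _ = a⁻¹ * (SC n l * (a * GeneralLinearGroup.map ι (θ₀ h) * a⁻¹ * (y : GL (Fin n) F))) * mapGL τ a := h3
        _ = a⁻¹ * SC n l * (a * GeneralLinearGroup.map ι (θ₀ h) * R₁) := by rw [hR₁]; group
        _ = SC n l * (GeneralLinearGroup.map ι (θ₀ h) * R₁) := by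
            rw [← (AutPSL.scalar_commute l a⁻¹).eq]; group
    obtain ⟨hτ, z, hz⟩ := hscal τ R₁ hrel
    set ρ := τ * τ with hρ
    have hρρ : ρ * ρ = 1 := by
      obtain ⟨j, hj⟩ := Balance.exists_pow_of_fix (qAut hF) ρ fun w hw => by
        obtain ⟨b, rfl⟩ := (hι w).1 hw
        exact hτ b
      rw [hj, ← pow_add, ← two_mul, pow_mul, ← orderOf_qAut hF, pow_orderOf_eq_one, one_pow]
    have hzne : z ≠ 0 := by
      intro h0
      rw [h0, zero_smul] at hz
      exact (R₁ * mapGL τ R₁).ne_zero hz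
    let w : Fˣ := Units.mk0 z hzne
    have hY : (y : GL (Fin n) F) * mapGL τ (y : GL (Fin n) F) = a * SC n w * (mapGL ρ a)⁻¹ := by
      have e : R₁ * mapGL τ R₁ = SC n w := Units.ext (by rw [SC_val]; exact hz)
      have e2 : mapGL τ (mapGL τ a) = mapGL ρ a := Units.ext (by ext i j; rfl)
      rw [← e, hR₁, map_mul, map_mul, map_inv, e2]
      group
    have hc8 : (guHom n F q y * D (fieldSU τ)) ^ (2 ^ 3) = 1 := by
      have hc2 : (guHom n F q y * D (fieldSU τ)) ^ 2 = guHom n F q (y * mapGU τ y) * D (fieldSU ρ) := by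
        rw [pow_two, semi_mul]
      have hc4 : (guHom n F q y * D (fieldSU τ)) ^ (2 ^ 2) = 1 := by
        rw [pow_succ, pow_one, pow_mul, hc2, pow_two, semi_mul, hρρ, map_one, map_one, mul_one]
        refine guHom_scalar (l := z * ρ z) fun v => ?_
        have e3 : ((y * mapGU τ y * mapGU ρ (y * mapGU τ y) : ↥(Cfsg.GU n F q)) : GL (Fin n) F) =
            SC n (w * AutPSL.mapU ρ w) := by
          show (y : GL (Fin n) F) * mapGL τ (y : GL (Fin n) F) *
            mapGL ρ ((y : GL (Fin n) F) * mapGL τ (y : GL (Fin n) F)) = _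
          rw [hY, map_mul, map_mul, map_inv, show mapGL ρ (mapGL ρ a) = a from Units.ext (by
              ext i j; exact RingEquiv.congr_fun hρρ _),
            show mapGL ρ (SC n w) = SC n (AutPSL.mapU ρ w) from AutPSL.mapGL_scalar _ _,
            mul_assoc (a * SC n w) (mapGL ρ a)⁻¹, mul_assoc (mapGL ρ a), inv_mul_cancel_left, mul_assoc a,
            ← mul_assoc (SC n w), ← map_mul, ← mul_assoc, ← (AutPSL.scalar_commute _ a).eq, mul_inv_cancel_right]
        rw [e3, SC_val, smul_mulVec, one_mulVec, Units.val_mul]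
        rfl
      rw [pow_succ, pow_mul, hc4, one_pow]
    exact orderOf_eq_one_iff.1 (Nat.eq_one_of_dvd_coprimes (hc.pow_right 3) dvd_rfl (orderOf_dvd_of_pow_eq_one hc8))
  · obtain ⟨h, hh1, hh2⟩ := hinv
    have e1 : Θ h ≠ 1 := fun h0 => hh1 ((hΘ1 h).1 h0)
    have e2 : Θ h ^ 2 = 1 := by rw [pow_two, ← map_mul]; exact (hΘ1 _).2 hh2
    let z : Mi := ⟨Θ h, hTM ⟨h, rfl⟩⟩
    have h3 : orderOf (Θ h) ∣ Nat.card Mi := (Subgroup.orderOf_coe z).symm ▸ orderOf_dvd_natCard z
    rwa [orderOf_eq_prime e2 e1] at h3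

include hι in
/-- Local balance at involutory graph automorphisms. -/
theorem graph_core (hn : 3 ≤ n) (hodd : Odd q) {g : ↥(Cfsg.GU n F q)} (hord : orderOf (gr hF g) = 2)
    (𝒢 : Subgroup (MulAut (P n F q))) (hinn : Cfsg.Inn (P n F q) ≤ 𝒢) :
    Cfsg.pPrimeCore 2 ↥(𝒢 ⊓ Subgroup.centralizer {gr hF g}) = ⊥ ∧
      2 ∣ Nat.card ↥(Cfsg.Inn (P n F q) ⊓ Subgroup.centralizer {gr hF g}) := by
  classical
  have h32 : ¬ (n = 3 ∧ q = 2) := fun h => by rw [h.2] at hodd; exact absurd hodd (by decide)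
  have h2F : (2 : F) ≠ 0 := AutPSL.two_ne_of_odd_card (by rw [hF]; exact hodd.pow)
  have h20 : (2 : F₀) ≠ 0 := fun h => h2F (by rw [← map_ofNat ι 2, h, map_zero])
  obtain ⟨g', ε, hgg, hε, ht⟩ := exists_gr hF ι hn (isGraph_gr hF hn g) hord
  rw [hgg]
  obtain ⟨M, hd, hMs, hA⟩ := exists_attach hF ι hι (by omega) hε ht
  rcases mul_self_eq_one_iff.1 hε with rfl | rfl
  · -- symmetric
    rw [one_smul] at hMs
    obtain ⟨b, d, hb, hd0, -⟩ := AutPSL.exists_diag h20 hMs hd
    let i' : Fin (Fintype.card (Fin n)) ≃ Fin n := finCongr (Fintype.card_fin n)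
    set d₀ : Fin n → F₀ := fun i => d (i'.symm i) with hd₀
    have hd00 : ∀ i, d₀ i ≠ 0 := fun i => hd0 _
    have hD : (diagonal d₀).det ≠ 0 := by
      rw [det_diagonal]; exact Finset.prod_ne_zero_iff.2 fun i _ => hd00 i
    have hcg : AutPSL.Congr M ((1 : F₀) • diagonal d₀) := by
      rw [one_smul]
      have e1 : LinearMap.BilinForm.toMatrix (b.reindex i') (Matrix.toBilin' M) = diagonal d₀ := by
        ext i j
        rw [LinearMap.BilinForm.toMatrix_apply, Module.Basis.reindex_apply, Module.Basis.reindex_apply, hb,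
          Matrix.diagonal_apply]
        simp [hd₀]
      have e2 : LinearMap.BilinForm.toMatrix (Pi.basisFun F₀ (Fin n)) (Matrix.toBilin' M) = M := by
        ext i j
        rw [LinearMap.BilinForm.toMatrix_apply, Pi.basisFun_apply, Pi.basisFun_apply, Matrix.toBilin'_single]
      have h := LinearMap.BilinForm.toMatrix_mul_basis_toMatrix (Pi.basisFun F₀ (Fin n)) (b.reindex i')
        (Matrix.toBilin' M)
      rw [e1, e2] at h
      exact ⟨GeneralLinearGroup.mkOfDetNeZero _ (fun h0 => hD (by rw [← h, det_mul, mul_eq_zero]; exact Or.inr h0)), h⟩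
    obtain ⟨a, s, t, h1, h2⟩ := hA.congr hF ι hι one_ne_zero hcg
    let H : Subgroup (GL (Fin n) F₀) :=
      Balance.orthD d₀ ⊓ (GeneralLinearGroup.det : GL (Fin n) F₀ →* F₀ˣ).ker
    have hH : ∀ h : GL (Fin n) F₀, h ∈ H ↔
        h ∈ Balance.orthD d₀ ∧ (h : Matrix (Fin n) (Fin n) F₀).det = 1 := fun h =>
      and_congr Iff.rfl (Units.ext_iff.trans (by rw [GeneralLinearGroup.val_det_apply, Units.val_one]))
    refine core_attach hF ι hι hn h32 hD h1 h2 𝒢 hinn H.subtype (fun h => (hH _).1 h.2)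
      (fun R hR hR1 => ⟨⟨R, (hH R).2 ⟨hR, hR1⟩⟩, rfl⟩) ?_ ?_ ?_
    · intro Θ hΘ R hR hRn hRodd
      haveI : Finite (MulAut (P n F q)) := Finite.of_injective _ DFunLike.coe_injective
      haveI : NeZero n := ⟨by omega⟩
      refine Balance.odd_bot_of_ker Θ (fun z hz => ?_) (fun L hL hLodd => ?_) hR hRn hRodd
      · obtain ⟨r, hr⟩ := (hΘ z).1 hz
        change ((z : GL (Fin n) F₀) : Matrix (Fin n) (Fin n) F₀) = _ at hr
        have hz1 := ((hH _).1 z.2).1
        rw [Balance.mem_orthD, hr, transpose_smul, transpose_one, Matrix.smul_mul, one_mul, Matrix.smul_mul,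
          Matrix.mul_smul, mul_one, smul_smul] at hz1
        have hcc : r * r = 1 := by
          have := congrFun (congrFun hz1 0) 0
          rw [Matrix.smul_apply, diagonal_apply_eq, smul_eq_mul] at this
          exact mul_right_cancel₀ (hd00 0) (this.trans (one_mul _).symm)
        refine ⟨Subtype.ext (Units.ext ?_), Subgroup.mem_center_iff.2 fun w => Subtype.ext (Units.ext ?_)⟩
        · rw [Subgroup.coe_mul, Units.val_mul, hr, Matrix.smul_mul, one_mul, smul_smul, hcc, one_smul]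
          rfl
        · rw [Subgroup.coe_mul, Subgroup.coe_mul, Units.val_mul, Units.val_mul, hr, Matrix.smul_mul,
            Matrix.mul_smul, one_mul, mul_one]
      · have hb : L.map H.subtype = ⊥ := by
          refine Balance.eq_bot_of_odd_special hd00 h20 (by rw [Fintype.card_fin]; exact hn) ?_ ?_ ?_
          · rintro _ ⟨z, -, rfl⟩; exact ((hH _).1 z.2).1
          · rwa [Subgroup.card_map_of_injective H.subtype_injective]
          · rintro h hh hh1 _ ⟨z, hz, rfl⟩
            exact ⟨⟨h, (hH h).2 ⟨hh, hh1⟩⟩ * z * ⟨h, (hH h).2 ⟨hh, hh1⟩⟩⁻¹, hL.conj_mem z hz _, rfl⟩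
        exact (Subgroup.map_eq_bot_iff_of_injective _ H.subtype_injective).1 hb
    · let i : Fin n := ⟨0, by omega⟩
      let j : Fin n := ⟨1, by omega⟩
      let k : Fin n := ⟨2, by omega⟩
      have hij : i ≠ j := by simp [i, j, Fin.ext_iff]
      have hik : i ≠ k := by simp [i, k, Fin.ext_iff]
      have hxi := Balance.bd_single_ne hd00 i
      have hxj := Balance.bd_single_ne hd00 j
      set w := Balance.rfx d₀ (Pi.single i 1) * Balance.rfx d₀ (Pi.single j 1) with hw
      have hwH : w ∈ H := (hH w).2 ⟨mul_mem (Balance.rfx_mem hxi) (Balance.rfx_mem hxj), by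
        rw [hw, Units.val_mul, det_mul, Balance.rfx_det hxi, Balance.rfx_det hxj]; ring⟩
      have hwv : ∀ c, (w : Matrix (Fin n) (Fin n) F₀) c c =
          (if c = i then -1 else 1) * (if c = j then -1 else 1) := fun c => by
        rw [hw, Balance.mul_sign_apply hd00 h20, Balance.rfx_single_apply hd00 h20, if_pos rfl]
      refine ⟨⟨w, hwH⟩, ?_, 1, ?_⟩
      · rintro ⟨r, hr⟩
        change (w : Matrix (Fin n) (Fin n) F₀) = _ at hr
        have ei := congrFun (congrFun hr i) i
        have ek := congrFun (congrFun hr k) k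
        rw [hwv, Matrix.smul_apply, Matrix.one_apply_eq, smul_eq_mul, mul_one] at ei ek
        rw [if_pos rfl, if_neg hij] at ei
        rw [if_neg (Ne.symm hik), if_neg (by simp [j, k, Fin.ext_iff])] at ek
        exact h20 (by linear_combination ek - ei)
      · rw [one_smul]
        show ((w * w : GL (Fin n) F₀) : Matrix (Fin n) (Fin n) F₀) = 1
        have hcomm := Balance.rfx_commute hxi hxj (by rw [Balance.bd_single, Pi.single_eq_of_ne hij, mul_zero])
        rw [hw, show ∀ X Y : GL (Fin n) F₀, X * Y = Y * X → X * Y * (X * Y) = X * X * (Y * Y) from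
          fun X Y e => by rw [mul_assoc, ← mul_assoc Y, ← e]; simp only [mul_assoc],
          Balance.rfx_sq hxi, Balance.rfx_sq hxj, mul_one, Units.val_one]
        exact hcomm
    · intro τ R hrel
      exact Balance.orth_scalar hd00 h20 (by rw [Fintype.card_fin]; exact hn) ι τ R
        fun h hh hh1 => hrel ⟨h, (hH h).2 ⟨hh, hh1⟩⟩
  · -- alternating
    obtain ⟨m, hnm⟩ : ∃ m, n = 2 * m := by
      rcases Nat.even_or_odd' n with ⟨m, h | h⟩
      · exact ⟨m, h⟩
      · exact (AutPSL.no_skew (g := GeneralLinearGroup.mkOfDetNeZero M hd) h20 h hMs).elim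
    have hm : 2 ≤ m := by omega
    let e : Fin m ⊕ Fin m ≃ Fin n := Fintype.equivFinOfCardEq (by simp; omega)
    have hJ : (Matrix.reindex e e (Matrix.J (Fin m) F₀)).det ≠ 0 := by
      rw [Matrix.det_reindex_self]; exact AutPSL.det_J_ne_zero m
    have hcg : AutPSL.Congr M ((1 : F₀) • Matrix.reindex e e (Matrix.J (Fin m) F₀)) := by
      rw [one_smul]
      refine AutPSL.congr_alt hd hJ (fun x => AutPSL.skew_diag h20 hMs x) fun x => ?_
      rw [AutPSL.reindex_diag]
      exact AutPSL.J_diag m _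
    obtain ⟨a, s, t, h1, h2⟩ := hA.congr hF ι hι one_ne_zero hcg
    have hq₀ : 3 ≤ Fintype.card F₀ := by
      by_contra h
      have h2' : Fintype.card F₀ = 2 := le_antisymm (by omega) Fintype.one_lt_card
      have := FiniteField.cast_card_eq_zero F₀
      rw [h2'] at this
      exact h20 (by exact_mod_cast this)
    have hperf := Classical.sp_commutator_eq_top (F := F₀) m (by omega)
    let θ₀ : Matrix.symplecticGroup (Fin m) F₀ →* GL (Fin n) F₀ :=
      (AutPSL.glReindex e).toMonoidHom.comp (Matrix.symplecticGroup (Fin m) F₀).subtype.toHomUnits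
    have hθv : ∀ h, ((θ₀ h : GL (Fin n) F₀) : Matrix (Fin n) (Fin n) F₀) =
        Matrix.reindex e e (h : Matrix (Fin m ⊕ Fin m) (Fin m ⊕ Fin m) F₀) := fun h => rfl
    have hpres : ∀ X : Matrix (Fin m ⊕ Fin m) (Fin m ⊕ Fin m) F₀,
        X ∈ Matrix.symplecticGroup (Fin m) F₀ ↔ (Matrix.reindex e e X)ᵀ * Matrix.reindex e e (Matrix.J (Fin m) F₀) *
          Matrix.reindex e e X = Matrix.reindex e e (Matrix.J (Fin m) F₀) := fun X => by
      rw [SymplecticGroup.mem_iff', Matrix.reindex_apply, Matrix.reindex_apply, Matrix.transpose_submatrix,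
        Matrix.submatrix_mul_equiv, Matrix.submatrix_mul_equiv]
      exact ⟨fun h => by rw [h],
        fun h => (Matrix.reindex e e).injective (by simpa only [Matrix.reindex_apply] using h)⟩
    have hscalar : ∀ (X : Matrix (Fin m ⊕ Fin m) (Fin m ⊕ Fin m) F₀) (r : F₀),
        Matrix.reindex e e X = r • 1 ↔ X = r • 1 := fun X r => by
      conv_lhs => rw [show r • (1 : Matrix (Fin n) (Fin n) F₀) =
        Matrix.reindex e e (r • (1 : Matrix (Fin m ⊕ Fin m) (Fin m ⊕ Fin m) F₀)) by simp [Matrix.submatrix_smul]]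
      exact (Matrix.reindex e e).injective.eq_iff
    refine core_attach hF ι hι hn h32 hJ h1 h2 𝒢 hinn θ₀ (fun h => ⟨(hpres _).1 h.2, ?_⟩)
      (fun R hR hR1 => ⟨⟨Matrix.reindex e.symm e.symm (R : Matrix (Fin n) (Fin n) F₀),
        (hpres _).2 (by simpa using hR)⟩, Units.ext (by rw [hθv]; simp)⟩) ?_ ?_ ?_
    · have h1' := Abelianization.commutator_subset_ker (GeneralLinearGroup.det.comp θ₀)
        (show h ∈ commutator _ from hperf ▸ Subgroup.mem_top h)
      have h2' := congrArg Units.val (show GeneralLinearGroup.det (θ₀ h) = 1 from h1')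
      rwa [GeneralLinearGroup.val_det_apply, Units.val_one] at h2'
    · intro Θ hΘ R hR hRn hRodd
      have hH : ∀ K : Subgroup (Matrix.symplecticGroup (Fin m) F₀), K.Normal → K ≤ Θ.ker ∨ K ⊔ Θ.ker = ⊤ := by
        intro K hK
        rcases Classical.sp_normal_le_center_or_eq_top m hperf K with h | h
        · left
          intro z hz
          have hzc := Subgroup.mem_center_iff.1 (h hz)
          have hzu : IsUnit (z : Matrix (Fin m ⊕ Fin m) (Fin m ⊕ Fin m) F₀) :=
            ((Matrix.symplecticGroup (Fin m) F₀).subtype.toHomUnits z).isUnit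
          obtain ⟨-, r, hz'⟩ := Balance.symp_scalar (m := m) (by omega) (RingHom.id F₀) (RingEquiv.refl F₀) hzu.unit
            fun S hS X hX => ⟨1, by
              have hXm : X ∈ Matrix.symplecticGroup (Fin m) F₀ := by
                rw [SymplecticGroup.mem_iff']
                simp only [List.mem_cons, List.not_mem_nil, or_false] at hX
                rcases hX with rfl | rfl
                · exact (Balance.upM_mem hS).1
                · exact (Balance.loM_mem hS).1
              rw [one_smul, show X.map (RingHom.id F₀) = X from Matrix.map_id _,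
                show X.map (RingEquiv.refl F₀) = X from Matrix.map_id _]
              exact (congrArg Subtype.val (hzc ⟨X, hXm⟩)).symm⟩
          exact (hΘ z).2 ⟨r, (hscalar _ r).2 hz'⟩
        · right; rw [h, top_sup_eq]
      rcases Balance.bot_or_range Θ hH hR hRn with h | h
      · exact h
      exfalso
      let J₀ : Matrix.symplecticGroup (Fin m) F₀ := ⟨Matrix.J (Fin m) F₀, SymplecticGroup.J_mem _ _⟩
      have hJ1 : Θ J₀ ≠ 1 := fun h0 => by
        obtain ⟨r, hr⟩ := (hΘ J₀).1 h0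
        rw [hθv, hscalar] at hr
        have := congrFun (congrFun hr (Sum.inr (⟨0, by omega⟩ : Fin m))) (Sum.inl ⟨0, by omega⟩)
        simp [J₀, Matrix.J] at this
      have hJ2 : Θ J₀ * Θ J₀ = 1 := by
        rw [← map_mul]
        refine (hΘ _).2 ⟨-1, ?_⟩
        rw [hθv, hscalar]
        show Matrix.J (Fin m) F₀ * Matrix.J (Fin m) F₀ = _
        rw [Matrix.J_squared, neg_smul, one_smul]
      refine hJ1 (Balance.eq_one_of_sq hRodd ?_ hJ2)
      rw [h]
      exact ⟨J₀, rfl⟩
    · refine ⟨⟨Matrix.J (Fin m) F₀, SymplecticGroup.J_mem _ _⟩, ?_, -1, ?_⟩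
      · rintro ⟨r, hr⟩
        rw [hθv, hscalar] at hr
        have := congrFun (congrFun hr (Sum.inr (⟨0, by omega⟩ : Fin m))) (Sum.inl ⟨0, by omega⟩)
        simp [Matrix.J] at this
      · rw [hθv, hscalar]
        show Matrix.J (Fin m) F₀ * Matrix.J (Fin m) F₀ = _
        rw [Matrix.J_squared, neg_smul, one_smul]
    · intro τ R hrel
      set R' := (AutPSL.glReindex e).symm R with hR'
      have e2 : Matrix.reindexAlgEquiv F F e ((R' : GL (Fin m ⊕ Fin m) F) :
          Matrix (Fin m ⊕ Fin m) (Fin m ⊕ Fin m) F) = (R : Matrix (Fin n) (Fin n) F) :=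
        congrArg Units.val ((AutPSL.glReindex e).apply_symm_apply R)
      obtain ⟨hτ, z, hz⟩ := Balance.symp_scalar (m := m) (by omega) ι τ R'
        fun S hS X hX => by
          have hXm : X ∈ Matrix.symplecticGroup (Fin m) F₀ := by
            rw [SymplecticGroup.mem_iff']
            simp only [List.mem_cons, List.not_mem_nil, or_false] at hX
            rcases hX with rfl | rfl
            · exact (Balance.upM_mem hS).1
            · exact (Balance.loM_mem hS).1
          obtain ⟨l, hl⟩ := hrel ⟨X, hXm⟩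
          refine ⟨l, (Matrix.reindexAlgEquiv F F e).injective ?_⟩
          rw [map_mul, map_smul, map_mul, e2]
          exact hl
      refine ⟨fun x => by rw [hτ, hτ], z * τ z, ?_⟩
      rw [← e2, hz, map_smul, map_one, Matrix.map_smul' τ _ _ (map_mul τ), Matrix.map_one _ (map_zero τ) (map_one τ),
        Matrix.smul_mul, one_mul, smul_smul]

end Cfsg.Agent.Lib.AutPSU
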