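import Cfsg.Agent.Lib.AutPSU.Count
import Cfsg.Agent.Lib.AutPSp.Lang
import Cfsg.Agent.Lib.AutPSL.Field
import Cfsg.Agent.Lib.UnitaryConj

/-!
Field automorphisms of odd prime order of `PSU_n`: Lang's theorem for `GU`, centralisers, classes.
-/

set_option autoImplicit false

namespace Cfsg.Agent.Lib.AutPSU

open Matrix Cfsg.Agent.Lib.Forms Cfsg.Agent.Lib.Classical
open Cfsg.Agent.Lib.AutPSp (mapG)

universe u

variable {n : ℕ} {F : Type u} [Field F] {q : ℕ}

/-- The norm-one group. -/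
abbrev U1 (F : Type u) [Field F] (q : ℕ) : Subgroup Fˣ := (powMonoidHom (q + 1) : Fˣ →* Fˣ).ker

theorem U1_mul (c : U1 F q) : ((c : Fˣ) : F) * ((c : Fˣ) : F) ^ q = 1 := by
  rw [← pow_succ', ← Units.val_pow_eq_pow_val, show (c : Fˣ) ^ (q + 1) = 1 from c.2, Units.val_one]

/-- A norm-one scalar. -/
noncomputable def scalGU (n : ℕ) (F : Type u) [Field F] (q : ℕ) : U1 F q →* ↥(Cfsg.GU n F q) :=
  ((GeneralLinearGroup.scalar (Fin n)).comp (U1 F q).subtype).codRestrict (Cfsg.GU n F q)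
    fun c u v => by
      have h : ∀ w : Fin n → F,
          ((GeneralLinearGroup.scalar (Fin n) (c : Fˣ) : GL (Fin n) F) : Matrix (Fin n) (Fin n) F) *ᵥ w =
            ((c : Fˣ) : F) • w := fun w => by
        simp [GeneralLinearGroup.scalar, Matrix.scalar_apply, ← Matrix.smul_one_eq_diagonal,
          smul_mulVec]
      show hm q (((GeneralLinearGroup.scalar (Fin n) (c : Fˣ) : GL (Fin n) F) :
        Matrix (Fin n) (Fin n) F) *ᵥ u) (((GeneralLinearGroup.scalar (Fin n) (c : Fˣ) : GL (Fin n) F) :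
        Matrix (Fin n) (Fin n) F) *ᵥ v) = hm q u v
      rw [h, h, hm_smul_left', show ∀ (a : F) (u w : Fin n → F), hm q u (a • w) = a ^ q * hm q u w from
        fun a u w => by simp [hm, Cfsg.hermForm, mul_pow, Finset.mul_sum, mul_left_comm],
        ← mul_assoc, U1_mul, one_mul]

theorem scalGU_coe (c : U1 F q) :
    (scalGU n F q c : GL (Fin n) F) = GeneralLinearGroup.scalar (Fin n) (c : Fˣ) := rfl

theorem scalGU_mulVec (c : U1 F q) (w : Fin n → F) :
    ((scalGU n F q c : GL (Fin n) F) : Matrix (Fin n) (Fin n) F) *ᵥ w = ((c : Fˣ) : F) • w := by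
  simp [scalGU_coe, GeneralLinearGroup.scalar, Matrix.scalar_apply, ← Matrix.smul_one_eq_diagonal,
    smul_mulVec]

theorem guHom_scalGU (c : U1 F q) : guHom n F q (scalGU n F q c) = 1 :=
  guHom_scalar (scalGU_mulVec c)

theorem mapGU_coe (σ : F ≃+* F) (g : ↥(Cfsg.GU n F q)) :
    (mapGU σ g : GL (Fin n) F) = mapG σ (g : GL (Fin n) F) := rfl

variable [Fintype F] (hF : Fintype.card F = q ^ 2)
include hF

theorem exists_scalGU (hn : 3 ≤ n) {g : ↥(Cfsg.GU n F q)} (h : guHom n F q g = 1) :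
    ∃ c : U1 F q, g = scalGU n F q c := by
  obtain ⟨l, hl⟩ := (guHom_eq_one_iff hF hn).1 h
  obtain ⟨e, f, HP⟩ := exists_pair hF (n := n) (by omega)
  have h1 := (g.2 : ∀ u v, Cfsg.hermForm n F q _ _ = _) e f
  change hm q (((g : GL (Fin n) F) : Matrix (Fin n) (Fin n) F) *ᵥ e)
    (((g : GL (Fin n) F) : Matrix (Fin n) (Fin n) F) *ᵥ f) = hm q e f at h1
  rw [hl, hl, hm_smul_left', hm_smul_right, HP.ef, mul_one, ← pow_succ'] at h1
  have hl0 : l ≠ 0 := fun h0 => by simp [h0] at h1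
  refine ⟨⟨Units.mk0 l hl0, Units.ext (by simpa using h1)⟩, Subtype.ext (Units.ext
    (Matrix.ext_iff_mulVec.2 fun w => ?_))⟩
  rw [scalGU_mulVec, hl]
  rfl

theorem orderOf_fieldSU (hn : 3 ≤ n) (σ : F ≃+* F) :
    orderOf (D (fieldSU σ) : MulAut (P n F q)) = orderOf σ := by
  refine orderOf_injective (D.comp fieldSU) ?_ σ
  rw [injective_iff_map_eq_one]
  intro τ h
  exact (std_unique hF hn (g := 1) (σ := τ) (by rw [map_one, one_mul]; exact h)).1

theorem exists_std_of_field (hn : 3 ≤ n) {x : MulAut (P n F q)} (hx : Cfsg.IsFieldAutClassPSU x) :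
    ∃ (α : MulAut (P n F q)) (σ : F ≃+* F),
      α * x * α⁻¹ = D (fieldSU σ) ∧ orderOf σ = orderOf x ∧ Odd (orderOf σ) := by
  obtain ⟨α, φ, σ, -, hodd, hφ, hst⟩ := hx
  rw [fieldAut_iff.1 hφ] at hst
  exact ⟨α, σ, hst, by rw [← orderOf_fieldSU hF hn σ, ← hst, AutPSL.orderOf_conj], hodd⟩

variable {σ : F ≃+* F} {r : ℕ} {F₀ : Type*} [Field F₀] [Fintype F₀] {q0 : ℕ}

theorem exists_U1_norm (hr : orderOf σ = r) (hodd : Odd r) {l : U1 F q}
    (hl : AutPSL.mapU σ (l : Fˣ) = l) :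
    ∃ c : U1 F q, AutPSL.normU σ r (c : Fˣ) = l := by
  haveI : Finite F := inferInstance
  have hfix : (l : Fˣ) ∈ AutPSL.fixU σ := hl
  rw [← AutPSL.range_normU hr hodd.pos] at hfix
  obtain ⟨c0, hc0⟩ := hfix
  have hu : c0 * (c0 ^ q)⁻¹ ∈ U1 F q := by
    show (c0 * (c0 ^ q)⁻¹) ^ (q + 1) = 1
    rw [mul_pow, inv_pow, ← pow_mul, mul_inv_eq_one]
    have h : c0 ^ Nat.card Fˣ = 1 := pow_card_eq_one'
    rw [Herm.card_units hF] at h
    have hq := Herm.two_le_q hF
    calc c0 ^ (q + 1) = c0 ^ (q + 1) * c0 ^ ((q + 1) * (q - 1)) := by rw [h, mul_one]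
      _ = c0 ^ ((q + 1) * q) := by
        rw [← pow_add]; congr 1
        calc q + 1 + (q + 1) * (q - 1) = (q + 1) * (q - 1 + 1) := by ring
          _ = (q + 1) * q := by rw [Nat.sub_add_cancel (by omega)]
      _ = c0 ^ (q * (q + 1)) := by rw [mul_comm]
  have hlq : (l : Fˣ) ^ q = (l : Fˣ)⁻¹ := by
    apply eq_inv_of_mul_eq_one_left
    rw [← pow_succ]; exact l.2
  have hNu : AutPSL.normU σ r (c0 * (c0 ^ q)⁻¹) = (l : Fˣ) ^ 2 := by
    rw [map_mul, map_inv, map_pow, hc0, hlq, inv_inv, sq]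
  have hNl : AutPSL.normU σ r (l : Fˣ) = (l : Fˣ) ^ r := by
    rw [AutPSL.normU_apply]
    have : ∀ i, AutPSL.tw (AutPSL.mapU σ) (l : Fˣ) i = (l : Fˣ) ^ i := by
      intro i
      induction i with
      | zero => simp
      | succ i ih => rw [AutPSL.tw_succ, ih, map_pow, hl, pow_succ']
    exact this r
  obtain ⟨k, rfl⟩ := hodd
  refine ⟨(⟨_, hu⟩ ^ k)⁻¹ * l, ?_⟩
  simp only [Subgroup.coe_mul, InvMemClass.coe_inv, SubmonoidClass.coe_pow]
  rw [map_mul, map_inv, map_pow, hNu, hNl, ← pow_mul, inv_mul_eq_iff_eq_mul, ← pow_succ]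

omit hF in
theorem mapU_coe (c : Fˣ) : ((AutPSL.mapU σ c : Fˣ) : F) = σ (c : F) := rfl

/-- Lang's theorem for the unitary group. -/
theorem lang_GU (hn : 1 ≤ n) (hr : orderOf σ = r) (hodd : Odd r) (ι : F₀ →+* F)
    (hι : ∀ c : F, σ c = c ↔ c ∈ Set.range ι) (hF₀ : Fintype.card F₀ = q0 ^ 2)
    (hq0 : ∀ x, ι (x ^ q0) = ι x ^ q) {g : ↥(Cfsg.GU n F q)} {l : U1 F q}
    (hl : AutPSL.tw (mapGU σ) g r = scalGU n F q l) :
    ∃ (a : ↥(Cfsg.GU n F q)) (c : U1 F q), scalGU n F q c * g * mapGU σ a = a := by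
  classical
  haveI : Nonempty (Fin n) := ⟨⟨0, hn⟩⟩
  have hord : σ ^ r = 1 := by rw [← hr]; exact pow_orderOf_eq_one σ
  have htw : ∀ (x : ↥(Cfsg.GU n F q)) i, ((AutPSL.tw (mapGU σ) x i : ↥(Cfsg.GU n F q)) : GL (Fin n) F) =
      AutPSL.tw (mapG σ) (x : GL (Fin n) F) i := by
    intro x i
    induction i with
    | zero => rfl
    | succ i ih => rw [AutPSL.tw_succ, AutPSL.tw_succ, Subgroup.coe_mul, mapGU_coe, ih]
  have hl' : AutPSL.tw (mapG σ) (g : GL (Fin n) F) r = GeneralLinearGroup.scalar (Fin n) (l : Fˣ) := by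
    rw [← htw, hl, scalGU_coe]
  obtain ⟨c, hc⟩ := exists_U1_norm hF hr hodd (l := l) (AutPSp.fixed_of_twG_scalar hord hl')
  have hG : AutPSL.tw (mapG σ) ((scalGU n F q c⁻¹ * g : ↥(Cfsg.GU n F q)) : GL (Fin n) F) r = 1 := by
    rw [Subgroup.coe_mul, scalGU_coe, AutPSp.twG_scalar_mul, InvMemClass.coe_inv, hl',
      ← AutPSL.normU_apply, map_inv, hc, ← map_mul, inv_mul_cancel, map_one]
  obtain ⟨A, hA⟩ := AutPSp.langG hr hodd.pos hG
  set G : ↥(Cfsg.GU n F q) := scalGU n F q c⁻¹ * g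
  set M : Matrix (Fin n) (Fin n) F := (A : Matrix (Fin n) (Fin n) F)
  let τ := UnitaryConj.tstar (n := n) hF
  have hGm : τ ((G : GL (Fin n) F) : Matrix (Fin n) (Fin n) F) *
      ((G : GL (Fin n) F) : Matrix (Fin n) (Fin n) F) = 1 := (UnitaryConj.mem_GU_iff hF _).1 G.2
  have hτσ : ∀ N : Matrix (Fin n) (Fin n) F, τ (N.map σ) = (τ N).map σ := fun N => by
    ext i j
    show σ (N j i) ^ q = σ (N j i ^ q)
    rw [map_pow]
  have hMσ : ((G : GL (Fin n) F) : Matrix (Fin n) (Fin n) F) * M.map σ = M := congrArg Units.val hA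
  have hJfix : (τ M * M).map σ = τ M * M := by
    conv_rhs => rw [← hMσ, show τ = UnitaryConj.tstar (n := n) hF from rfl, UnitaryConj.tstar_mul]
    rw [Matrix.map_mul, ← hτσ, mul_assoc, ← mul_assoc (τ ((G : GL (Fin n) F) :
      Matrix (Fin n) (Fin n) F)), hGm, one_mul]
  have hent : ∀ i j, ∃ a : F₀, ι a = (τ M * M) i j := fun i j =>
    (hι _).1 (congrFun (congrFun hJfix i) j)
  choose J hJ using hent
  have hJmap : (Matrix.of J).map ι = τ M * M := Matrix.ext hJ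
  have hτdet : (τ M * M).det ≠ 0 := by
    rw [det_mul]
    refine mul_ne_zero ?_ (GeneralLinearGroup.det A).ne_zero
    show (M.map (UnitaryConj.qHom hF))ᵀ.det ≠ 0
    rw [det_transpose, ← RingHom.mapMatrix_apply, ← RingHom.map_det]
    exact (map_ne_zero _).2 (GeneralLinearGroup.det A).ne_zero
  have hJdet : (Matrix.of J).det ≠ 0 := fun h0 => hτdet (by
    rw [← hJmap, ← RingHom.mapMatrix_apply, ← RingHom.map_det, h0, map_zero])
  have hτι : ∀ N : Matrix (Fin n) (Fin n) F₀, (UnitaryConj.tstar hF₀ N).map ι = τ (N.map ι) :=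
    fun N => by ext i j; exact hq0 (N j i)
  have hJh : UnitaryConj.tstar hF₀ (Matrix.of J) = Matrix.of J := by
    apply Matrix.map_injective ι.injective
    show (UnitaryConj.tstar hF₀ (Matrix.of J)).map ι = (Matrix.of J).map ι
    rw [hτι, hJmap, show τ = UnitaryConj.tstar (n := n) hF from rfl, UnitaryConj.tstar_mul,
      UnitaryConj.tstar_tstar]
  obtain ⟨C, hC, -⟩ := UnitaryConj.exists_sqrt hF₀ (GeneralLinearGroup.mkOfDetNeZero _ hJdet) hJh
  let C' : GL (Fin n) F := GeneralLinearGroup.map ι C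
  have hC' : τ (C' : Matrix (Fin n) (Fin n) F) * (C' : Matrix (Fin n) (Fin n) F) = τ M * M := by
    show τ ((C : Matrix (Fin n) (Fin n) F₀).map ι) * (C : Matrix (Fin n) (Fin n) F₀).map ι = _
    rw [← hτι, ← Matrix.map_mul, hC]
    exact hJmap
  have hσC : mapG σ C' = C' := Units.ext (Matrix.ext fun i j => (hι _).2 ⟨_, rfl⟩)
  have hmem : A * C'⁻¹ ∈ Cfsg.GU n F q := by
    refine (UnitaryConj.mem_GU_iff hF _).2 ?_
    rw [Units.val_mul, UnitaryConj.tstar_mul, mul_assoc, ← mul_assoc (τ M), ← hC', mul_assoc (τ _),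
      ← Units.val_mul, mul_inv_cancel, Units.val_one, mul_one, ← UnitaryConj.tstar_mul,
      ← Units.val_mul, mul_inv_cancel, Units.val_one, UnitaryConj.tstar_one]
  refine ⟨⟨_, hmem⟩, c⁻¹, Subtype.ext ?_⟩
  show (G : GL (Fin n) F) * mapG σ (A * C'⁻¹) = A * C'⁻¹
  rw [map_mul, map_inv, hσC, ← mul_assoc, hA]

theorem exists_conj_of_field (hn : 3 ≤ n) (hr : orderOf σ = r) (hodd : Odd r) (ι : F₀ →+* F)
    (hι : ∀ c : F, σ c = c ↔ c ∈ Set.range ι) (hF₀ : Fintype.card F₀ = q0 ^ 2)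
    (hq0 : ∀ x, ι (x ^ q0) = ι x ^ q) (g : ↥(Cfsg.GU n F q))
    (h : (guHom n F q g * D (fieldSU σ)) ^ r = 1) :
    ∃ a, guHom n F q g * D (fieldSU σ) = guHom n F q a * D (fieldSU σ) * (guHom n F q a)⁻¹ := by
  rw [AutPSL.tw_pow (mapGU σ) (guHom n F q) _ (twist_GU σ) g r, ← map_pow, ← map_pow, ← hr,
    pow_orderOf_eq_one, map_one, map_one, mul_one, hr] at h
  obtain ⟨l, hl⟩ := exists_scalGU hF hn h
  obtain ⟨a, c, ha⟩ := lang_GU hF (by omega) hr hodd ι hι hF₀ hq0 hl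
  refine ⟨a, ?_⟩
  have he : guHom n F q (scalGU n F q c * g) = guHom n F q g := by rw [map_mul, guHom_scalGU, one_mul]
  rw [← he, eq_mul_inv_iff_mul_eq, mul_assoc, twist_GU σ a, ← mul_assoc, ← map_mul, ha]

/-- A unitary matrix moved by a scalar is a norm-one scalar times a fixed one. -/
theorem exists_fixed_part (hn : 1 ≤ n) (hr : orderOf σ = r) (hr0 : 0 < r) (ι : F₀ →+* F)
    (hι : ∀ c : F, σ c = c ↔ c ∈ Set.range ι) (hF₀ : Fintype.card F₀ = q0 ^ 2)
    (hq0 : ∀ x, ι (x ^ q0) = ι x ^ q) {g : ↥(Cfsg.GU n F q)} {l : Fˣ}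
    (hl' : mapG σ (g : GL (Fin n) F) =
      GeneralLinearGroup.scalar (Fin n) l * (g : GL (Fin n) F)) :
    ∃ (c : U1 F q) (h : ↥(Cfsg.GU n F q)), mapGU σ h = h ∧ g = scalGU n F q c * h := by
  haveI : Nonempty (Fin n) := ⟨⟨0, by omega⟩⟩
  obtain ⟨c, k, hk, hgk⟩ := AutPSp.exists_fixed_of_scalar_moved hr hr0 hl'
  -- the norm of `c` is fixed
  let i0 : Fin n := ⟨0, by omega⟩
  let s : Fin n → F := Pi.single i0 1
  have hs : (fun i => σ (s i)) = s := by
    funext i; by_cases hi : i = i0 <;> simp [s, hi]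
  have hgs : hm q (((g : GL (Fin n) F) : Matrix (Fin n) (Fin n) F) *ᵥ s)
      (((g : GL (Fin n) F) : Matrix (Fin n) (Fin n) F) *ᵥ s) = 1 := by
    refine (g.2 s s).trans ?_
    simp [s, Herm.herm_single_right hF]
  have hkσ : (fun i => σ (((k : Matrix (Fin n) (Fin n) F) *ᵥ s) i)) =
      (k : Matrix (Fin n) (Fin n) F) *ᵥ s := by
    conv_rhs => rw [← hk, ← hs]
    rw [show ((mapG σ k : GL (Fin n) F) : Matrix (Fin n) (Fin n) F) =
      (k : Matrix (Fin n) (Fin n) F).map σ from rfl, map_mulVec']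
  have hgv : ∀ w, ((g : GL (Fin n) F) : Matrix (Fin n) (Fin n) F) *ᵥ w =
      (c : F) • ((k : Matrix (Fin n) (Fin n) F) *ᵥ w) := fun w => by
    rw [hgk, Units.val_mul, ← mulVec_mulVec]
    simp [GeneralLinearGroup.scalar, Matrix.scalar_apply, ← Matrix.smul_one_eq_diagonal,
      smul_mulVec]
  have hN : σ ((c : F) * (c : F) ^ q) = (c : F) * (c : F) ^ q := by
    rw [hgv, hm_smul_left', hm_smul_right, ← mul_assoc] at hgs
    have h2 := congrArg σ hgs
    rw [map_mul, map_one, ← hm_map, hkσ] at h2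
    have h0 : hm q ((k : Matrix (Fin n) (Fin n) F) *ᵥ s) ((k : Matrix (Fin n) (Fin n) F) *ᵥ s) ≠ 0 :=
      fun h0 => by rw [h0, mul_zero] at hgs; exact zero_ne_one hgs
    exact mul_right_cancel₀ h0 (h2.trans hgs.symm)
  obtain ⟨N, hNι⟩ := (hι _).1 hN
  have hN0 : N ≠ 0 := by
    rintro rfl
    rw [map_zero] at hNι
    exact mul_ne_zero c.ne_zero (pow_ne_zero _ c.ne_zero) hNι.symm
  obtain ⟨μ, -, hμ⟩ := Herm.exists_norm hF₀ hN0 (ι.injective (by
    rw [hq0, hNι, norm_fixed' hF]))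
  have hμN : ι μ * ι μ ^ q = (c : F) * (c : F) ^ q := by
    rw [← hq0, ← map_mul, ← pow_succ', hμ, hNι]
  have hμ0 : ι μ ≠ 0 := fun h0 => mul_ne_zero c.ne_zero (pow_ne_zero _ c.ne_zero)
    (by rw [← hμN, h0, zero_mul])
  let c' : U1 F q := ⟨c * (Units.mk0 _ hμ0)⁻¹, Units.ext (by
    simp only [powMonoidHom_apply, Units.val_pow_eq_pow_val, Units.val_mul, Units.val_inv_eq_inv_val,
      Units.val_mk0, Units.val_one, mul_pow, inv_pow]
    rw [pow_succ', pow_succ', ← hμN, mul_inv_cancel₀ (mul_ne_zero hμ0 (pow_ne_zero _ hμ0))])⟩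
  refine ⟨c', (scalGU n F q c')⁻¹ * g, Subtype.ext ?_, (mul_inv_cancel_left _ _).symm⟩
  have hk' : (((scalGU n F q c')⁻¹ * g : ↥(Cfsg.GU n F q)) : GL (Fin n) F) =
      GeneralLinearGroup.scalar (Fin n) (Units.mk0 _ hμ0) * k := by
    rw [Subgroup.coe_mul, InvMemClass.coe_inv, scalGU_coe, hgk, ← map_inv, ← mul_assoc, ← map_mul,
      _root_.mul_inv_rev, inv_inv, inv_mul_cancel_right]
  rw [mapGU_coe, hk', map_mul, hk, AutPSp.mapG_scalar]
  congr 2
  exact Units.ext ((hι _).2 ⟨μ, rfl⟩)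

/-- The centraliser of a standard field automorphism. -/
theorem centralizer_iff (hn : 3 ≤ n) (hr : orderOf σ = r) (hr0 : 0 < r) (ι : F₀ →+* F)
    (hι : ∀ c : F, σ c = c ↔ c ∈ Set.range ι) (hF₀ : Fintype.card F₀ = q0 ^ 2)
    (hq0 : ∀ x, ι (x ^ q0) = ι x ^ q) {g : ↥(Cfsg.GU n F q)} :
    guHom n F q g ∈ Subgroup.centralizer {(D (fieldSU σ) : MulAut (P n F q))} ↔
      ∃ (c : U1 F q) (h : ↥(Cfsg.GU n F q)), mapGU σ h = h ∧ g = scalGU n F q c * h := by
  haveI : Nonempty (Fin n) := ⟨⟨0, by omega⟩⟩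
  rw [Subgroup.mem_centralizer_singleton_iff]
  constructor
  · intro h
    rw [twist_GU, mul_left_inj] at h
    have h' : guHom n F q (mapGU σ g * g⁻¹) = 1 := by rw [map_mul, map_inv, h, mul_inv_cancel]
    obtain ⟨l, hl⟩ := exists_scalGU hF hn h'
    have hl' : mapG σ (g : GL (Fin n) F) =
        GeneralLinearGroup.scalar (Fin n) (l : Fˣ) * (g : GL (Fin n) F) := by
      rw [← mapGU_coe, ← scalGU_coe, ← Subgroup.coe_mul, ← hl, inv_mul_cancel_right]
    exact exists_fixed_part hF (by omega) hr hr0 ι hι hF₀ hq0 hl'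
  · rintro ⟨c, h, hh, rfl⟩
    rw [map_mul, guHom_scalGU, one_mul, twist_GU, hh]

/-- The class of a standard field automorphism splits. -/
theorem splitClassCount_field (hn : 3 ≤ n) (hr : orderOf σ = r) (hr0 : 0 < r) (ι : F₀ →+* F)
    (hι : ∀ c : F, σ c = c ↔ c ∈ Set.range ι) (hF₀ : Fintype.card F₀ = q0 ^ 2)
    (hq0 : ∀ x, ι (x ^ q0) = ι x ^ q) :
    Cfsg.splitClassCount (Cfsg.inndiagPSU n F q) (Cfsg.Inn (P n F q))
      (D (fieldSU σ) : MulAut (P n F q)) = Nat.gcd n ((q + 1) / (q0 + 1)) := by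
  have hn1 : 1 ≤ n := by omega
  haveI : (Cfsg.Inn (P n F q)).Normal := AutPSp.normal_inn
  rw [inndiag_eq, AutPSp.splitClassCount_relIndex _ _ inn_le, ← Subgroup.index_comap]
  have hK : ((Cfsg.Inn (P n F q) ⊔ ((guHom n F q).range ⊓
      Subgroup.centralizer {(D (fieldSU σ) : MulAut (P n F q))})).comap (guHom n F q)) =
      ((powMonoidHom n : U1 F q →* U1 F q).range ⊔ (AutPSL.fixU σ).subgroupOf (U1 F q)).comap
        (detU hF hn1) := by
    ext g
    rw [Subgroup.mem_comap, Subgroup.mem_comap]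
    constructor
    · intro hg
      rw [Subgroup.mem_sup_of_normal_left] at hg
      obtain ⟨k, hk, z, hz, hg⟩ := hg
      obtain ⟨⟨w, rfl⟩, hw⟩ := Subgroup.mem_inf.1 hz
      obtain ⟨s, rfl⟩ := inn_le hk
      obtain ⟨c, h, hh, rfl⟩ := (centralizer_iff hF hn hr hr0 ι hι hF₀ hq0).1 hw
      rw [← map_mul] at hg
      have h1 : guHom n F q ((s * (scalGU n F q c * h))⁻¹ * g) = 1 := by
        rw [map_mul, map_inv, hg, inv_mul_cancel]
      obtain ⟨d, hd⟩ := exists_scalGU hF hn h1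
      rw [inv_mul_eq_iff_eq_mul] at hd
      subst hd
      have hds : ∀ e : U1 F q, detU hF hn1 (scalGU n F q e) = e ^ n := fun e => by
        apply Subtype.ext; apply Units.ext
        show ((GeneralLinearGroup.scalar (Fin n) (e : Fˣ) : GL (Fin n) F) :
          Matrix (Fin n) (Fin n) F).det = (((e ^ n : U1 F q) : Fˣ) : F)
        simp [GeneralLinearGroup.scalar]
      rw [map_mul, map_mul, map_mul, hds, hds]
      refine mul_mem (mul_mem (Subgroup.mem_sup_left ((mem_inn_iff hF hn s).1 hk))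
        (mul_mem (Subgroup.mem_sup_left ⟨c, rfl⟩) (Subgroup.mem_sup_right ?_)))
        (Subgroup.mem_sup_left ⟨d, rfl⟩)
      show AutPSL.mapU σ _ = _
      apply Units.ext
      show σ (((h : GL (Fin n) F) : Matrix (Fin n) (Fin n) F).det) = _
      conv_rhs => rw [← hh]
      show _ = (((h : GL (Fin n) F) : Matrix (Fin n) (Fin n) F).map σ).det
      exact RingHom.map_det σ.toRingHom _
    · intro hg
      rw [Subgroup.mem_sup] at hg
      obtain ⟨x, ⟨a, rfl⟩, μ, hμ, hg⟩ := hg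
      have hμ' : σ ((μ : Fˣ) : F) = (μ : Fˣ) := congrArg Units.val hμ
      obtain ⟨T, hT, hTd⟩ := Herm.exists_diag hF
        (Function.update 1 (⟨0, by omega⟩ : Fin n) ((μ : Fˣ) : F)) fun i => by
          rcases eq_or_ne i ⟨0, by omega⟩ with rfl | hi
          · rw [Function.update_self, ← Units.val_pow_eq_pow_val,
              show (μ : Fˣ) ^ (q + 1) = 1 from μ.2, Units.val_one]
          · simp [hi]
      have hTσ : mapGU σ ⟨T, hT⟩ = ⟨T, hT⟩ := by
        refine Subtype.ext (Units.ext ?_)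
        show (T : Matrix (Fin n) (Fin n) F).map σ = T
        rw [hTd, diagonal_map (map_zero σ)]
        congr 1
        funext i
        rcases eq_or_ne i ⟨0, by omega⟩ with rfl | hi
        · simp [hμ']
        · simp [hi]
      have hdT : detU hF hn1 ⟨T, hT⟩ = μ := by
        apply Subtype.ext; apply Units.ext
        show (T : Matrix (Fin n) (Fin n) F).det = _
        rw [hTd, det_diagonal, Finset.prod_update_of_mem (Finset.mem_univ _)]
        simp
      have hk : guHom n F q (g * (⟨T, hT⟩ : ↥(Cfsg.GU n F q))⁻¹) ∈ Cfsg.Inn (P n F q) := by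
        rw [mem_inn_iff hF hn, map_mul, map_inv, hdT, ← hg, mul_inv_cancel_right]
        exact ⟨a, rfl⟩
      have hz : guHom n F q ⟨T, hT⟩ ∈ (guHom n F q).range ⊓
          Subgroup.centralizer {(D (fieldSU σ) : MulAut (P n F q))} :=
        Subgroup.mem_inf.2 ⟨⟨_, rfl⟩, (centralizer_iff hF hn hr hr0 ι hι hF₀ hq0).2
          ⟨1, _, hTσ, by rw [map_one, one_mul]⟩⟩
      rw [← inv_mul_cancel_right g (⟨T, hT⟩ : ↥(Cfsg.GU n F q)), map_mul]
      exact mul_mem (Subgroup.mem_sup_left hk) (Subgroup.mem_sup_right hz)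
  rw [hK, Subgroup.index_comap_of_surjective _ (detU_surjective hF hn1), sup_comm,
    AutPSL.index_sup_powers, AutPSL.index_eq_div, Herm.card_norm_one hF]
  congr 2
  rw [← Herm.card_norm_one hF₀]
  let j : (powMonoidHom (q0 + 1) : F₀ˣ →* F₀ˣ).ker → ((AutPSL.fixU σ).subgroupOf (U1 F q)) :=
    fun x => ⟨⟨Units.map ι.toMonoidHom (x : F₀ˣ), Units.ext (by
      show (ι ((x : F₀ˣ) : F₀)) ^ (q + 1) = 1
      rw [pow_succ, ← hq0, ← map_mul, ← pow_succ, ← Units.val_pow_eq_pow_val,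
        show (x : F₀ˣ) ^ (q0 + 1) = 1 from x.2, Units.val_one, map_one])⟩,
      Units.ext ((hι _).2 ⟨_, rfl⟩)⟩
  refine (Nat.card_eq_of_bijective j ⟨fun x y h => ?_, fun x => ?_⟩).symm
  · exact Subtype.ext (Units.map_injective (f := ι.toMonoidHom) ι.injective
      (congrArg (fun z : ((AutPSL.fixU σ).subgroupOf (U1 F q)) => ((z : U1 F q) : Fˣ)) h))
  · obtain ⟨a, ha⟩ := (hι _).1 (show σ (((x : U1 F q) : Fˣ) : F) = _ from congrArg Units.val x.2)
    have ha0 : a ≠ 0 := fun h0 => ((x : U1 F q) : Fˣ).ne_zero (by rw [← ha, h0, map_zero])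
    refine ⟨⟨Units.mk0 a ha0, Units.ext (ι.injective ?_)⟩,
      Subtype.ext (Subtype.ext (Units.ext ha))⟩
    show ι (a ^ (q0 + 1)) = ι 1
    rw [map_one, pow_succ, map_mul, hq0, ha, ← pow_succ, ← Units.val_pow_eq_pow_val,
      show ((x : U1 F q) : Fˣ) ^ (q + 1) = 1 from (x : U1 F q).2, Units.val_one]

/-- The centraliser as `PGU` over the fixed field. -/
theorem centralizer_iso (hn : 3 ≤ n) (hr : orderOf σ = r) (hr0 : 0 < r) (ι : F₀ →+* F)
    (hι : ∀ c : F, σ c = c ↔ c ∈ Set.range ι) (hF₀ : Fintype.card F₀ = q0 ^ 2)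
    (hq0 : ∀ x, ι (x ^ q0) = ι x ^ q) :
    Nonempty (↥(Cfsg.inndiagPSU n F q ⊓
      Subgroup.centralizer {(D (fieldSU σ) : MulAut (P n F q))}) ≃* Cfsg.PGU n F₀ q0) := by
  classical
  have hτι : ∀ N : Matrix (Fin n) (Fin n) F₀,
      (UnitaryConj.tstar hF₀ N).map ι = UnitaryConj.tstar hF (N.map ι) :=
    fun N => by ext i j; exact hq0 (N j i)
  have hiff : ∀ g : GL (Fin n) F₀, g ∈ Cfsg.GU n F₀ q0 ↔
      GeneralLinearGroup.map ι g ∈ Cfsg.GU n F q := fun g => by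
    rw [UnitaryConj.mem_GU_iff hF₀, UnitaryConj.mem_GU_iff hF]
    show _ ↔ UnitaryConj.tstar hF ((g : Matrix (Fin n) (Fin n) F₀).map ι) *
      (g : Matrix (Fin n) (Fin n) F₀).map ι = 1
    rw [← hτι, ← Matrix.map_mul]
    refine ⟨fun h => by rw [h]; simp, fun h => Matrix.map_injective ι.injective ?_⟩
    show (_ : Matrix (Fin n) (Fin n) F₀).map ι = (1 : Matrix (Fin n) (Fin n) F₀).map ι
    rw [h]; simp
  let lift : ↥(Cfsg.GU n F₀ q0) →* ↥(Cfsg.GU n F q) :=
    ((GeneralLinearGroup.map ι).comp (Cfsg.GU n F₀ q0).subtype).codRestrict (Cfsg.GU n F q)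
      fun g => (hiff _).1 g.2
  let ψ : ↥(Cfsg.GU n F₀ q0) →* MulAut (P n F q) := (guHom n F q).comp lift
  have hker : ψ.ker = (Cfsg.Geo.scalars (Fin n) F₀).subgroupOf (Cfsg.GU n F₀ q0) := by
    ext g
    rw [MonoidHom.mem_ker, Subgroup.mem_subgroupOf, Cfsg.Geo.mem_scalars_iff]
    show guHom n F q (lift g) = 1 ↔ _
    set M := ((g : GL (Fin n) F₀) : Matrix (Fin n) (Fin n) F₀) with hM
    constructor
    · intro h
      obtain ⟨l, hl⟩ := (guHom_eq_one_iff hF hn).1 h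
      have hc' : M.map ι = l • (1 : Matrix (Fin n) (Fin n) F) :=
        Matrix.ext_iff_mulVec.2 fun z => by rw [smul_mulVec, one_mulVec]; exact hl z
      let i0 : Fin n := ⟨0, by omega⟩
      have hd : ι (M i0 i0) = l := by
        have := congrFun (congrFun hc' i0) i0
        simpa using this
      haveI : Nonempty (Fin n) := ⟨i0⟩
      have hl0 : l ≠ 0 := by
        rintro rfl
        rw [zero_smul] at hc'
        have h1 := congrArg Matrix.det hc'
        rw [← RingHom.mapMatrix_apply, ← RingHom.map_det, det_zero, map_eq_zero] at h1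
        exact (GeneralLinearGroup.det (g : GL (Fin n) F₀)).ne_zero h1
      have hd0 : M i0 i0 ≠ 0 := fun h => hl0 (by rw [← hd, h, map_zero])
      refine ⟨Units.mk0 _ hd0, Matrix.map_injective ι.injective ?_⟩
      dsimp only
      rw [hc']
      ext i j
      by_cases hij : i = j <;> simp [hij, hd]
    · rintro ⟨c, hc⟩
      refine guHom_scalar (l := ι (c : F₀)) fun z => ?_
      show ((g : GL (Fin n) F₀) : Matrix (Fin n) (Fin n) F₀).map ι *ᵥ z = _
      rw [← hM, hc]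
      have : ((c : F₀) • (1 : Matrix (Fin n) (Fin n) F₀)).map ι = ι (c : F₀) • 1 := by
        ext i j; by_cases hij : i = j <;> simp [hij]
      first
        | rw [this, smul_mulVec, one_mulVec]
        | simp [GeneralLinearGroup.scalar, Matrix.scalar_apply, ← Matrix.smul_one_eq_diagonal, this,
            smul_mulVec]
  have hlift : ∀ h : ↥(Cfsg.GU n F q), mapGU σ h = h ↔ ∃ a, lift a = h := by
    intro h
    constructor
    · intro hh
      have hent : ∀ i j, ∃ a : F₀, ι a = (h : GL (Fin n) F) i j := fun i j => (hι _).1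
        (congrArg (fun M : ↥(Cfsg.GU n F q) => (M : GL (Fin n) F) i j) hh)
      choose a ha using hent
      have hmap : (Matrix.of a).map ι = ((h : GL (Fin n) F) : Matrix (Fin n) (Fin n) F) :=
        Matrix.ext ha
      have hdet : (Matrix.of a).det ≠ 0 := by
        intro h0
        have := congrArg ι h0
        rw [RingHom.map_det, map_zero] at this
        exact (GeneralLinearGroup.det (h : GL (Fin n) F)).ne_zero
          (by rw [GeneralLinearGroup.val_det_apply, ← hmap]; exact this)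
      let k := GeneralLinearGroup.mkOfDetNeZero _ hdet
      have hk : k ∈ Cfsg.GU n F₀ q0 := (hiff _).2 (by
        rw [show GeneralLinearGroup.map ι k = (h : GL (Fin n) F) from Units.ext hmap]
        exact h.2)
      exact ⟨⟨k, hk⟩, Subtype.ext (Units.ext hmap)⟩
    · rintro ⟨a, rfl⟩
      exact Subtype.ext (Units.ext (Matrix.ext fun i j => (hι _).2 ⟨_, rfl⟩))
  have hrange : ψ.range = Cfsg.inndiagPSU n F q ⊓
      Subgroup.centralizer {(D (fieldSU σ) : MulAut (P n F q))} := by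
    rw [inndiag_eq]
    apply le_antisymm
    · rintro _ ⟨a, rfl⟩
      exact ⟨⟨_, rfl⟩, (centralizer_iff hF hn hr hr0 ι hι hF₀ hq0).2
        ⟨1, _, (hlift _).2 ⟨a, rfl⟩, by rw [map_one, one_mul]⟩⟩
    · rintro _ ⟨⟨g, rfl⟩, hg⟩
      obtain ⟨c, h, hh, rfl⟩ := (centralizer_iff hF hn hr hr0 ι hι hF₀ hq0).1 hg
      obtain ⟨a, rfl⟩ := (hlift h).1 hh
      exact ⟨a, by rw [map_mul, guHom_scalGU, one_mul]; rfl⟩
  exact ⟨(MulEquiv.subgroupCongr hrange.symm).trans
    ((QuotientGroup.quotientKerEquivRange ψ).symm.trans (QuotientGroup.quotientMulEquivOfEq hker))⟩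

omit hF [Fintype F] in
theorem embedding_pow {p k : ℕ} (ι : F₀ →+* F) (hodd : Odd r) (hq0 : q0 = p ^ k)
    (hq : q = p ^ (r * k)) (hF₀ : Fintype.card F₀ = q0 ^ 2) (x : F₀) : ι (x ^ q0) = ι x ^ q := by
  rw [← map_pow]
  congr 1
  obtain ⟨j, rfl⟩ := hodd
  rw [hq, hq0, show p ^ ((2 * j + 1) * k) = (Fintype.card F₀) ^ j * p ^ k by
    rw [hF₀, hq0, ← pow_mul, ← pow_mul, ← pow_add]; congr 1; ring, pow_mul, FiniteField.pow_card_pow]

end Cfsg.Agent.Lib.AutPSU
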