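import Cfsg.Agent.Lib.AutPSU.Classes
import Cfsg.Agent.Lib.AutPSL.GraphField
import Cfsg.Agent.Lib.AutPSL.Graph

/-!
Involutory graph automorphisms of `PSU_n` and matrices over the field with `q` elements.
-/

set_option autoImplicit false

namespace Cfsg.Agent.Lib.AutPSU

open Matrix
open Cfsg.Agent.Lib.UnitaryConj (qHom tstar)

universe u v

variable {n : ℕ} {F : Type u} [Field F] {q : ℕ} [Fintype F] (hF : Fintype.card F = q ^ 2)

/-- `x ↦ x ^ q`. -/
def qAut : F ≃+* F where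
  toFun := qHom hF
  invFun := qHom hF
  left_inv := UnitaryConj.qHom_qHom hF
  right_inv := UnitaryConj.qHom_qHom hF
  map_mul' := map_mul (qHom hF)
  map_add' := map_add (qHom hF)

theorem qAut_apply (x : F) : qAut hF x = x ^ q := rfl

theorem qAut_qAut (x : F) : qAut hF (qAut hF x) = x := UnitaryConj.qHom_qHom hF x

theorem orderOf_qAut : orderOf (qAut hF) = 2 := by
  refine orderOf_eq_prime (RingEquiv.ext fun x => qAut_qAut hF x) fun h => ?_
  obtain ⟨θ, hθ⟩ := UnitaryConj.exists_moved hF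
  exact hθ (show qAut hF θ = θ by rw [h]; rfl)

include hF in
theorem eq_qAut {σ : F ≃+* F} (h : orderOf σ = 2) : σ = qAut hF := by
  obtain ⟨p, k, hp, -, hk, rfl⟩ := UnitaryConj.q_eq_pow hF
  haveI := Fact.mk hp
  obtain ⟨-, hK, hx⟩ := AutPSL.exists_q (p := p) (f := k * 2) (by rw [hF, pow_mul]) (by omega) h
  refine RingEquiv.ext fun x => (hx x).trans ?_
  show x ^ p ^ (k * 2 / 2) = x ^ p ^ k
  rw [Nat.mul_div_cancel _ (by norm_num : 0 < 2)]

include hF in
theorem exists_ι (F₀ : Type v) [Field F₀] [Fintype F₀] (hF₀ : Fintype.card F₀ = q) :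
    ∃ ι : F₀ →+* F, ∀ c : F, qAut hF c = c ↔ c ∈ Set.range ι := by
  obtain ⟨p, k, hp, -, hk, hq⟩ := UnitaryConj.q_eq_pow hF
  haveI := Fact.mk hp
  refine AutPSL.exists_embedding (p := p) (f := k * 2) (by rw [hF, hq, pow_mul]) (orderOf_qAut hF)
    (dvd_mul_left 2 k) F₀ ?_
  rw [hF₀, hq, Nat.mul_div_cancel _ (by norm_num : 0 < 2)]

/-- The Galois action on invertible matrices. -/
abbrev sG : GL (Fin n) F →* GL (Fin n) F := mapGL (qAut hF)

theorem sG_sG (g : GL (Fin n) F) : sG hF (sG hF g) = g :=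
  Units.ext (Matrix.ext fun i j => qAut_qAut hF (g i j))

theorem sG_val (g : GL (Fin n) F) :
    (sG hF g : Matrix (Fin n) (Fin n) F) = (g : Matrix (Fin n) (Fin n) F).map (qHom hF) := rfl

/-- A scalar matrix. -/
abbrev SC (n : ℕ) (z : Fˣ) : GL (Fin n) F := GeneralLinearGroup.scalar (Fin n) z

omit [Fintype F] in
theorem SC_val (z : Fˣ) : (SC n z : Matrix (Fin n) (Fin n) F) = (z : F) • 1 := AutPSL.scalar_val z

omit [Fintype F] in
theorem SC_mul_val (z : Fˣ) (g : GL (Fin n) F) :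
    ((SC n z * g : GL (Fin n) F) : Matrix (Fin n) (Fin n) F) = (z : F) • (g : Matrix (Fin n) (Fin n) F) := by
  rw [Units.val_mul, SC_val, Matrix.smul_mul, one_mul]

omit [Fintype F] in
theorem SC_comm (z : Fˣ) (g h : GL (Fin n) F) : g * (SC n z * h) = SC n z * (g * h) := by
  rw [← mul_assoc, ← (AutPSL.scalar_commute z g).eq, mul_assoc]

theorem sG_SC (z : Fˣ) : sG hF (SC n z) = SC n (AutPSL.mapU (qAut hF) z) := AutPSL.mapGL_scalar _ _

/-! ### Conjugate transposes -/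

theorem tstar_eq (M : Matrix (Fin n) (Fin n) F) : tstar hF M = (M.map (qHom hF))ᵀ := rfl

theorem mem_GU' {g : GL (Fin n) F} :
    g ∈ Cfsg.GU n F q ↔ tstar hF (g : Matrix (Fin n) (Fin n) F) * g = 1 := UnitaryConj.mem_GU_iff hF g

theorem tstar_SC_mul (z : Fˣ) (a : GL (Fin n) F) :
    tstar hF ((SC n z * a : GL (Fin n) F) : Matrix (Fin n) (Fin n) F) *
        ((SC n z * a : GL (Fin n) F) : Matrix (Fin n) (Fin n) F) =
      ((z : F) ^ q * z) • (tstar hF (a : Matrix (Fin n) (Fin n) F) * a) := by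
  rw [SC_mul_val, UnitaryConj.tstar_smul, Matrix.smul_mul, Matrix.mul_smul, smul_smul]
  rfl

theorem tstar_GU_mul {h : GL (Fin n) F} (hh : h ∈ Cfsg.GU n F q) (a : GL (Fin n) F) :
    tstar hF ((h * a : GL (Fin n) F) : Matrix (Fin n) (Fin n) F) *
        ((h * a : GL (Fin n) F) : Matrix (Fin n) (Fin n) F) =
      tstar hF (a : Matrix (Fin n) (Fin n) F) * a := by
  rw [Units.val_mul, UnitaryConj.tstar_mul, mul_assoc, ← mul_assoc (tstar hF (h : Matrix (Fin n) (Fin n) F)),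
    (mem_GU' hF).1 hh, one_mul]

theorem mem_GU_of {h a : GL (Fin n) F}
    (hh : tstar hF ((h * a : GL (Fin n) F) : Matrix (Fin n) (Fin n) F) *
        ((h * a : GL (Fin n) F) : Matrix (Fin n) (Fin n) F) = tstar hF (a : Matrix (Fin n) (Fin n) F) * a) :
    h ∈ Cfsg.GU n F q := by
  refine (mem_GU' hF).2 ?_
  have hr : (a : Matrix (Fin n) (Fin n) F) * ((a⁻¹ : GL (Fin n) F) : Matrix (Fin n) (Fin n) F) = 1 := by
    rw [← Units.val_mul, mul_inv_cancel, Units.val_one]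
  have hl : tstar hF ((a⁻¹ : GL (Fin n) F) : Matrix (Fin n) (Fin n) F) * tstar hF (a : Matrix (Fin n) (Fin n) F) = 1 := by
    rw [← UnitaryConj.tstar_mul, hr, UnitaryConj.tstar_one]
  have e := congrArg (fun X => tstar hF ((a⁻¹ : GL (Fin n) F) : Matrix (Fin n) (Fin n) F) * X *
    ((a⁻¹ : GL (Fin n) F) : Matrix (Fin n) (Fin n) F)) hh
  simp only [Units.val_mul, UnitaryConj.tstar_mul] at e
  simpa only [← mul_assoc, hl, one_mul, mul_assoc _ (a : Matrix (Fin n) (Fin n) F) _, hr, mul_one] using e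

/-! ### The automorphisms -/

/-- The automorphism of a unitary matrix. -/
noncomputable def gr (g : ↥(Cfsg.GU n F q)) : MulAut (P n F q) :=
  guHom n F q g * D (fieldSU (qAut hF))

include hF in
theorem guHom_eq_iff (hn : 3 ≤ n) {g g' : ↥(Cfsg.GU n F q)} :
    guHom n F q g = guHom n F q g' ↔ ∃ l : Fˣ, (g : GL (Fin n) F) = SC n l * (g' : GL (Fin n) F) := by
  constructor
  · intro h
    obtain ⟨c, hc⟩ := exists_scalGU hF hn (g := g'⁻¹ * g) (by rw [map_mul, map_inv, h, inv_mul_cancel])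
    refine ⟨(c : Fˣ), ?_⟩
    rw [inv_mul_eq_iff_eq_mul] at hc
    rw [hc, Subgroup.coe_mul, scalGU_coe, (AutPSL.scalar_commute _ _).eq]
  · rintro ⟨l, hl⟩
    have h1 : guHom n F q (g * g'⁻¹) = 1 := guHom_scalar (l := (l : F)) fun z => by
      rw [Subgroup.coe_mul, InvMemClass.coe_inv, hl, mul_inv_cancel_right, SC_val, smul_mulVec, one_mulVec]
    rwa [map_mul, map_inv, mul_inv_eq_one] at h1

theorem gr_eq_iff (hn : 3 ≤ n) {g g' : ↥(Cfsg.GU n F q)} :
    gr hF g = gr hF g' ↔ ∃ l : Fˣ, (g : GL (Fin n) F) = SC n l * (g' : GL (Fin n) F) := by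
  rw [gr, gr, mul_left_inj, guHom_eq_iff hF hn]

theorem conj_gr (h g : ↥(Cfsg.GU n F q)) :
    guHom n F q h * gr hF g * (guHom n F q h)⁻¹ = gr hF (h * g * mapGU (qAut hF) h⁻¹) := by
  rw [gr, gr, ← map_inv, mul_assoc, mul_assoc, twist_GU, ← mul_assoc, ← mul_assoc, ← map_mul, ← map_mul]

theorem conj_eq_iff (hn : 3 ≤ n) {h g g' : ↥(Cfsg.GU n F q)} :
    gr hF g' = guHom n F q h * gr hF g * (guHom n F q h)⁻¹ ↔ ∃ l : Fˣ,
      (h : GL (Fin n) F) * (g : GL (Fin n) F) = SC n l * ((g' : GL (Fin n) F) * sG hF (h : GL (Fin n) F)) := by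
  rw [conj_gr, eq_comm, gr_eq_iff hF hn]
  refine exists_congr fun l => ?_
  rw [Subgroup.coe_mul, Subgroup.coe_mul]
  show (h : GL (Fin n) F) * (g : GL (Fin n) F) * sG hF ((h⁻¹ : ↥(Cfsg.GU n F q)) : GL (Fin n) F) = _ ↔ _
  rw [InvMemClass.coe_inv, map_inv, mul_inv_eq_iff_eq_mul, mul_assoc]

theorem mem_centralizer_iff (hn : 3 ≤ n) {h g : ↥(Cfsg.GU n F q)} :
    guHom n F q h ∈ Subgroup.centralizer {gr hF g} ↔ ∃ l : Fˣ,
      (h : GL (Fin n) F) * (g : GL (Fin n) F) = SC n l * ((g : GL (Fin n) F) * sG hF (h : GL (Fin n) F)) := by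
  rw [Subgroup.mem_centralizer_singleton_iff, ← mul_inv_eq_iff_eq_mul, eq_comm, conj_eq_iff hF hn]

/-- The transpose of a matrix whose product with its conjugate is scalar. -/
theorem transpose_of_mul_bar {g : GL (Fin n) F} (hg : g ∈ Cfsg.GU n F q) {l : F}
    (h : (g : Matrix (Fin n) (Fin n) F) * (g : Matrix (Fin n) (Fin n) F).map (qHom hF) = l • 1) :
    (g : Matrix (Fin n) (Fin n) F) = l • (g : Matrix (Fin n) (Fin n) F)ᵀ := by
  have h1 : (g : Matrix (Fin n) (Fin n) F) * tstar hF (g : Matrix (Fin n) (Fin n) F) = 1 :=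
    mul_eq_one_comm.1 ((mem_GU' hF).1 hg)
  have h2 := congrArg Matrix.transpose h1
  rw [transpose_mul, transpose_one, tstar_eq, transpose_transpose] at h2
  calc (g : Matrix (Fin n) (Fin n) F)
      = (g : Matrix (Fin n) (Fin n) F) * ((g : Matrix (Fin n) (Fin n) F).map (qHom hF) *
          (g : Matrix (Fin n) (Fin n) F)ᵀ) := by rw [h2, mul_one]
    _ = _ := by rw [← mul_assoc, h, Matrix.smul_mul, one_mul]

variable {F₀ : Type v} [Field F₀] (ι : F₀ →+* F) (hι : ∀ c : F, qAut hF c = c ↔ c ∈ Set.range ι)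

include hF in
theorem exists_gr (hn : 3 ≤ n) {γ : MulAut (P n F q)} (hγ : Cfsg.IsGraphAutClassPSU γ)
    (hγ2 : orderOf γ = 2) : ∃ (g : ↥(Cfsg.GU n F q)) (ε : F₀), γ = gr hF g ∧ ε * ε = 1 ∧
      ((g : GL (Fin n) F) : Matrix (Fin n) (Fin n) F)ᵀ = ι ε • ((g : GL (Fin n) F) : Matrix (Fin n) (Fin n) F) := by
  obtain ⟨-, δ, φ, σ, heven, hδ, hφ, rfl⟩ := hγ
  obtain ⟨g', hg', rfl⟩ := innerDiag_iff.1 hδ
  obtain rfl := fieldAut_iff.1 hφ
  set g : ↥(Cfsg.GU n F q) := ⟨g', hg'⟩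
  have hsq : guHom n F q (g * mapGU σ g) * D (fieldSU (σ * σ)) = 1 := by
    rw [map_mul, map_mul, map_mul, ← mul_assoc, mul_assoc (guHom n F q g), ← twist_GU,
      ← pow_orderOf_eq_one (guHom n F q g * D (fieldSU σ)), show orderOf (guHom n F q g * D (fieldSU σ)) = 2
        from hγ2, pow_two]
    simp only [mul_assoc]
  obtain ⟨hσσ, l, hl⟩ := std_unique hF hn hsq
  have hσ : σ = qAut hF := eq_qAut hF (orderOf_eq_prime (by rw [pow_two]; exact hσσ) fun h => by
    rw [h, orderOf_one] at heven; exact absurd heven (by decide))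
  subst hσ
  have hl' : ((g : GL (Fin n) F) : Matrix (Fin n) (Fin n) F) *
      ((g : GL (Fin n) F) : Matrix (Fin n) (Fin n) F).map (qHom hF) = l • 1 :=
    Matrix.ext_iff_mulVec.2 fun z => (hl z).trans (by rw [smul_mulVec, one_mulVec])
  have h1 := transpose_of_mul_bar hF hg' hl'
  have h2 : ((g : GL (Fin n) F) : Matrix (Fin n) (Fin n) F)ᵀ = l • ((g : GL (Fin n) F) : Matrix (Fin n) (Fin n) F) := by
    conv_lhs => rw [show ((g : GL (Fin n) F) : Matrix (Fin n) (Fin n) F) = _ from h1, transpose_smul,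
      transpose_transpose]
  haveI : Nonempty (Fin n) := ⟨⟨0, by omega⟩⟩
  have hll : l * l = 1 := by
    by_contra hcc
    have h4 : (l * l - 1) • ((g : GL (Fin n) F) : Matrix (Fin n) (Fin n) F) = 0 := by
      rw [sub_smul, one_smul, mul_smul, ← h2, ← h1, sub_self]
    exact (g : GL (Fin n) F).ne_zero ((smul_eq_zero.1 h4).resolve_left (sub_ne_zero.2 hcc))
  rcases mul_self_eq_one_iff.1 hll with rfl | rfl
  · exact ⟨g, 1, rfl, one_mul 1, by rw [map_one]; exact h2⟩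
  · exact ⟨g, -1, rfl, by norm_num, by rw [map_neg, map_one]; exact h2⟩

omit [Field F₀] in
theorem orderOf_gr (hn : 3 ≤ n) {g : ↥(Cfsg.GU n F q)} {ε : F} (hε : ε * ε = 1)
    (hg : ((g : GL (Fin n) F) : Matrix (Fin n) (Fin n) F)ᵀ = ε • ((g : GL (Fin n) F) : Matrix (Fin n) (Fin n) F)) :
    orderOf (gr hF g) = 2 := by
  refine orderOf_eq_prime ?_ fun h => ?_
  · have hb : ((g : GL (Fin n) F) : Matrix (Fin n) (Fin n) F) *
        ((g : GL (Fin n) F) : Matrix (Fin n) (Fin n) F).map (qHom hF) = ε • 1 := by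
      have h1 := congrArg Matrix.transpose ((mem_GU' hF).1 g.2)
      rw [transpose_mul, transpose_one, tstar_eq, transpose_transpose, hg, Matrix.smul_mul] at h1
      rw [← h1, smul_smul, hε, one_smul]
    rw [pow_two, gr, mul_assoc, ← mul_assoc (D (fieldSU (qAut hF))), twist_GU, mul_assoc, ← map_mul D,
      ← map_mul fieldSU, ← mul_assoc, ← map_mul,
      show qAut hF * qAut hF = 1 from RingEquiv.ext fun x => qAut_qAut hF x, map_one, map_one, mul_one]
    refine guHom_scalar (l := ε) fun z => ?_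
    show (((g : GL (Fin n) F) : Matrix (Fin n) (Fin n) F) *
      ((g : GL (Fin n) F) : Matrix (Fin n) (Fin n) F).map (qHom hF)) *ᵥ z = _
    rw [hb, smul_mulVec, one_mulVec]
  · have := (std_unique hF hn (g := g) (σ := qAut hF) h).1
    have h2 := orderOf_qAut hF
    rw [this, orderOf_one] at h2
    exact absurd h2 (by decide)

omit [Field F₀] in
theorem isGraph_gr (hn : 3 ≤ n) (g : ↥(Cfsg.GU n F q)) : Cfsg.IsGraphAutClassPSU (gr hF g) :=
  ⟨hn, _, _, qAut hF, by rw [orderOf_qAut]; exact ⟨1, rfl⟩,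
    innerDiag_iff.2 ⟨⟨g, GU_le_Sim g.2⟩, g.2, rfl⟩, fieldAut_iff.2 rfl, rfl⟩

/-! ### Attached matrices -/

/-- `M` is attached to `g`. -/
def Attach (g : GL (Fin n) F) (M : Matrix (Fin n) (Fin n) F₀) : Prop :=
  ∃ (a : GL (Fin n) F) (s t : Fˣ), g * sG hF a = SC n s * a ∧
    tstar hF (a : Matrix (Fin n) (Fin n) F) * a = (t : F) • M.map ι

include hι in
theorem qHom_ι (x : F₀) : qHom hF (ι x) = ι x := (hι _).2 ⟨x, rfl⟩

include hι in
theorem tstar_map (M : Matrix (Fin n) (Fin n) F₀) : tstar hF (M.map ι) = Mᵀ.map ι := by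
  ext i j; exact qHom_ι hF ι hι (M j i)

include hι in
theorem sG_map (R : GL (Fin n) F₀) : sG hF (GeneralLinearGroup.map ι R) = GeneralLinearGroup.map ι R :=
  Units.ext (Matrix.ext fun i j => qHom_ι hF ι hι (R i j))

include hι in
theorem descend {k : GL (Fin n) F} (hk : sG hF k = k) :
    ∃ R : GL (Fin n) F₀, GeneralLinearGroup.map ι R = k := by
  have hent : ∀ i j, ∃ a : F₀, ι a = k i j := fun i j =>
    (hι _).1 (congrArg (fun X : GL (Fin n) F => X i j) hk)
  choose A hA using hent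
  have hmap : (Matrix.of A).map ι = (k : Matrix (Fin n) (Fin n) F) := Matrix.ext hA
  have hd : (Matrix.of A).det ≠ 0 := fun h0 => (GeneralLinearGroup.det k).ne_zero (by
    rw [GeneralLinearGroup.val_det_apply, ← hmap, ← RingHom.mapMatrix_apply, ← RingHom.map_det, h0, map_zero])
  exact ⟨GeneralLinearGroup.mkOfDetNeZero _ hd, Units.ext hmap⟩

omit [Fintype F] in
theorem map_smul_ι (c : F₀) (M : Matrix (Fin n) (Fin n) F₀) : (c • M).map ι = ι c • M.map ι := by
  ext i j; exact map_mul ι c (M i j)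

omit [Fintype F] in
theorem descend_smul {X M : Matrix (Fin n) (Fin n) F₀} (hM : M ≠ 0) {w : F} (hw : w ≠ 0)
    (h : X.map ι = w • M.map ι) : ∃ c : F₀, c ≠ 0 ∧ ι c = w ∧ X = c • M := by
  obtain ⟨i, j, hij⟩ : ∃ i j, M i j ≠ 0 := by
    by_contra hall
    push Not at hall
    exact hM (Matrix.ext hall)
  have he : ι (X i j) = w * ι (M i j) := congrFun (congrFun h i) j
  have hc : ι (X i j / M i j) = w := by
    rw [map_div₀, he, mul_div_cancel_right₀]
    exact (map_ne_zero ι).2 hij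
  refine ⟨X i j / M i j, fun h0 => hw (by rw [← hc, h0, map_zero]), hc, ?_⟩
  refine Matrix.map_injective ι.injective ?_
  show X.map ι = ((X i j / M i j) • M).map ι
  rw [h, map_smul_ι, hc]

theorem Attach.congr {g : GL (Fin n) F} {M M' : Matrix (Fin n) (Fin n) F₀} (hA : Attach hF ι g M)
    (hι : ∀ c : F, qAut hF c = c ↔ c ∈ Set.range ι) {c : F₀} (hc : c ≠ 0)
    (h : AutPSL.Congr M (c • M')) : Attach hF ι g M' := by
  obtain ⟨a, s, t, h1, h2⟩ := hA
  obtain ⟨P', hP'⟩ := h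
  refine ⟨a * GeneralLinearGroup.map ι P', s, t * Units.mk0 (ι c) ((map_ne_zero ι).2 hc), ?_, ?_⟩
  · rw [map_mul, sG_map hF ι hι, ← mul_assoc, h1, mul_assoc]
  · show tstar hF ((a : Matrix (Fin n) (Fin n) F) * (P' : Matrix (Fin n) (Fin n) F₀).map ι) *
      ((a : Matrix (Fin n) (Fin n) F) * (P' : Matrix (Fin n) (Fin n) F₀).map ι) = ((t : F) * ι c) • M'.map ι
    rw [UnitaryConj.tstar_mul, mul_assoc, ← mul_assoc (tstar hF (a : Matrix (Fin n) (Fin n) F)), h2,
      Matrix.smul_mul, Matrix.mul_smul, tstar_map hF ι hι, ← Matrix.map_mul, ← Matrix.map_mul, ← mul_assoc,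
      hP', map_smul_ι, smul_smul]

include hι in
/-- The multiplier satisfies `t = ε t^q`. -/
theorem attach_mult {a : GL (Fin n) F} {t : Fˣ} {M : Matrix (Fin n) (Fin n) F₀} {ε : F₀} (hM : M ≠ 0)
    (hs : Mᵀ = ε • M) (h2 : tstar hF (a : Matrix (Fin n) (Fin n) F) * a = (t : F) • M.map ι) :
    (t : F) = qHom hF t * ι ε := by
  have h := congrArg (tstar hF) h2
  rw [UnitaryConj.tstar_mul, UnitaryConj.tstar_tstar, h2, UnitaryConj.tstar_smul, tstar_map hF ι hι, hs,
    map_smul_ι, smul_smul] at h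
  refine smul_left_injective F (fun h0 => hM ?_ : M.map ι ≠ 0) h
  refine Matrix.map_injective ι.injective ?_
  show M.map ι = (0 : Matrix (Fin n) (Fin n) F₀).map ι
  rw [h0, Matrix.map_zero _ (map_zero ι)]

section exists_

variable [Fintype F₀] (hF₀ : Fintype.card F₀ = q)

omit [Fintype F₀] in
include hι in
theorem exists_norm_ι {ε : F₀} (hε : ε ≠ 0) : ∃ s : Fˣ, (s : F) ^ q * s = ι ε := by
  obtain ⟨s, -, hs⟩ := Classical.Herm.exists_norm hF ((map_ne_zero ι).2 hε)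
    (show ι ε ^ q = ι ε from qHom_ι hF ι hι ε)
  refine ⟨Units.mk0 s fun h => (map_ne_zero ι).2 hε (by rw [← hs, h, zero_pow (Nat.succ_ne_zero q)]), ?_⟩
  rw [Units.val_mk0, ← pow_succ, hs]

omit [Fintype F₀] in
theorem exists_skew {ε : F₀} (hε : ε * ε = 1) : ∃ t : Fˣ, qHom hF (t : F) = ι ε * t := by
  rcases mul_self_eq_one_iff.1 hε with rfl | rfl
  · exact ⟨1, by simp⟩
  · obtain ⟨κ, hκ0, hκ⟩ := exists_skew_ne_zero hF
    refine ⟨Units.mk0 κ hκ0, ?_⟩
    rw [Units.val_mk0, map_neg, map_one, neg_one_mul]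
    exact eq_neg_of_add_eq_zero_right hκ

omit [Fintype F₀] in
include hι in
theorem exists_attach (hn : 1 ≤ n) {g : ↥(Cfsg.GU n F q)} {ε : F₀} (hε : ε * ε = 1)
    (hg : ((g : GL (Fin n) F) : Matrix (Fin n) (Fin n) F)ᵀ = ι ε • ((g : GL (Fin n) F) : Matrix (Fin n) (Fin n) F)) :
    ∃ M : Matrix (Fin n) (Fin n) F₀, M.det ≠ 0 ∧ Mᵀ = ε • M ∧ Attach hF ι (g : GL (Fin n) F) M := by
  have hε0 : ε ≠ 0 := fun h => zero_ne_one (by rw [← hε, h, mul_zero])
  have hιε : ι ε * ι ε = 1 := by rw [← map_mul, hε, map_one]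
  obtain ⟨s, hs⟩ := exists_norm_ι hF ι hι hε0
  set gm := ((g : GL (Fin n) F) : Matrix (Fin n) (Fin n) F) with hgm
  have h1 := congrArg Matrix.transpose ((mem_GU' hF).1 g.2)
  rw [transpose_mul, transpose_one, tstar_eq, transpose_transpose, ← hgm, hg, Matrix.smul_mul] at h1
  have hgb : gm * gm.map (qHom hF) = ι ε • 1 := by rw [← h1, smul_smul, hιε, one_smul]
  set g' : GL (Fin n) F := SC n s⁻¹ * (g : GL (Fin n) F) with hg'
  have hg'v : (g' : Matrix (Fin n) (Fin n) F) = ((s⁻¹ : Fˣ) : F) • gm := SC_mul_val _ _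
  have htw : AutPSL.tw (AutPSL.mapGL (qAut hF)) g' 2 = 1 := by
    rw [AutPSL.tw_two]
    refine Units.ext ?_
    show (g' : Matrix (Fin n) (Fin n) F) * (g' : Matrix (Fin n) (Fin n) F).map (qHom hF) = 1
    rw [hg'v, Matrix.map_smul' (qHom hF) _ _ (map_mul _), Matrix.smul_mul, Matrix.mul_smul, hgb, smul_smul,
      smul_smul, Units.val_inv_eq_inv_val, map_inv₀, show qHom hF (s : F) = (s : F) ^ q from rfl, ← hs,
      show (s : F)⁻¹ * ((s : F) ^ q)⁻¹ * ((s : F) ^ q * s) = 1 by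
        field_simp [pow_ne_zero q s.ne_zero, s.ne_zero], one_smul]
  obtain ⟨a, ha⟩ := AutPSL.lang (orderOf_qAut hF) (by norm_num) htw
  have hA : (g : GL (Fin n) F) * sG hF a = SC n s * a := by
    calc (g : GL (Fin n) F) * sG hF a = SC n s * (g' * sG hF a) := by
          rw [hg', ← mul_assoc, ← mul_assoc (SC n s), ← map_mul, mul_inv_cancel, map_one, one_mul]
      _ = _ := congrArg (SC n s * ·) ha
  obtain ⟨t, ht⟩ := exists_skew hF ι hε
  set H := tstar hF (a : Matrix (Fin n) (Fin n) F) * (a : Matrix (Fin n) (Fin n) F) with hH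
  have hav : (g' : Matrix (Fin n) (Fin n) F) * (a : Matrix (Fin n) (Fin n) F).map (qHom hF) = a :=
    congrArg Units.val ha
  have hHb : H.map (qHom hF) = ι ε • H := by
    have e1 : tstar hF H = H := by rw [hH, UnitaryConj.tstar_mul, UnitaryConj.tstar_tstar]
    have e2 : H.map (qHom hF) = Hᵀ := by
      conv_rhs => rw [← e1, tstar_eq, transpose_transpose]
    rw [e2]
    set b := (a : Matrix (Fin n) (Fin n) F).map (qHom hF) with hb
    have e3 : H = ((s⁻¹ : Fˣ) : F) • (bᵀ * gm * b) := by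
      rw [hH, tstar_eq, ← hb]
      conv_lhs => rw [← hav, hg'v, Matrix.smul_mul, Matrix.mul_smul, ← mul_assoc]
    rw [e3, transpose_smul, transpose_mul, transpose_mul, transpose_transpose, hg, Matrix.smul_mul,
      Matrix.mul_smul, ← mul_assoc, smul_comm]
  have hfix : ∀ i j, ∃ x : F₀, ι x = (t : F)⁻¹ * H i j := fun i j => (hι _).1 (by
    show qHom hF _ = _
    rw [map_mul, map_inv₀, ht, show qHom hF (H i j) = ι ε * H i j from congrFun (congrFun hHb i) j]
    have : ι ε ≠ 0 := (map_ne_zero ι).2 hε0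
    field_simp)
  choose A hAι using hfix
  have hmap : (Matrix.of A).map ι = (t : F)⁻¹ • H := Matrix.ext hAι
  have hH2 : H = (t : F) • (Matrix.of A).map ι := by
    rw [hmap, smul_smul, mul_inv_cancel₀ t.ne_zero, one_smul]
  have hd : (Matrix.of A).det ≠ 0 := fun h0 => by
    have h := congrArg Matrix.det hH2
    rw [det_smul, ← RingHom.mapMatrix_apply, ← RingHom.map_det, h0, map_zero, mul_zero, hH, det_mul,
      tstar_eq, det_transpose, ← RingHom.mapMatrix_apply, ← RingHom.map_det] at h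
    have hane : (a : Matrix (Fin n) (Fin n) F).det ≠ 0 := by
      rw [← GeneralLinearGroup.val_det_apply]; exact (GeneralLinearGroup.det a).ne_zero
    exact mul_ne_zero ((map_ne_zero _).2 hane) hane h
  refine ⟨Matrix.of A, hd, Matrix.map_injective ι.injective ?_, a, s, t, hA, hH2⟩
  show (Matrix.of A)ᵀ.map ι = (ε • Matrix.of A).map ι
  have e1 : tstar hF H = H := by rw [hH, UnitaryConj.tstar_mul, UnitaryConj.tstar_tstar]
  rw [map_smul_ι, hmap, Matrix.transpose_map, hmap, transpose_smul, smul_comm]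
  congr 1
  rw [← hHb]
  conv_lhs => rw [← e1, tstar_eq, transpose_transpose]

omit [Fintype F₀] in
include hι in
theorem exists_of_matrix {M : Matrix (Fin n) (Fin n) F₀} (hd : M.det ≠ 0) {ε : F₀} (hε : ε * ε = 1)
    (hM : Mᵀ = ε • M) : ∃ g : ↥(Cfsg.GU n F q),
      ((g : GL (Fin n) F) : Matrix (Fin n) (Fin n) F)ᵀ = ι ε • ((g : GL (Fin n) F) : Matrix (Fin n) (Fin n) F) ∧
        Attach hF ι (g : GL (Fin n) F) M := by
  have hε0 : ε ≠ 0 := fun h => zero_ne_one (by rw [← hε, h, mul_zero])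
  have hιε : ι ε * ι ε = 1 := by rw [← map_mul, hε, map_one]
  obtain ⟨s, hs⟩ := exists_norm_ι hF ι hι hε0
  obtain ⟨t, ht⟩ := exists_skew hF ι hε
  have hdH : ((t : F) • M.map ι).det ≠ 0 := by
    rw [det_smul, ← RingHom.mapMatrix_apply, ← RingHom.map_det]
    exact mul_ne_zero (pow_ne_zero _ t.ne_zero) ((map_ne_zero ι).2 hd)
  have hHh : tstar hF ((t : F) • M.map ι) = (t : F) • M.map ι := by
    rw [UnitaryConj.tstar_smul, ht, tstar_map hF ι hι, hM, map_smul_ι, smul_smul, mul_comm (ι ε),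
      mul_assoc, hιε, mul_one]
  obtain ⟨C, hC, -⟩ := UnitaryConj.exists_sqrt hF (GeneralLinearGroup.mkOfDetNeZero _ hdH) hHh
  change tstar hF (C : Matrix (Fin n) (Fin n) F) * C = (t : F) • M.map ι at hC
  have hbar : tstar hF (sG hF C : Matrix (Fin n) (Fin n) F) * (sG hF C : Matrix (Fin n) (Fin n) F) =
      ι ε • ((t : F) • M.map ι) := by
    have e : tstar hF (sG hF C : Matrix (Fin n) (Fin n) F) =
        (tstar hF (C : Matrix (Fin n) (Fin n) F)).map (qHom hF) := rfl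
    rw [e, sG_val, ← Matrix.map_mul, hC]
    ext i j
    show qHom hF ((t : F) * ι (M i j)) = ι ε * ((t : F) * ι (M i j))
    rw [map_mul, ht, qHom_ι hF ι hι]
    ring
  let g : GL (Fin n) F := SC n s * C * (sG hF C)⁻¹
  have hgC : g * sG hF C = SC n s * C := inv_mul_cancel_right _ _
  have hmem : g ∈ Cfsg.GU n F q := by
    refine mem_GU_of hF (a := sG hF C) ?_
    rw [hgC, tstar_SC_mul, hC, hs, hbar]
  refine ⟨⟨g, hmem⟩, ?_, C, s, t, hgC, hC⟩
  have h2 : g * sG hF g = SC n (s * AutPSL.mapU (qAut hF) s) := by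
    have h3 : sG hF g * C = sG hF (SC n s) * sG hF C := by
      rw [← map_mul (sG hF) (SC n s) C, ← hgC, map_mul (sG hF) g, sG_sG]
    refine mul_right_cancel (b := C) ?_
    rw [mul_assoc, h3, sG_SC, SC_comm, hgC, ← mul_assoc, ← map_mul, mul_comm]
  have h2' : (g : Matrix (Fin n) (Fin n) F) * (g : Matrix (Fin n) (Fin n) F).map (qHom hF) = ι ε • 1 := by
    refine (congrArg Units.val h2).trans ?_
    rw [SC_val, Units.val_mul, show ((AutPSL.mapU (qAut hF) s : Fˣ) : F) = (s : F) ^ q from rfl,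
      mul_comm, hs]
  have h4 := transpose_of_mul_bar hF hmem h2'
  show (g : Matrix (Fin n) (Fin n) F)ᵀ = ι ε • (g : Matrix (Fin n) (Fin n) F)
  conv_rhs => rw [h4]
  rw [smul_smul, hιε, one_smul]

end exists_

/-! ### Transport -/

section transport

variable {g g' : GL (Fin n) F} {a a' : GL (Fin n) F} {s s' t t' : Fˣ} {M M' : Matrix (Fin n) (Fin n) F₀}
  (h1 : g * sG hF a = SC n s * a) (h2 : tstar hF (a : Matrix (Fin n) (Fin n) F) * a = (t : F) • M.map ι)
  (h1' : g' * sG hF a' = SC n s' * a')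
  (h2' : tstar hF (a' : Matrix (Fin n) (Fin n) F) * a' = (t' : F) • M'.map ι)

include hι h1 h2 h1' h2' in
theorem structure_of_conj (hn : 1 ≤ n) (hM : M ≠ 0) {h : GL (Fin n) F} (hh : h ∈ Cfsg.GU n F q) {l : Fˣ}
    (e : h * g = SC n l * (g' * sG hF h)) :
    ∃ (z : Fˣ) (R : GL (Fin n) F₀) (c : F₀), c ≠ 0 ∧
      h * a = SC n z * (a' * GeneralLinearGroup.map ι R) ∧
      (R : Matrix (Fin n) (Fin n) F₀)ᵀ * M' * R = c • M ∧
      (z : F) ^ q * z * t' * ι c = t := by
  haveI : Nonempty (Fin n) := ⟨⟨0, hn⟩⟩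
  have e1 : g' * (sG hF h * sG hF a) = SC n (l⁻¹ * s) * (h * a) := by
    have h3 : g' * sG hF h = SC n l⁻¹ * (h * g) := by
      rw [e, ← mul_assoc (SC n l⁻¹), ← map_mul, inv_mul_cancel, map_one, one_mul]
    rw [← mul_assoc, h3, mul_assoc, mul_assoc h, h1, SC_comm, ← mul_assoc, ← map_mul]
  set r := a'⁻¹ * (h * a) with hr
  have hha : h * a = a' * r := by rw [hr, mul_inv_cancel_left]
  have hσr : sG hF r = SC n (s'⁻¹ * (l⁻¹ * s)) * r := by
    rw [← map_mul, hha, map_mul, ← mul_assoc g', h1', mul_assoc] at e1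
    refine mul_left_cancel (a := a') (mul_left_cancel (a := SC n s') ?_)
    rw [e1, SC_comm, ← mul_assoc (SC n s'), ← map_mul, mul_inv_cancel_left s']
  obtain ⟨z, k, hk, hrk⟩ := AutPSp.exists_fixed_of_scalar_moved (orderOf_qAut hF) (by norm_num) hσr
  obtain ⟨R, rfl⟩ := descend hF ι hι hk
  have hfin : h * a = SC n z * (a' * GeneralLinearGroup.map ι R) := by rw [hha, hrk, SC_comm]
  have hH := tstar_GU_mul hF hh a
  rw [hfin, tstar_SC_mul, h2] at hH
  have e3 : tstar hF ((a' * GeneralLinearGroup.map ι R : GL (Fin n) F) : Matrix (Fin n) (Fin n) F) *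
      ((a' * GeneralLinearGroup.map ι R : GL (Fin n) F) : Matrix (Fin n) (Fin n) F) =
      (t' : F) • ((R : Matrix (Fin n) (Fin n) F₀)ᵀ * M' * R).map ι := by
    rw [Units.val_mul, UnitaryConj.tstar_mul, mul_assoc,
      ← mul_assoc (tstar hF (a' : Matrix (Fin n) (Fin n) F)), h2',
      show ((GeneralLinearGroup.map ι R : GL (Fin n) F) : Matrix (Fin n) (Fin n) F) =
        (R : Matrix (Fin n) (Fin n) F₀).map ι from rfl,
      tstar_map hF ι hι, Matrix.smul_mul, Matrix.mul_smul, ← Matrix.map_mul, ← Matrix.map_mul, ← mul_assoc]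
  rw [e3, smul_smul] at hH
  have hne : (z : F) ^ q * z * t' ≠ 0 :=
    mul_ne_zero (mul_ne_zero (pow_ne_zero _ z.ne_zero) z.ne_zero) t'.ne_zero
  obtain ⟨c, hc, hcw, hX⟩ := descend_smul ι hM (w := (t : F) / ((z : F) ^ q * z * t'))
    (div_ne_zero t.ne_zero hne) (X := (R : Matrix (Fin n) (Fin n) F₀)ᵀ * M' * (R : Matrix (Fin n) (Fin n) F₀)) (by
      rw [div_eq_inv_mul, mul_smul, ← hH, smul_smul, inv_mul_cancel₀ hne, one_smul])
  exact ⟨z, R, c, hc, hfin, hX, by rw [hcw, mul_div_cancel₀ _ hne]⟩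

include hι h1 h2 h1' h2' in
theorem elt_of_structure {z : Fˣ} {R : GL (Fin n) F₀} {c : F₀}
    (hR : (R : Matrix (Fin n) (Fin n) F₀)ᵀ * M' * R = c • M) (hz : (z : F) ^ q * z * t' * ι c = t) :
    SC n z * (a' * GeneralLinearGroup.map ι R * a⁻¹) ∈ Cfsg.GU n F q ∧ ∃ l : Fˣ,
      SC n z * (a' * GeneralLinearGroup.map ι R * a⁻¹) * g =
        SC n l * (g' * sG hF (SC n z * (a' * GeneralLinearGroup.map ι R * a⁻¹))) := by
  set h := SC n z * (a' * GeneralLinearGroup.map ι R * a⁻¹) with hh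
  have hha : h * a = SC n z * (a' * GeneralLinearGroup.map ι R) := by
    rw [hh, mul_assoc, inv_mul_cancel_right]
  refine ⟨mem_GU_of hF (a := a) ?_, s * z * (AutPSL.mapU (qAut hF) z * s')⁻¹, ?_⟩
  · rw [hha, tstar_SC_mul, h2]
    rw [Units.val_mul, UnitaryConj.tstar_mul, mul_assoc,
      ← mul_assoc (tstar hF (a' : Matrix (Fin n) (Fin n) F)), h2',
      show ((GeneralLinearGroup.map ι R : GL (Fin n) F) : Matrix (Fin n) (Fin n) F) =
        (R : Matrix (Fin n) (Fin n) F₀).map ι from rfl,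
      tstar_map hF ι hι, Matrix.smul_mul, Matrix.mul_smul, ← Matrix.map_mul, ← Matrix.map_mul, ← mul_assoc,
      hR, map_smul_ι, smul_smul, smul_smul, ← hz]
  · refine mul_right_cancel (b := sG hF a) ?_
    rw [mul_assoc h, h1, SC_comm, hha, ← mul_assoc (SC n s), ← map_mul, mul_assoc, mul_assoc g', ← map_mul,
      hha, map_mul (sG hF), map_mul (sG hF), sG_SC, sG_map hF ι hι, SC_comm, ← mul_assoc g', h1']
    simp only [← mul_assoc, ← map_mul]
    congr 3
    rw [mul_assoc, mul_assoc, inv_mul_cancel, mul_one]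

end transport

include hι in
theorem gr_conj_iff (hn : 3 ≤ n) {g g' : ↥(Cfsg.GU n F q)} {M M' : Matrix (Fin n) (Fin n) F₀} {ε : F₀}
    (hd : M.det ≠ 0) (hM : Mᵀ = ε • M) (hA : Attach hF ι (g : GL (Fin n) F) M)
    (hA' : Attach hF ι (g' : GL (Fin n) F) M') :
    Cfsg.IsConjUnder (Cfsg.inndiagPSU n F q) (gr hF g) (gr hF g') ↔
      ∃ c : F₀, c ≠ 0 ∧ AutPSL.Congr M (c • M') := by
  haveI : Nonempty (Fin n) := ⟨⟨0, by omega⟩⟩
  have hM0 : M ≠ 0 := fun h => hd (by rw [h, det_zero])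
  rw [inndiag_eq]
  constructor
  · rintro ⟨_, ⟨h, rfl⟩, e⟩
    obtain ⟨l, hl⟩ := (conj_eq_iff hF hn).1 e
    obtain ⟨a, s, t, h1, h2⟩ := hA
    obtain ⟨a', s', t', h1', h2'⟩ := hA'
    obtain ⟨z, R, c, hc, -, hR, -⟩ := structure_of_conj hF ι hι h1 h2 h1' h2' (by omega) hM0 h.2 hl
    refine ⟨c⁻¹, inv_ne_zero hc, AutPSL.Congr.symm ⟨R, ?_⟩⟩
    rw [Matrix.mul_smul, Matrix.smul_mul, hR, smul_smul, inv_mul_cancel₀ hc, one_smul]
  · rintro ⟨c, hc, hcg⟩
    have hM'0 : M' ≠ 0 := fun h => by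
      obtain ⟨P', hP'⟩ := hcg.symm
      rw [h, smul_zero, Matrix.mul_zero, Matrix.zero_mul] at hP'
      exact hM0 hP'.symm
    have hM' : M'ᵀ = ε • M' := by
      have h3 := hcg.transpose_eq hM
      rw [transpose_smul, smul_comm] at h3
      exact smul_right_injective _ hc h3
    obtain ⟨a, s, t, h1, h2⟩ := hA.congr hF ι hι hc hcg
    obtain ⟨a', s', t', h1', h2'⟩ := hA'
    have et := attach_mult hF ι hι hM'0 hM' h2
    have et' := attach_mult hF ι hι hM'0 hM' h2'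
    have hw : qHom hF ((t : F) / t') = (t : F) / t' := by
      have hq' : qHom hF (t' : F) ≠ 0 := (map_ne_zero _).2 t'.ne_zero
      rw [map_div₀, div_eq_div_iff hq' t'.ne_zero]
      linear_combination (-qHom hF (t' : F)) * et + qHom hF (t : F) * et'
    obtain ⟨x, -, hx⟩ := Classical.Herm.exists_norm hF (div_ne_zero t.ne_zero t'.ne_zero) hw
    have hx0 : x ≠ 0 := fun h => div_ne_zero t.ne_zero t'.ne_zero (by
      rw [← hx, h, zero_pow (Nat.succ_ne_zero q)])
    have hz : (Units.mk0 x hx0 : F) ^ q * (Units.mk0 x hx0 : F) * t' * ι 1 = t := by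
      rw [Units.val_mk0, ← pow_succ, hx, map_one, mul_one, div_mul_cancel₀ _ t'.ne_zero]
    obtain ⟨hmem, l, hl⟩ := elt_of_structure hF ι hι h1 h2 h1' h2' (R := 1) (c := 1)
      (by rw [Units.val_one, transpose_one, one_mul, mul_one, one_smul]) hz
    exact ⟨guHom n F q ⟨_, hmem⟩, ⟨_, rfl⟩, (conj_eq_iff hF hn).2 ⟨l, hl⟩⟩

/-! ### Centralisers and splitting -/

include hι in
theorem mem_centralizer_structure (hn : 3 ≤ n) {g : ↥(Cfsg.GU n F q)} {a : GL (Fin n) F} {s t : Fˣ}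
    {M : Matrix (Fin n) (Fin n) F₀} (hd : M.det ≠ 0) (h1 : (g : GL (Fin n) F) * sG hF a = SC n s * a)
    (h2 : tstar hF (a : Matrix (Fin n) (Fin n) F) * a = (t : F) • M.map ι) (h : ↥(Cfsg.GU n F q)) :
    guHom n F q h ∈ Subgroup.centralizer {gr hF g} ↔ ∃ (z : Fˣ) (R : GL (Fin n) F₀) (c : F₀),
      (R : Matrix (Fin n) (Fin n) F₀)ᵀ * M * R = c • M ∧ (z : F) ^ q * z * ι c = 1 ∧
      (h : GL (Fin n) F) = SC n z * (a * GeneralLinearGroup.map ι R * a⁻¹) := by
  haveI : Nonempty (Fin n) := ⟨⟨0, by omega⟩⟩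
  have hM0 : M ≠ 0 := fun h => hd (by rw [h, det_zero])
  rw [mem_centralizer_iff hF hn]
  constructor
  · rintro ⟨l, hl⟩
    obtain ⟨z, R, c, -, hha, hR, hz⟩ := structure_of_conj hF ι hι h1 h2 h1 h2 (by omega) hM0 h.2 hl
    refine ⟨z, R, c, hR, ?_, ?_⟩
    · exact mul_right_cancel₀ t.ne_zero (by linear_combination hz)
    · rw [← mul_assoc, ← hha, mul_inv_cancel_right]
  · rintro ⟨z, R, c, hR, hz, he⟩
    rw [he]
    exact (elt_of_structure hF ι hι h1 h2 h1 h2 hR (by linear_combination (t : F) * hz)).2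

omit [Fintype F] in
theorem conjHom_SC {g : ↥(Sim n F q)} {z : Fˣ} (h : (g : GL (Fin n) F) = SC n z) :
    conjHom n F q g = 1 := by
  refine D_ext fun x => ?_
  show pr (conjElt g x) = pr x
  congr 1
  apply mat_ext
  rw [conjElt_coe, h, ← map_inv, SC_val, SC_val, Matrix.smul_mul, one_mul, Matrix.mul_smul, mul_one,
    smul_smul, Units.inv_mul, one_smul]

include hF in
theorem SC_mem_Sim (z : Fˣ) : SC n z ∈ Sim n F q := by
  refine mem_Sim.2 ⟨z ^ (q + 1), fun u w => ?_⟩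
  have e : ∀ x : Fin n → F, (SC n z : Matrix (Fin n) (Fin n) F) *ᵥ x = (z : F) • x := fun x => by
    rw [SC_val, smul_mulVec, one_mulVec]
  rw [e, e, hm_smul_left', hm_smul_right, ← mul_assoc, Units.val_pow_eq_pow_val, pow_succ']

variable {κ : Type} [Fintype κ] [DecidableEq κ]

include hι in
/-- The centraliser of a graph automorphism. -/
theorem centralizer_gr (hn : 3 ≤ n) {g : ↥(Cfsg.GU n F q)} (e : κ ≃ Fin n) {M : Matrix κ κ F₀}
    (hd : M.det ≠ 0) (hA : Attach hF ι (g : GL (Fin n) F) (Matrix.reindex e e M)) :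
    Nonempty (↥(Cfsg.inndiagPSU n F q ⊓ Subgroup.centralizer {gr hF g}) ≃* Cfsg.projQuot (AutPSL.sim M)) := by
  obtain ⟨a, s, t, h1, h2⟩ := hA
  have hd' : (Matrix.reindex e e M).det ≠ 0 := by rw [Matrix.det_reindex_self]; exact hd
  let ψ : GL κ F₀ →* GL (Fin n) F := (MulAut.conj a).toMonoidHom.comp
    ((GeneralLinearGroup.map ι).comp (AutPSL.glReindex e).toMonoidHom)
  have hψ : ∀ k, ψ k = a * GeneralLinearGroup.map ι (AutPSL.glReindex e k) * a⁻¹ := fun k => rfl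
  have key : ∀ k ∈ AutPSL.sim M, ∃ (z : Fˣ) (h : ↥(Cfsg.GU n F q)),
      (h : GL (Fin n) F) = SC n z * ψ k ∧ guHom n F q h ∈ Subgroup.centralizer {gr hF g} := by
    intro k hk
    obtain ⟨c, hc⟩ := (AutPSL.glReindex_mem_iff e M k).2 hk
    obtain ⟨z, hz⟩ := exists_norm_ι hF ι hι (inv_ne_zero c.ne_zero)
    have hz' : (z : F) ^ q * z * ι c = 1 := by
      rw [hz, ← map_mul, inv_mul_cancel₀ c.ne_zero, map_one]
    refine ⟨z, ⟨SC n z * ψ k, (elt_of_structure hF ι hι h1 h2 h1 h2 hc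
      (show (z : F) ^ q * z * t * ι c = t by linear_combination (t : F) * hz')).1⟩, rfl, ?_⟩
    exact (mem_centralizer_structure hF ι hι hn hd' h1 h2 _).2 ⟨z, _, c, hc, hz', rfl⟩
  have hmem : ∀ k : ↥(AutPSL.sim M), ψ k.1 ∈ Sim n F q := fun k => by
    obtain ⟨z, h, hh, -⟩ := key k.1 k.2
    rw [show ψ k.1 = (SC n z)⁻¹ * (h : GL (Fin n) F) by rw [hh, inv_mul_cancel_left]]
    exact mul_mem (inv_mem (SC_mem_Sim hF z)) (GU_le_Sim h.2)
  let θ : ↥(AutPSL.sim M) →* MulAut (P n F q) :=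
    (conjHom n F q).comp ((ψ.comp (AutPSL.sim M).subtype).codRestrict (Sim n F q) hmem)
  have hθ : ∀ (k : ↥(AutPSL.sim M)) (z : Fˣ) (h : ↥(Cfsg.GU n F q)),
      (h : GL (Fin n) F) = SC n z * ψ k.1 → θ k = guHom n F q h := fun k z h hh => by
    have e1 : (⟨h, GU_le_Sim h.2⟩ : ↥(Sim n F q)) = ⟨SC n z, SC_mem_Sim hF z⟩ * ⟨ψ k.1, hmem k⟩ :=
      Subtype.ext hh
    rw [guHom_apply, e1, map_mul, conjHom_SC (z := z) rfl, one_mul]
    rfl
  have hker : θ.ker = (Cfsg.Geo.scalars κ F₀).subgroupOf (AutPSL.sim M) := by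
    ext k
    rw [MonoidHom.mem_ker, Subgroup.mem_subgroupOf, AutPSL.mem_scalars]
    obtain ⟨z, h, hh, -⟩ := key k.1 k.2
    rw [hθ k z h hh]
    constructor
    · intro h1'
      obtain ⟨w, hw⟩ := exists_scalGU hF hn h1'
      have hk : GeneralLinearGroup.map ι (AutPSL.glReindex e k.1) = SC n (z⁻¹ * (w : Fˣ)) := by
        have : SC n (w : Fˣ) = SC n z * ψ k.1 := by rw [← hh, hw, scalGU_coe]
        have e2 : ψ k.1 = SC n (z⁻¹ * (w : Fˣ)) := by
          rw [SC, map_mul, show GeneralLinearGroup.scalar (Fin n) (w : Fˣ) = SC n z * ψ k.1 from this,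
            ← mul_assoc, ← map_mul, inv_mul_cancel, map_one, one_mul]
        rw [hψ, mul_inv_eq_iff_eq_mul, (AutPSL.scalar_commute _ a).eq] at e2
        exact mul_left_cancel e2
      have hk2 := congrArg Units.val hk
      rw [SC_val] at hk2
      obtain ⟨i⟩ : Nonempty (Fin n) := ⟨⟨0, by omega⟩⟩
      have hr : ι (((AutPSL.glReindex e k.1 : GL (Fin n) F₀) : Matrix (Fin n) (Fin n) F₀) i i) =
          ((z⁻¹ * (w : Fˣ) : Fˣ) : F) := by
        have := congrFun (congrFun hk2 i) i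
        simpa using this
      have hr0 : ((AutPSL.glReindex e k.1 : GL (Fin n) F₀) : Matrix (Fin n) (Fin n) F₀) i i ≠ 0 :=
        fun h0 => (z⁻¹ * (w : Fˣ)).ne_zero (by rw [← hr, h0, map_zero])
      refine ⟨Units.mk0 _ hr0, (AutPSL.glReindex e).injective ?_⟩
      rw [AutPSL.glReindex_scalar]
      refine Units.ext (Matrix.map_injective ι.injective ?_)
      show ((AutPSL.glReindex e k.1 : GL (Fin n) F₀) : Matrix (Fin n) (Fin n) F₀).map ι = _
      rw [show ((AutPSL.glReindex e k.1 : GL (Fin n) F₀) : Matrix (Fin n) (Fin n) F₀).map ι = _ from hk2,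
        AutPSL.scalar_val, Units.val_mk0]
      show _ = (_ • (1 : Matrix (Fin n) (Fin n) F₀)).map ι
      rw [map_smul_ι, hr, Matrix.map_one _ (map_zero ι) (map_one ι)]
    · rintro ⟨c, hc⟩
      refine guHom_scalar (l := (z : F) * ι c) fun x => ?_
      have : ψ k.1 = SC n (Units.map ι.toMonoidHom c) := by
        rw [hψ, hc, AutPSL.glReindex_scalar,
          show GeneralLinearGroup.map ι (GeneralLinearGroup.scalar (Fin n) c) =
              SC n (Units.map ι.toMonoidHom c) from Units.ext (Matrix.ext fun i j => by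
            show ι _ = _
            rw [AutPSL.scalar_val, AutPSL.scalar_val]
            by_cases hij : i = j <;> simp [hij]),
          ← (AutPSL.scalar_commute _ a).eq, mul_inv_cancel_right]
      rw [hh, this, ← map_mul, SC_val, smul_mulVec, one_mulVec]
      rfl
  have hrange : θ.range = Cfsg.inndiagPSU n F q ⊓ Subgroup.centralizer {gr hF g} := by
    rw [inndiag_eq]
    apply le_antisymm
    · rintro _ ⟨k, rfl⟩
      obtain ⟨z, h, hh, hc⟩ := key k.1 k.2
      rw [hθ k z h hh]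
      exact ⟨⟨_, rfl⟩, hc⟩
    · rintro _ ⟨⟨h, rfl⟩, hc⟩
      obtain ⟨z, R, c, hR, hz, he⟩ := (mem_centralizer_structure hF ι hι hn hd' h1 h2 h).1 hc
      have hc0 : c ≠ 0 := fun h0 => by rw [h0, map_zero, mul_zero] at hz; exact zero_ne_one hz
      have hk : (AutPSL.glReindex e).symm R ∈ AutPSL.sim M := by
        rw [← AutPSL.glReindex_mem_iff e, MulEquiv.apply_symm_apply]
        exact ⟨Units.mk0 c hc0, hR⟩
      refine ⟨⟨_, hk⟩, hθ _ z h ?_⟩
      rw [he, hψ, MulEquiv.apply_symm_apply]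
  exact ⟨((QuotientGroup.quotientMulEquivOfEq hker.symm).trans
    ((QuotientGroup.quotientKerEquivRange θ).trans (MulEquiv.subgroupCongr hrange))).symm⟩

/-- The determinants occurring in the centraliser. -/
noncomputable def detC (hn : 1 ≤ n) (g : ↥(Cfsg.GU n F q)) : Subgroup (U1 F q) :=
  ((Subgroup.centralizer {gr hF g}).comap (guHom n F q)).map (detU hF hn)

include hι in
theorem mem_detC (hn : 3 ≤ n) {g : ↥(Cfsg.GU n F q)} (e : κ ≃ Fin n) {M : Matrix κ κ F₀}
    (hd : M.det ≠ 0) (hA : Attach hF ι (g : GL (Fin n) F) (Matrix.reindex e e M)) (u : U1 F q) :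
    u ∈ detC hF (by omega) g ↔ ∃ (z : Fˣ) (k : GL κ F₀) (c : F₀),
      (k : Matrix κ κ F₀)ᵀ * M * k = c • M ∧ (z : F) ^ q * z * ι c = 1 ∧
      ((u : Fˣ) : F) = (z : F) ^ n * ι (k : Matrix κ κ F₀).det := by
  obtain ⟨a, s, t, h1, h2⟩ := hA
  have hd' : (Matrix.reindex e e M).det ≠ 0 := by rw [Matrix.det_reindex_self]; exact hd
  have hkey : ∀ (k : GL κ F₀) (c : F₀), ((AutPSL.glReindex e k : GL (Fin n) F₀) : Matrix (Fin n) (Fin n) F₀)ᵀ *
      Matrix.reindex e e M * ((AutPSL.glReindex e k : GL (Fin n) F₀) : Matrix (Fin n) (Fin n) F₀) =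
      c • Matrix.reindex e e M ↔ (k : Matrix κ κ F₀)ᵀ * M * k = c • M := fun k c => by
    rw [AutPSL.glReindex_val, Matrix.reindex_apply, Matrix.reindex_apply, Matrix.transpose_submatrix,
      Matrix.submatrix_mul_equiv, Matrix.submatrix_mul_equiv]
    refine ⟨fun h => (Matrix.reindex e e).injective ?_, fun h => by rw [h]; rfl⟩
    simp only [Matrix.reindex_apply]
    exact h
  have hdet : ∀ (z : Fˣ) (R : GL (Fin n) F₀),
      ((SC n z * (a * GeneralLinearGroup.map ι R * a⁻¹) : GL (Fin n) F) : Matrix (Fin n) (Fin n) F).det =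
        (z : F) ^ n * ι (R : Matrix (Fin n) (Fin n) F₀).det := fun z R => by
    rw [SC_mul_val, det_smul, Fintype.card_fin]
    congr 1
    rw [Units.val_mul, Units.val_mul, det_mul, det_mul, mul_right_comm, ← det_mul, ← Units.val_mul,
      mul_inv_cancel, Units.val_one, det_one, one_mul]
    exact (RingHom.map_det ι _).symm
  constructor
  · rintro ⟨h, hh, rfl⟩
    obtain ⟨z, R, c, hR, hz, he⟩ :=
      (mem_centralizer_structure hF ι hι hn hd' h1 h2 h).1 (Subgroup.mem_comap.1 hh)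
    obtain ⟨k, rfl⟩ := (AutPSL.glReindex e).surjective R
    refine ⟨z, k, c, (hkey k c).1 hR, hz, ?_⟩
    show ((h : GL (Fin n) F) : Matrix (Fin n) (Fin n) F).det = _
    rw [he, hdet, AutPSL.glReindex_val, Matrix.det_reindex_self]
  · rintro ⟨z, k, c, hk, hz, hu⟩
    have hR := (hkey k c).2 hk
    obtain ⟨hmem, -⟩ := elt_of_structure hF ι hι h1 h2 h1 h2 hR
      (show (z : F) ^ q * z * t * ι c = t by linear_combination (t : F) * hz)
    refine ⟨⟨_, hmem⟩, Subgroup.mem_comap.2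
      ((mem_centralizer_structure hF ι hι hn hd' h1 h2 _).2 ⟨z, _, c, hR, hz, rfl⟩),
      Subtype.ext (Units.ext ?_)⟩
    show ((SC n z * (a * GeneralLinearGroup.map ι (AutPSL.glReindex e k) * a⁻¹) : GL (Fin n) F) :
      Matrix (Fin n) (Fin n) F).det = _
    rw [hdet, hu, AutPSL.glReindex_val, Matrix.det_reindex_self]

omit [Field F₀] in
theorem pow_le_detC (hn : 3 ≤ n) (g : ↥(Cfsg.GU n F q)) :
    (powMonoidHom n : U1 F q →* U1 F q).range ≤ detC hF (by omega : 1 ≤ n) g := by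
  rintro _ ⟨w, rfl⟩
  refine ⟨scalGU n F q w, Subgroup.mem_comap.2 (by rw [guHom_scalGU]; exact one_mem _),
    Subtype.ext (Units.ext ?_)⟩
  show ((GeneralLinearGroup.scalar (Fin n) (w : Fˣ) : GL (Fin n) F) : Matrix (Fin n) (Fin n) F).det = _
  simp [GeneralLinearGroup.scalar]

omit [Field F₀] in
theorem split_gr (hn : 3 ≤ n) (g : ↥(Cfsg.GU n F q)) :
    Cfsg.splitClassCount (Cfsg.inndiagPSU n F q) (Cfsg.Inn (P n F q)) (gr hF g) =
      (detC hF (by omega : 1 ≤ n) g).index := by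
  have hn1 : 1 ≤ n := by omega
  haveI : (Cfsg.Inn (P n F q)).Normal := AutPSp.normal_inn
  rw [inndiag_eq, AutPSp.splitClassCount_relIndex _ _ inn_le, ← Subgroup.index_comap,
    ← Subgroup.index_comap_of_surjective (detC hF hn1 g) (detU_surjective hF hn1)]
  congr 1
  ext h
  rw [Subgroup.mem_comap, Subgroup.mem_comap]
  constructor
  · intro hh
    rw [Subgroup.mem_sup_of_normal_left] at hh
    obtain ⟨k, hk, z, hz, e⟩ := hh
    obtain ⟨⟨w, rfl⟩, hw⟩ := Subgroup.mem_inf.1 hz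
    obtain ⟨x, rfl⟩ := inn_le hk
    obtain ⟨d, hd⟩ := exists_scalGU hF hn (g := (x * w)⁻¹ * h)
      (by rw [map_mul, map_inv, map_mul, e, inv_mul_cancel])
    rw [inv_mul_eq_iff_eq_mul] at hd
    rw [hd, map_mul, map_mul]
    have hdd : detU hF hn1 (scalGU n F q d) = d ^ n := by
      apply Subtype.ext; apply Units.ext
      show ((GeneralLinearGroup.scalar (Fin n) (d : Fˣ) : GL (Fin n) F) : Matrix (Fin n) (Fin n) F).det = _
      simp [GeneralLinearGroup.scalar]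
    rw [hdd]
    exact mul_mem (mul_mem (pow_le_detC hF hn g ((mem_inn_iff hF hn x).1 hk))
      ⟨w, Subgroup.mem_comap.2 hw, rfl⟩) (pow_le_detC hF hn g ⟨d, rfl⟩)
  · rintro ⟨w, hw, hwd⟩
    have hk : guHom n F q (h * w⁻¹) ∈ Cfsg.Inn (P n F q) := by
      rw [mem_inn_iff hF hn, map_mul, map_inv, hwd, mul_inv_cancel]
      exact one_mem _
    rw [← inv_mul_cancel_right h w, map_mul]
    exact mul_mem (Subgroup.mem_sup_left hk)
      (Subgroup.mem_sup_right (Subgroup.mem_inf.2 ⟨⟨w, rfl⟩, hw⟩))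

end Cfsg.Agent.Lib.AutPSU
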