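import Cfsg.Agent.Lib.AutPSU.Graph
import Cfsg.Agent.Lib.AutPSL.GraphThms

/-!
Classes, centralisers and splitting of involutory graph automorphisms of `PSU_n`, transported from the
graph automorphisms of `PSL_n` over the field with `q` elements.
-/

set_option autoImplicit false

namespace Cfsg.Agent.Lib.AutPSU

open Matrix
open Cfsg.Agent.Lib.UnitaryConj (qHom tstar)

universe u v

variable {n : ℕ} {F : Type u} [Field F] {q : ℕ} [Fintype F] (hF : Fintype.card F = q ^ 2)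
  {F₀ : Type v} [Field F₀] [Fintype F₀] (ι : F₀ →+* F) (hι : ∀ c : F, qAut hF c = c ↔ c ∈ Set.range ι)

/-- Corresponding automorphisms of `PSU_n` and of `PSL_n` over the smaller field. -/
structure GPair [NeZero n] (γ : MulAut (P n F q)) (γ₀ : MulAut (AutPSL.P n F₀)) : Prop where
  data : ∃ (g : ↥(Cfsg.GU n F q)) (M : GL (Fin n) F₀) (ε : F₀), γ = gr hF g ∧ γ₀ = AutPSL.gr M ∧
    (M : Matrix (Fin n) (Fin n) F₀)ᵀ = ε • (M : Matrix (Fin n) (Fin n) F₀) ∧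
    Attach hF ι (g : GL (Fin n) F) (M : Matrix (Fin n) (Fin n) F₀)

include hι in
omit [Fintype F₀] in
theorem exists_pair_right [NeZero n] (hn : 3 ≤ n) {γ : MulAut (P n F q)}
    (hγ : Cfsg.IsGraphAutClassPSU γ) (hγ2 : orderOf γ = 2) :
    ∃ γ₀ : MulAut (AutPSL.P n F₀), Cfsg.IsGraphAutClassPSL γ₀ ∧ orderOf γ₀ = 2 ∧ GPair hF ι γ γ₀ := by
  obtain ⟨g, ε, rfl, hε, hg⟩ := exists_gr hF ι hn hγ hγ2
  obtain ⟨M, hd, hM, hA⟩ := exists_attach hF ι hι (by omega) hε hg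
  exact ⟨AutPSL.gr (GeneralLinearGroup.mkOfDetNeZero M hd), AutPSL.isGraph_gr hn _,
    AutPSL.orderOf_gr hn (ε := ε) hM, ⟨g, _, ε, rfl, rfl, hM, hA⟩⟩

include hι in
omit [Fintype F₀] in
theorem exists_pair_left [NeZero n] (hn : 3 ≤ n) {γ₀ : MulAut (AutPSL.P n F₀)}
    (hγ : Cfsg.IsGraphAutClassPSL γ₀) (hγ2 : orderOf γ₀ = 2) :
    ∃ γ : MulAut (P n F q), Cfsg.IsGraphAutClassPSU γ ∧ orderOf γ = 2 ∧ GPair hF ι γ γ₀ := by
  obtain ⟨M, ε, rfl, hε, hM⟩ := AutPSL.exists_gr hn hγ hγ2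
  obtain ⟨g, hg, hA⟩ := exists_of_matrix hF ι hι (AutPSL.det_gl_ne M) hε hM
  exact ⟨gr hF g, isGraph_gr hF hn g,
    orderOf_gr hF hn (by rw [← map_mul, hε, map_one]) hg, ⟨g, M, ε, rfl, rfl, hM, hA⟩⟩

include hι in
omit [Fintype F₀] in
theorem GPair.conj_iff [NeZero n] (hn : 3 ≤ n) {γ γ' : MulAut (P n F q)}
    {γ₀ γ₀' : MulAut (AutPSL.P n F₀)} (h : GPair hF ι γ γ₀) (h' : GPair hF ι γ' γ₀') :
    Cfsg.IsConjUnder (Cfsg.inndiagPSU n F q) γ γ' ↔ Cfsg.IsConjUnder (Cfsg.inndiagPSL n F₀) γ₀ γ₀' := by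
  obtain ⟨g, M, ε, rfl, rfl, hM, hA⟩ := h.data
  obtain ⟨g', M', ε', rfl, rfl, -, hA'⟩ := h'.data
  rw [gr_conj_iff hF ι hι hn (AutPSL.det_gl_ne M) hM hA hA', AutPSL.gr_conj_iff (by omega)]

include hι in
omit [Fintype F₀] in
theorem GPair.centralizer_iso [NeZero n] (hn : 3 ≤ n) {γ : MulAut (P n F q)}
    {γ₀ : MulAut (AutPSL.P n F₀)} (h : GPair hF ι γ γ₀) :
    Nonempty (↥(Cfsg.inndiagPSU n F q ⊓ Subgroup.centralizer {γ}) ≃*
      ↥(Cfsg.inndiagPSL n F₀ ⊓ Subgroup.centralizer {γ₀})) := by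
  obtain ⟨g, M, ε, rfl, rfl, hM, hA⟩ := h.data
  obtain ⟨e1⟩ := centralizer_gr hF ι hι hn (Equiv.refl (Fin n)) (AutPSL.det_gl_ne M) (g := g) hA
  obtain ⟨e2⟩ := AutPSL.centralizer_gr (g := M) (by omega) (Equiv.refl (Fin n)) (M := (M : Matrix (Fin n) (Fin n) F₀))
    one_ne_zero (by rw [one_smul]; exact AutPSL.Congr.refl _)
  exact ⟨e1.trans e2.symm⟩

include hF in
omit [Field F₀] [Fintype F₀] in
theorem odd_q_iff : Odd (Fintype.card F) ↔ Odd q := by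
  rw [hF, Nat.odd_pow_iff (by norm_num)]

include hF in
theorem graph_odd (hF₀ : Fintype.card F₀ = q) {m : ℕ} (hnm : n = 2 * m + 1) (hn : 3 ≤ n)
    (γ γ' : MulAut (P n F q)) (hγ : Cfsg.IsGraphAutClassPSU γ) (hγ2 : orderOf γ = 2)
    (hγ' : Cfsg.IsGraphAutClassPSU γ') (hγ'2 : orderOf γ' = 2) :
    Nonempty (↥(Cfsg.inndiagPSU n F q ⊓ Subgroup.centralizer {γ}) ≃* Cfsg.PGO F₀ (Cfsg.quadFormOdd m F₀)) ∧
      Cfsg.IsConjUnder (Cfsg.inndiagPSU n F q) γ γ' := by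
  haveI : NeZero n := ⟨by omega⟩
  obtain ⟨ι, hι⟩ := exists_ι hF F₀ hF₀
  obtain ⟨a, ha, ha2, hp⟩ := exists_pair_right hF ι hι hn hγ hγ2
  obtain ⟨a', ha', ha'2, hp'⟩ := exists_pair_right hF ι hι hn hγ' hγ'2
  obtain ⟨⟨e1⟩, hc⟩ := AutPSL.graph_odd hnm hn a a' ha ha2 ha' ha'2
  obtain ⟨e2⟩ := hp.centralizer_iso hF ι hι hn
  exact ⟨⟨e2.trans e1⟩, (hp.conj_iff hF ι hι hn hp').2 hc⟩

include hF in
theorem three_classes (hF₀ : Fintype.card F₀ = q) (hodd : Odd q) {m : ℕ} (hm : 2 ≤ m) (hnm : n = 2 * m) :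
    ∃ (γ₁ γ₂ γ₃ : MulAut (P n F q)) (a b : F₀), (∀ z₁ z₂ : F₀, z₁ ^ 2 + a * z₁ * z₂ + b * z₂ ^ 2 = 0 → z₁ = 0 ∧ z₂ = 0) ∧
      Cfsg.IsGraphAutClassPSU γ₁ ∧ orderOf γ₁ = 2 ∧ Cfsg.IsGraphAutClassPSU γ₂ ∧ orderOf γ₂ = 2 ∧
      Cfsg.IsGraphAutClassPSU γ₃ ∧ orderOf γ₃ = 2 ∧ ¬ Cfsg.IsConjUnder (Cfsg.inndiagPSU n F q) γ₁ γ₂ ∧
      ¬ Cfsg.IsConjUnder (Cfsg.inndiagPSU n F q) γ₁ γ₃ ∧ ¬ Cfsg.IsConjUnder (Cfsg.inndiagPSU n F q) γ₂ γ₃ ∧
      (∀ γ : MulAut (P n F q), Cfsg.IsGraphAutClassPSU γ → orderOf γ = 2 →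
        Cfsg.IsConjUnder (Cfsg.inndiagPSU n F q) γ₁ γ ∨ Cfsg.IsConjUnder (Cfsg.inndiagPSU n F q) γ₂ γ ∨
          Cfsg.IsConjUnder (Cfsg.inndiagPSU n F q) γ₃ γ) ∧
      Nonempty (↥(Cfsg.inndiagPSU n F q ⊓ Subgroup.centralizer {γ₁}) ≃* Cfsg.PGSp m F₀) ∧
      Nonempty (↥(Cfsg.inndiagPSU n F q ⊓ Subgroup.centralizer {γ₂}) ≃* Cfsg.PGO F₀ (Cfsg.quadFormPlus m F₀)) ∧
      Nonempty (↥(Cfsg.inndiagPSU n F q ⊓ Subgroup.centralizer {γ₃}) ≃*
        Cfsg.PGO F₀ (Cfsg.quadFormMinus (m - 1) F₀ a b)) := by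
  haveI : NeZero n := ⟨by omega⟩
  have hn : 3 ≤ n := by omega
  obtain ⟨ι, hι⟩ := exists_ι hF F₀ hF₀
  obtain ⟨b₁, b₂, b₃, a, b, hab, g₁, o₁, g₂, o₂, g₃, o₃, n12, n13, n23, hall, ⟨e₁⟩, ⟨e₂⟩, ⟨e₃⟩⟩ :=
    AutPSL.three_classes (F := F₀) (n := n) (by rw [hF₀]; exact hodd) hm hnm
  obtain ⟨γ₁, G₁, O₁, p₁⟩ := exists_pair_left hF ι hι hn g₁ o₁
  obtain ⟨γ₂, G₂, O₂, p₂⟩ := exists_pair_left hF ι hι hn g₂ o₂
  obtain ⟨γ₃, G₃, O₃, p₃⟩ := exists_pair_left hF ι hι hn g₃ o₃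
  refine ⟨γ₁, γ₂, γ₃, a, b, hab, G₁, O₁, G₂, O₂, G₃, O₃, fun h => n12 ((p₁.conj_iff hF ι hι hn p₂).1 h),
    fun h => n13 ((p₁.conj_iff hF ι hι hn p₃).1 h), fun h => n23 ((p₂.conj_iff hF ι hι hn p₃).1 h),
    fun γ hγ hγ2 => ?_, ?_, ?_, ?_⟩
  · obtain ⟨x, hx, hx2, hp⟩ := exists_pair_right hF ι hι hn hγ hγ2
    exact (hall x hx hx2).imp (p₁.conj_iff hF ι hι hn hp).2
      (Or.imp (p₂.conj_iff hF ι hι hn hp).2 (p₃.conj_iff hF ι hι hn hp).2)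
  · obtain ⟨e⟩ := p₁.centralizer_iso hF ι hι hn
    exact ⟨e.trans e₁⟩
  · obtain ⟨e⟩ := p₂.centralizer_iso hF ι hι hn
    exact ⟨e.trans e₂⟩
  · obtain ⟨e⟩ := p₃.centralizer_iso hF ι hι hn
    exact ⟨e.trans e₃⟩

include hF in
theorem two_classes [CharP F 2] (hF₀ : Fintype.card F₀ = q) {m : ℕ} (hm : 2 ≤ m) (hnm : n = 2 * m) :
    ∃ (γ₁ γ₃ : MulAut (P n F q)) (t : ↥(Matrix.symplecticGroup (Fin m) F₀)),
      Cfsg.IsTransvection (t : Matrix (Fin m ⊕ Fin m) (Fin m ⊕ Fin m) F₀) ∧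
      Cfsg.IsGraphAutClassPSU γ₁ ∧ orderOf γ₁ = 2 ∧ Cfsg.IsGraphAutClassPSU γ₃ ∧ orderOf γ₃ = 2 ∧
      ¬ Cfsg.IsConjUnder (Cfsg.inndiagPSU n F q) γ₁ γ₃ ∧
      (∀ γ : MulAut (P n F q), Cfsg.IsGraphAutClassPSU γ → orderOf γ = 2 →
        Cfsg.IsConjUnder (Cfsg.inndiagPSU n F q) γ₁ γ ∨ Cfsg.IsConjUnder (Cfsg.inndiagPSU n F q) γ₃ γ) ∧
      Nonempty (↥(Cfsg.inndiagPSU n F q ⊓ Subgroup.centralizer {γ₁}) ≃* ↥(Matrix.symplecticGroup (Fin m) F₀)) ∧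
      Nonempty (↥(Cfsg.inndiagPSU n F q ⊓ Subgroup.centralizer {γ₃}) ≃*
        ↥(Subgroup.centralizer ({t} : Set ↥(Matrix.symplecticGroup (Fin m) F₀)))) := by
  haveI : NeZero n := ⟨by omega⟩
  have hn : 3 ≤ n := by omega
  obtain ⟨ι, hι⟩ := exists_ι hF F₀ hF₀
  haveI : CharP F₀ 2 := (RingHom.charP_iff_charP ι 2).2 inferInstance
  obtain ⟨b₁, b₃, t, ht, g₁, o₁, g₃, o₃, n13, hall, ⟨e₁⟩, ⟨e₃⟩⟩ :=
    AutPSL.two_classes (F := F₀) (n := n) hm hnm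
  obtain ⟨γ₁, G₁, O₁, p₁⟩ := exists_pair_left hF ι hι hn g₁ o₁
  obtain ⟨γ₃, G₃, O₃, p₃⟩ := exists_pair_left hF ι hι hn g₃ o₃
  refine ⟨γ₁, γ₃, t, ht, G₁, O₁, G₃, O₃, fun h => n13 ((p₁.conj_iff hF ι hι hn p₃).1 h),
    fun γ hγ hγ2 => ?_, ?_, ?_⟩
  · obtain ⟨x, hx, hx2, hp⟩ := exists_pair_right hF ι hι hn hγ hγ2
    exact (hall x hx hx2).imp (p₁.conj_iff hF ι hι hn hp).2 (p₃.conj_iff hF ι hι hn hp).2
  · obtain ⟨e⟩ := p₁.centralizer_iso hF ι hι hn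
    exact ⟨e.trans e₁⟩
  · obtain ⟨e⟩ := p₃.centralizer_iso hF ι hι hn
    exact ⟨e.trans e₃⟩

/-! ### The standard field automorphism -/

include hF in
theorem qpow_plus (hF₀ : Fintype.card F₀ = q) (hodd : Odd q) {m : ℕ} (hm : 2 ≤ m) (hnm : n = 2 * m)
    (h4 : 4 ∣ n) {σ : F ≃+* F} (hσ : ∀ a : F, σ a = a ^ q) {φ : MulAut (P n F q)}
    (hφ : Cfsg.IsFieldAutPSUOf σ φ) :
    Nonempty (↥(Cfsg.inndiagPSU n F q ⊓ Subgroup.centralizer {φ}) ≃* Cfsg.PGO F₀ (Cfsg.quadFormPlus m F₀)) := by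
  obtain ⟨ι, hι⟩ := exists_ι hF F₀ hF₀
  have hn : 3 ≤ n := by omega
  have h2 : (2 : F₀) ≠ 0 := AutPSL.two_ne_of_odd_card (by rw [hF₀]; exact hodd)
  obtain rfl : σ = qAut hF := RingEquiv.ext hσ
  obtain rfl : φ = gr hF (1 : ↥(Cfsg.GU n F q)) := by
    rw [gr, map_one, one_mul]; exact fieldAut_iff.1 hφ
  obtain ⟨b, hab⟩ := Classical.UnitaryFlat.exists_aniso F₀
  have hmk : m = (m - 1) + 1 := by omega
  let e : Fin m ⊕ Fin m ≃ Fin n := Fintype.equivFinOfCardEq (by simp; omega)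
  let e' : (Fin (m - 1) ⊕ Fin (m - 1)) ⊕ Fin 2 ≃ Fin n := Fintype.equivFinOfCardEq (by simp; omega)
  have hA : Attach hF ι ((1 : ↥(Cfsg.GU n F q)) : GL (Fin n) F) (1 : Matrix (Fin n) (Fin n) F₀) := by
    refine ⟨1, 1, 1, by simp [sG], ?_⟩
    rw [Units.val_one, UnitaryConj.tstar_one, one_mul, Units.val_one, one_smul,
      Matrix.map_one _ (map_zero ι) (map_one ι)]
  have hone : ((1 : GL (Fin n) F₀) : Matrix (Fin n) (Fin n) F₀)ᵀ =
      (1 : F₀) • ((1 : GL (Fin n) F₀) : Matrix (Fin n) (Fin n) F₀) := by simp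
  have hsq : IsSquare (((1 : GL (Fin n) F₀) : Matrix (Fin n) (Fin n) F₀).det * (-1) ^ m) := by
    have he : Even m := by
      obtain ⟨c, hc⟩ := h4
      exact ⟨c, by omega⟩
    rw [Units.val_one, det_one, he.neg_one_pow, mul_one]
    exact IsSquare.one
  have hne : (1 : F₀) ≠ -1 := fun h => h2 (by linear_combination h)
  have hC : AutPSL.Congr (1 : Matrix (Fin n) (Fin n) F₀) ((1 : F₀) • Matrix.reindex e e (AutPSL.hypM m F₀)) := by
    rcases AutPSL.classify_even h2 hmk hnm hab e e' (one_mul 1) hone with ⟨h, -⟩ | ⟨-, ⟨-, h⟩ | ⟨h, -⟩⟩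
    · exact absurd h hne
    · rw [one_smul]; simpa using h
    · exact absurd hsq h
  have key : ∀ H : Subgroup (GL (Fin m ⊕ Fin m) F₀), H = AutPSL.sim (AutPSL.hypM m F₀) →
      Nonempty (↥(Cfsg.inndiagPSU n F q ⊓ Subgroup.centralizer {gr hF (1 : ↥(Cfsg.GU n F q))}) ≃*
        Cfsg.projQuot H) := by
    rintro H rfl
    exact centralizer_gr hF ι hι hn e (by rw [AutPSL.det_hypM]; exact pow_ne_zero _ (neg_ne_zero.2 one_ne_zero))
      (hA.congr hF ι hι one_ne_zero hC)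
  exact key _ (AutPSL.sim_of_symm (AutPSL.hypM_symm m) h2 (AutPSL.hypM_val m))

/-! ### Splitting -/

/-- `z / z^q`. -/
noncomputable def ratio (z : Fˣ) : U1 F q :=
  ⟨z * (AutPSL.mapU (qAut hF) z)⁻¹, Units.ext (by
    show ((z : F) * (((AutPSL.mapU (qAut hF) z)⁻¹ : Fˣ) : F)) ^ (q + 1) = 1
    rw [Units.val_inv_eq_inv_val, show ((AutPSL.mapU (qAut hF) z : Fˣ) : F) = (z : F) ^ q from rfl,
      mul_pow, inv_pow, mul_inv_eq_one₀ (pow_ne_zero _ (pow_ne_zero _ z.ne_zero)), pow_succ ((z : F) ^ q),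
      show ((z : F) ^ q) ^ q = z from qAut_qAut hF z, pow_succ'])⟩

omit [Field F₀] [Fintype F₀] in
theorem ratio_coe (z : Fˣ) : (((ratio hF z : U1 F q) : Fˣ) : F) = (z : F) / (z : F) ^ q := by
  show (z : F) * (((AutPSL.mapU (qAut hF) z)⁻¹ : Fˣ) : F) = _
  rw [Units.val_inv_eq_inv_val, div_eq_mul_inv]
  rfl

omit [Field F₀] [Fintype F₀] in
theorem exists_ratio (w : U1 F q) : ∃ z : Fˣ, ratio hF z = w := by
  have h : (w : Fˣ) ∈ (AutPSL.normU (qAut hF) 2).ker := by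
    rw [MonoidHom.mem_ker, AutPSL.normU_two]
    exact Units.ext (U1_mul w)
  rw [AutPSL.ker_normU (orderOf_qAut hF) (by norm_num)] at h
  obtain ⟨z, hz⟩ := h
  refine ⟨z, Subtype.ext ?_⟩
  rw [← hz, AutPSL.ratioU_apply, div_eq_mul_inv]
  rfl

include hι in
omit [Fintype F₀] in
theorem exists_mult (z : Fˣ) : ∃ c : F₀, c ≠ 0 ∧ (z : F) ^ q * z * ι c = 1 := by
  have h0 : (z : F) ^ q * z ≠ 0 := mul_ne_zero (pow_ne_zero _ z.ne_zero) z.ne_zero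
  obtain ⟨c, hc⟩ := (hι (((z : F) ^ q * z)⁻¹)).1 (by
    rw [map_inv₀, qAut_apply, mul_pow, show ((z : F) ^ q) ^ q = z from qAut_qAut hF z, mul_comm])
  exact ⟨c, fun h => inv_ne_zero h0 (by rw [← hc, h, map_zero]), by rw [hc, mul_inv_cancel₀ h0]⟩

omit [Fintype F₀] in
theorem eq_ratio_pow {z : Fˣ} {c : F₀} (hz : (z : F) ^ q * z * ι c = 1) (k : ℕ) :
    (((ratio hF z ^ k : U1 F q) : Fˣ) : F) = (z : F) ^ (2 * k) * ι c ^ k := by
  rw [SubmonoidClass.coe_pow, Units.val_pow_eq_pow_val, ratio_coe, pow_mul, ← mul_pow]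
  congr 1
  rw [div_eq_iff (pow_ne_zero _ z.ne_zero)]
  linear_combination (-(z : F)) * hz

section split

variable {g : ↥(Cfsg.GU n F q)} {M : GL (Fin n) F₀}
  (hA : Attach hF ι (g : GL (Fin n) F) (M : Matrix (Fin n) (Fin n) F₀))

include hι hA in
theorem sq_mem (hn : 3 ≤ n) {u : U1 F q} (hu : u ∈ detC hF (by omega) g) :
    u * u ∈ (powMonoidHom n : U1 F q →* U1 F q).range := by
  obtain ⟨z, k, c, hk, hz, hu⟩ := (mem_detC hF ι hι hn (Equiv.refl _) (AutPSL.det_gl_ne M) hA u).1 hu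
  have hc : c ≠ 0 := fun h0 => by rw [h0, map_zero, mul_zero] at hz; exact zero_ne_one hz
  refine ⟨ratio hF z, Subtype.ext (Units.ext ?_)⟩
  rw [powMonoidHom_apply, eq_ratio_pow hF ι hz, Subgroup.coe_mul, Units.val_mul, hu]
  have h := congrArg (fun x : F₀ˣ => ι (x : F₀)) (AutPSL.det_sq_of_sim (AutPSL.det_gl_ne M) (c := Units.mk0 c hc) hk)
  simp only [Units.val_mul, Units.val_pow_eq_pow_val, Units.val_mk0, GeneralLinearGroup.val_det_apply,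
    Fintype.card_fin, map_mul, map_pow] at h
  rw [← h, two_mul, pow_add]
  ring

include hι hA in
theorem detC_other (hn : 3 ≤ n) (hne : ¬ (Even n ∧ Odd q)) :
    detC hF (by omega : 1 ≤ n) g = (powMonoidHom n : U1 F q →* U1 F q).range := by
  refine le_antisymm (fun u hu => ?_) (pow_le_detC hF hn g)
  have h2 := sq_mem hF ι hι hA hn hu
  by_cases hn2 : Even n
  · obtain ⟨j, hj⟩ := Nat.not_odd_iff_even.1 fun h => hne ⟨hn2, h⟩
    have h1 : u ^ (2 * j + 1) = 1 := by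
      rw [show 2 * j + 1 = q + 1 by omega]
      exact Subtype.ext u.2
    rw [pow_succ', pow_mul, pow_two] at h1
    rw [eq_inv_of_mul_eq_one_left h1]
    exact inv_mem (pow_mem h2 j)
  · obtain ⟨j, hj⟩ := Nat.not_even_iff_odd.1 hn2
    have h1 : u = u ^ n * ((u * u) ^ j)⁻¹ := by
      rw [eq_mul_inv_iff_mul_eq, ← pow_two, ← pow_mul, ← pow_succ', hj]
    rw [h1]
    exact mul_mem ⟨u, rfl⟩ (inv_mem (pow_mem h2 j))

include hι hA in
theorem detC_symp (hn : 3 ≤ n) {m : ℕ} (hnm : n = 2 * m) (e : Fin m ⊕ Fin m ≃ Fin n)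
    (hC : AutPSL.Congr (M : Matrix (Fin n) (Fin n) F₀) (Matrix.reindex e e (Matrix.J (Fin m) F₀))) :
    detC hF (by omega : 1 ≤ n) g = (powMonoidHom m : U1 F q →* U1 F q).range := by
  have hA' := hA.congr hF ι hι one_ne_zero (by rw [one_smul]; exact hC)
  have hdet : ∀ a : F₀, (Matrix.fromBlocks (a • 1) 0 0 1 :
      Matrix (Fin m ⊕ Fin m) (Fin m ⊕ Fin m) F₀).det = a ^ m := fun a => by
    rw [det_fromBlocks_zero₂₁, det_smul, det_one, mul_one, mul_one, Fintype.card_fin]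
  have hJc : ∀ a : F₀, (Matrix.fromBlocks (a • 1) 0 0 1 :
      Matrix (Fin m ⊕ Fin m) (Fin m ⊕ Fin m) F₀)ᵀ * Matrix.J (Fin m) F₀ *
        Matrix.fromBlocks (a • 1) 0 0 1 = a • Matrix.J (Fin m) F₀ := fun a => by
    rw [Matrix.J, fromBlocks_transpose, fromBlocks_multiply, fromBlocks_multiply]
    simp [fromBlocks_smul]
  refine le_antisymm (fun u hu => ?_) ?_
  · obtain ⟨z, k, c, hk, hz, hu⟩ := (mem_detC hF ι hι hn e (AutPSL.det_J_ne_zero m) hA' u).1 hu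
    have hc : c ≠ 0 := fun h0 => by rw [h0, map_zero, mul_zero] at hz; exact zero_ne_one hz
    refine ⟨ratio hF z, Subtype.ext (Units.ext ?_)⟩
    rw [powMonoidHom_apply, eq_ratio_pow hF ι hz, hu]
    set d : Matrix (Fin m ⊕ Fin m) (Fin m ⊕ Fin m) F₀ := Matrix.fromBlocks (c⁻¹ • 1) 0 0 1 with hd
    have hK : (k : Matrix _ _ F₀) * d ∈ Matrix.symplecticGroup (Fin m) F₀ := by
      rw [SymplecticGroup.mem_iff', transpose_mul, show dᵀ * (k : Matrix _ _ F₀)ᵀ * Matrix.J (Fin m) F₀ *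
        ((k : Matrix _ _ F₀) * d) = dᵀ * ((k : Matrix _ _ F₀)ᵀ * Matrix.J (Fin m) F₀ * (k : Matrix _ _ F₀)) * d by
          simp only [mul_assoc], hk, Matrix.mul_smul, Matrix.smul_mul, hd, hJc, smul_smul,
        mul_inv_cancel₀ hc, one_smul]
    have h1 := SymplecticGroup.det_eq_one hK
    rw [det_mul, hd, hdet, inv_pow] at h1
    rw [(mul_inv_eq_one₀ (pow_ne_zero _ hc)).1 h1, map_pow, hnm]
  · rintro _ ⟨w, rfl⟩
    obtain ⟨z, rfl⟩ := exists_ratio hF w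
    obtain ⟨c, hc, hz⟩ := exists_mult hF ι hι z
    refine (mem_detC hF ι hι hn e (AutPSL.det_J_ne_zero m) hA' _).2
      ⟨z, GeneralLinearGroup.mkOfDetNeZero (Matrix.fromBlocks (c • 1) 0 0 1)
        (by rw [hdet]; exact pow_ne_zero _ hc), c, hJc c, hz, ?_⟩
    rw [powMonoidHom_apply, eq_ratio_pow hF ι hz]
    show _ = (z : F) ^ n * ι (Matrix.fromBlocks (c • 1) 0 0 1 : Matrix (Fin m ⊕ Fin m) (Fin m ⊕ Fin m) F₀).det
    rw [hdet, map_pow, hnm]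

omit [Fintype F] [Fintype F₀] [Field F] in
theorem exists_reflection (h2 : (2 : F₀) ≠ 0) (hn : 1 ≤ n) {G : Matrix (Fin n) (Fin n) F₀} (hs : Gᵀ = G)
    (hG : G.det ≠ 0) : ∃ R : Matrix (Fin n) (Fin n) F₀, R.det = -1 ∧ Rᵀ * G * R = G := by
  obtain ⟨v, hv⟩ : ∃ v, Matrix.toBilin' G v v ≠ 0 := by
    by_contra! hall
    have h' : ∀ x y, Matrix.toBilin' G x y = 0 := fun x y => by
      have h1 := hall (x + y)
      simp only [map_add, LinearMap.add_apply, hall x, hall y] at h1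
      rw [AutPSL.bilin_flip (ε := 1) (by rw [one_smul, hs]) x y, one_mul] at h1
      exact (mul_eq_zero.1 (show (2 : F₀) * Matrix.toBilin' G x y = 0 by
        linear_combination h1)).resolve_left h2
    exact hG (det_eq_zero_of_row_eq_zero ⟨0, hn⟩ fun j => by
      rw [← Matrix.toBilin'_single G ⟨0, hn⟩ j, h'])
  set B := Matrix.toBilin' G v v with hB
  refine ⟨1 + vecMulVec ((-2 / B) • v) (G *ᵥ v), ?_, ?_⟩
  · rw [vecMulVec_eq Unit, det_one_add_replicateCol_mul_replicateRow, dotProduct_smul,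
      dotProduct_comm, ← Matrix.toBilin'_apply', ← hB, smul_eq_mul]
    field_simp
    ring
  · have hRv : ∀ x, (1 + vecMulVec ((-2 / B) • v) (G *ᵥ v) : Matrix (Fin n) (Fin n) F₀) *ᵥ x =
        x + ((-2 / B) * Matrix.toBilin' G x v) • v := fun x => by
      rw [add_mulVec, one_mulVec, vecMulVec_mulVec, op_smul_eq_smul, smul_smul,
        Matrix.toBilin'_apply', dotProduct_comm x, mul_comm]
    refine Matrix.toBilin'.injective ?_
    rw [← Matrix.toBilin'_comp]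
    refine LinearMap.ext fun x => LinearMap.ext fun y => ?_
    rw [LinearMap.BilinForm.comp_apply, Matrix.toLin'_apply, Matrix.toLin'_apply, hRv, hRv]
    simp only [map_add, map_smul, LinearMap.add_apply, LinearMap.smul_apply, smul_eq_mul]
    rw [AutPSL.bilin_flip (ε := 1) (by rw [one_smul, hs]) y v, one_mul, ← hB]
    field_simp
    ring

include hι hA in
theorem detC_symm (h2 : (2 : F₀) ≠ 0) (hn : 3 ≤ n) {m : ℕ} (hnm : n = 2 * m)
    (hs : (M : Matrix (Fin n) (Fin n) F₀)ᵀ = (M : Matrix (Fin n) (Fin n) F₀)) :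
    detC hF (by omega : 1 ≤ n) g =
      ((powMonoidHom n : U1 F q →* U1 F q).range).comap (powMonoidHom 2) := by
  refine le_antisymm (fun u hu => ?_) ?_
  · rw [Subgroup.mem_comap, powMonoidHom_apply, pow_two]
    exact sq_mem hF ι hι hA hn hu
  · rintro u ⟨w, hw⟩
    simp only [powMonoidHom_apply] at hw
    obtain ⟨z, rfl⟩ := exists_ratio hF w
    obtain ⟨c, hc, hz⟩ := exists_mult hF ι hι z
    have hd := AutPSL.det_gl_ne M
    set G := (M : Matrix (Fin n) (Fin n) F₀) with hG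
    obtain ⟨k, hk⟩ := AutPSL.congr_symm h2 hs (g' := c • G) (by rw [transpose_smul, hs]) hd
      (by rw [det_smul]; exact mul_ne_zero (pow_ne_zero _ hc) hd)
      ⟨G.det * c ^ m, by
        rw [det_smul, Fintype.card_fin, show c ^ n = c ^ (2 * m) from congrArg (c ^ ·) hnm, two_mul, pow_add]
        ring⟩
    have h1 := congrArg (fun x : F₀ˣ => ι (x : F₀))
      (AutPSL.det_sq_of_sim hd (c := Units.mk0 c hc) hk)
    simp only [Units.val_mul, Units.val_pow_eq_pow_val, Units.val_mk0, GeneralLinearGroup.val_det_apply,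
      Fintype.card_fin, map_mul, map_pow] at h1
    have he : ((u : Fˣ) : F) * (u : Fˣ) =
        ((z : F) ^ n * ι (k : Matrix (Fin n) (Fin n) F₀).det) * ((z : F) ^ n * ι (k : Matrix (Fin n) (Fin n) F₀).det) := by
      rw [← Units.val_mul, ← Subgroup.coe_mul, ← pow_two, ← hw, eq_ratio_pow hF ι hz, ← h1, two_mul, pow_add]
      ring
    obtain ⟨R, hR1, hR2⟩ := exists_reflection h2 (by omega) hs hd
    rcases mul_self_eq_mul_self_iff.1 he with h | h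
    · exact (mem_detC hF ι hι hn (Equiv.refl _) hd hA u).2 ⟨z, k, c, hk, hz, h⟩
    · refine (mem_detC hF ι hι hn (Equiv.refl _) hd hA u).2
        ⟨z, k * GeneralLinearGroup.mkOfDetNeZero R (by rw [hR1]; exact neg_ne_zero.2 one_ne_zero), c, ?_, hz, ?_⟩
      · show ((k : Matrix (Fin n) (Fin n) F₀) * R)ᵀ * G * ((k : Matrix (Fin n) (Fin n) F₀) * R) = _
        rw [transpose_mul, show Rᵀ * (k : Matrix (Fin n) (Fin n) F₀)ᵀ * G * ((k : Matrix (Fin n) (Fin n) F₀) * R) =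
          Rᵀ * ((k : Matrix (Fin n) (Fin n) F₀)ᵀ * G * (k : Matrix (Fin n) (Fin n) F₀)) * R by simp only [mul_assoc],
          hk, Matrix.mul_smul, Matrix.smul_mul, hR2]
      · show _ = (z : F) ^ n * ι ((k : Matrix (Fin n) (Fin n) F₀) * R).det
        rw [det_mul, hR1, map_mul, map_neg, map_one, h]
        ring

end split

include hF in
omit [Field F₀] [Fintype F₀] in
theorem index_U1_pow (k : ℕ) :
    ((powMonoidHom k : U1 F q →* U1 F q).range).index = Nat.gcd k (q + 1) := by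
  rw [IsCyclic.index_powMonoidHom_range, Classical.Herm.card_norm_one hF, Nat.gcd_comm]

include hF in
omit [Field F₀] [Fintype F₀] in
theorem index_U1_comap (hodd : Odd q) (m : ℕ) :
    (((powMonoidHom (2 * m) : U1 F q →* U1 F q).range).comap (powMonoidHom 2)).index * 2 =
      Nat.gcd (2 * m) (q + 1) := by
  have hle : (powMonoidHom (2 * m) : U1 F q →* U1 F q).range ≤ (powMonoidHom 2 : U1 F q →* U1 F q).range := by
    rintro _ ⟨c, rfl⟩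
    exact ⟨c ^ m, by rw [powMonoidHom_apply, powMonoidHom_apply, ← pow_mul, mul_comm]⟩
  have h2i : (powMonoidHom 2 : U1 F q →* U1 F q).range.index = 2 := by
    rw [index_U1_pow hF]
    refine Nat.gcd_eq_left ?_
    obtain ⟨r, hr⟩ := hodd
    exact ⟨r + 1, by omega⟩
  rw [← index_U1_pow hF (2 * m), Subgroup.index_comap, ← Subgroup.relIndex_mul_index hle, h2i]

omit [Fintype F] [Field F] in
theorem not_iso_symp [NeZero n] (h2 : (2 : F₀) ≠ 0) {k : ℕ} (hnm : n = 2 * (k + 1))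
    {M : GL (Fin n) F₀} (hs : (M : Matrix (Fin n) (Fin n) F₀)ᵀ = (M : Matrix (Fin n) (Fin n) F₀)) :
    ¬ Nonempty (↥(Cfsg.inndiagPSL n F₀ ⊓ Subgroup.centralizer {AutPSL.gr M}) ≃* Cfsg.PGSp (k + 1) F₀) := by
  rintro ⟨iso⟩
  have hn2 : 2 ≤ n := by omega
  obtain ⟨b, hab⟩ := Classical.UnitaryFlat.exists_aniso F₀
  let e : Fin (k + 1) ⊕ Fin (k + 1) ≃ Fin n := Fintype.equivFinOfCardEq (by simp; omega)
  let e' : (Fin k ⊕ Fin k) ⊕ Fin 2 ≃ Fin n := Fintype.equivFinOfCardEq (by simp; omega)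
  have hsp : Nat.card (Cfsg.PGSp (k + 1) F₀) = Fintype.card F₀ ^ ((k + 1) ^ 2) *
      ∏ i ∈ Finset.range (k + 1), (Fintype.card F₀ ^ (2 * (i + 1)) - 1) := by
    rw [← AutPSL.card_quot_symp, ← AutPSL.gsp_eq]
  have hlt : ∀ s : ℕ, s ≤ Fintype.card F₀ ^ (k + 1) + 1 →
      2 * Fintype.card F₀ ^ ((k + 1) * k) * s *
        ∏ i ∈ Finset.range k, (Fintype.card F₀ ^ (2 * (i + 1)) - 1) <
      Fintype.card F₀ ^ ((k + 1) ^ 2) *
        ∏ i ∈ Finset.range (k + 1), (Fintype.card F₀ ^ (2 * (i + 1)) - 1) := by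
    intro s hs
    rw [Finset.prod_range_succ, show (k + 1) ^ 2 = (k + 1) * k + (k + 1) by ring, pow_add]
    have hq : 3 ≤ Fintype.card F₀ := by
      have : 1 < Fintype.card F₀ := Fintype.one_lt_card
      have hne : Fintype.card F₀ ≠ 2 := fun h => h2 (by
        haveI : CharP F₀ 2 := charP_of_card_eq_prime_pow (R := F₀) (f := 1) (by rw [h]; rfl)
        exact CharTwo.two_eq_zero)
      omega
    have hQ : 3 ≤ Fintype.card F₀ ^ (k + 1) :=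
      hq.trans (Nat.le_self_pow (by omega) _)
    have hpos : 0 < ∏ i ∈ Finset.range k, (Fintype.card F₀ ^ (2 * (i + 1)) - 1) :=
      Finset.prod_pos fun i _ => Nat.sub_pos_of_lt (Nat.one_lt_pow (by omega) (by omega))
    have hkey : 2 * s < Fintype.card F₀ ^ (k + 1) * (Fintype.card F₀ ^ (2 * (k + 1)) - 1) := by
      rw [mul_comm 2 (k + 1), pow_mul]
      generalize Fintype.card F₀ ^ (k + 1) = Q at hQ hs ⊢
      have h9 : 3 * Q ≤ Q ^ 2 := by rw [pow_two]; exact Nat.mul_le_mul_right Q hQ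
      have : 2 * (Q ^ 2 - 1) ≤ Q * (Q ^ 2 - 1) := Nat.mul_le_mul_right _ (by omega)
      omega
    have hA : 0 < Fintype.card F₀ ^ ((k + 1) * k) := pow_pos (by omega) _
    calc _ = (Fintype.card F₀ ^ ((k + 1) * k) *
          ∏ i ∈ Finset.range k, (Fintype.card F₀ ^ (2 * (i + 1)) - 1)) * (2 * s) := by ring
      _ < (Fintype.card F₀ ^ ((k + 1) * k) *
          ∏ i ∈ Finset.range k, (Fintype.card F₀ ^ (2 * (i + 1)) - 1)) *
            (Fintype.card F₀ ^ (k + 1) * (Fintype.card F₀ ^ (2 * (k + 1)) - 1)) :=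
        Nat.mul_lt_mul_of_pos_left hkey (Nat.mul_pos hA hpos)
      _ = _ := by ring
  rcases AutPSL.classify_even h2 rfl hnm hab e e' (one_mul 1) (by rw [one_smul]; exact hs) with
    ⟨h, -⟩ | ⟨-, ⟨-, h⟩ | ⟨-, h⟩⟩
  · exact h2 (by linear_combination h)
  · obtain ⟨e1⟩ := AutPSL.centralizer_gr (g := M) hn2 e one_ne_zero (by rw [one_smul]; exact h)
    have := (Nat.card_congr (e1.symm.trans iso).toEquiv).trans hsp
    rw [AutPSL.card_quot_plus h2 k] at this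
    exact absurd this (ne_of_lt (hlt _ (by omega)))
  · obtain ⟨e1⟩ := AutPSL.centralizer_gr (g := M) hn2 e' one_ne_zero (by rw [one_smul]; exact h)
    have := (Nat.card_congr (e1.symm.trans iso).toEquiv).trans hsp
    rw [AutPSL.card_quot_minus h2 k hab] at this
    exact absurd this (ne_of_lt (hlt _ le_rfl))

include hF in
theorem split_graph (hF₀ : Fintype.card F₀ = q) (hn : 3 ≤ n) (γ : MulAut (P n F q))
    (hγ : Cfsg.IsGraphAutClassPSU γ) (hγ2 : orderOf γ = 2) :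
    ((Even n ∧ Odd q ∧ Nonempty (↥(Cfsg.inndiagPSU n F q ⊓ Subgroup.centralizer {γ}) ≃* Cfsg.PGSp (n / 2) F₀)) →
      Cfsg.splitClassCount (Cfsg.inndiagPSU n F q) (Cfsg.Inn (P n F q)) γ = Nat.gcd (n / 2) (q + 1)) ∧
    ((Even n ∧ Odd q ∧ ¬ Nonempty (↥(Cfsg.inndiagPSU n F q ⊓ Subgroup.centralizer {γ}) ≃* Cfsg.PGSp (n / 2) F₀)) →
      Cfsg.splitClassCount (Cfsg.inndiagPSU n F q) (Cfsg.Inn (P n F q)) γ = Nat.gcd n (q + 1) / 2) ∧
    (¬ (Even n ∧ Odd q) →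
      Cfsg.splitClassCount (Cfsg.inndiagPSU n F q) (Cfsg.Inn (P n F q)) γ = Nat.gcd n (q + 1)) := by
  haveI : NeZero n := ⟨by omega⟩
  obtain ⟨ι, hι⟩ := exists_ι hF F₀ hF₀
  obtain ⟨γ₀, -, -, hp⟩ := exists_pair_right hF ι hι hn hγ hγ2
  obtain ⟨eC⟩ := hp.centralizer_iso hF ι hι hn
  obtain ⟨g, M, ε, rfl, rfl, hM, hA⟩ := hp.data
  rw [split_gr hF hn]
  refine ⟨?_, ?_, fun h => by rw [detC_other hF ι hι hA hn h, index_U1_pow hF]⟩
  all_goals rintro ⟨⟨m, hm⟩, hodd, hiso⟩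
  all_goals
    have hnm : n = 2 * m := by omega
    have hdiv : n / 2 = m := by omega
    rw [hdiv] at hiso
    have h2 : (2 : F₀) ≠ 0 := AutPSL.two_ne_of_odd_card (by rw [hF₀]; exact hodd)
    obtain ⟨k, rfl⟩ : ∃ k, m = k + 1 := ⟨m - 1, by omega⟩
    obtain ⟨b, hab⟩ := Classical.UnitaryFlat.exists_aniso F₀
    let e : Fin (k + 1) ⊕ Fin (k + 1) ≃ Fin n := Fintype.equivFinOfCardEq (by simp; omega)
    let e' : (Fin k ⊕ Fin k) ⊕ Fin 2 ≃ Fin n := Fintype.equivFinOfCardEq (by simp; omega)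
    have hεε : ε * ε = 1 := by
      have h1 := congrArg Matrix.transpose hM
      rw [transpose_transpose, transpose_smul, hM, smul_smul] at h1
      by_contra hcc
      have h4 : (ε * ε - 1) • (M : Matrix (Fin n) (Fin n) F₀) = 0 := by
        rw [sub_smul, ← h1, one_smul, sub_self]
      exact M.ne_zero ((smul_eq_zero.1 h4).resolve_left (sub_ne_zero.2 hcc))
    rcases AutPSL.classify_even h2 rfl hnm hab e e' hεε hM with ⟨hε, hC⟩ | ⟨hε, hC⟩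
  · rw [hdiv, detC_symp hF ι hι hA hn hnm e hC, index_U1_pow hF]
  · subst hε
    rw [one_smul] at hM
    obtain ⟨i⟩ := hiso
    exact absurd ⟨eC.symm.trans i⟩ (not_iso_symp h2 hnm hM)
  · refine absurd ?_ hiso
    obtain ⟨e1⟩ := AutPSL.centralizer_eqSim (g := M) (by omega) e one_ne_zero (by rw [one_smul]; exact hC)
      (AutPSL.gsp_eq (k + 1))
    exact ⟨eC.trans e1⟩
  · subst hε
    rw [one_smul] at hM
    rw [detC_symm hF ι hι hA h2 hn hnm hM]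
    have := index_U1_comap hF hodd (k + 1)
    rw [← hnm] at this
    omega

end Cfsg.Agent.Lib.AutPSU
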